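import Cfsg.Agent.H2.CE4

/-! Residual limits of saturated fusion systems. -/

set_option autoImplicit false

namespace H2
open Subgroup Cfsg Cfsg.FusionSystem H7
open scoped commutatorElement

universe u

variable {Ω : Type u} [Group Ω] {S T U V W X Y P Q R : Subgroup Ω} {F : FusionSystem S}
  {E : FusionSystem T} {D : FusionSystem Y} {L : FusionSystem V} {N : FusionSystem W} {p : ℕ}
  {f g : Ω → Ω}

/-- systems equal to both residuals -/
structure RSt (L : FusionSystem V) (p : ℕ) : Prop where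
  hyp : L.hyperfocalSubgroup p = V
  res : L.IsPPrimeResidual p L

variable [Fact p.Prime]

theorem RSt.subn [Finite S] (h : RSt L p) (hS : IsPGroup p S) (k : L.IsSubnormalIn F p)
    (n : Nrm E F p) (l : V ≤ T) : L.IsSubnormalIn E p := by
  obtain ⟨U, D, e, d1, d2⟩ := subn_meet k hS n
  have lV := sub_le (subnormal_sub k)
  haveI := finite_of_le lV
  obtain rfl := e.trans (inf_eq_left.2 l)
  exact subnormal_congr d2 d1.inv.sub ((ppres_iff.1 h.res).2.2 D d1.satE
    (d1.inv.qi (hS.to_le lV) d1.satF))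

theorem lim_nrm (h : L.IsResidualLimitOf E p) : ∀ {S : Subgroup Ω} {F : FusionSystem S} [Finite S],
    IsPGroup p S → Nrm E F p → Nrm L F p ∧ RSt L p := by
  rename_i hp
  revert hp
  induction h with
  | stable E p h1 h2 => exact fun _ n => ⟨n, h1, h2⟩
  | step E p D D' k1 k2 _ ih =>
    intro _ S F _ hS n
    haveI := finite_of_le n.le
    rw [pres_iff] at k1
    have m := k1.2.nrm_trans k1.1 n hS (n.inv.hyp_sc hS n.satE)
    exact ih hS (ppres_nrm hS n.satF m.satE m.inv k2)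

theorem lim_max (h : D.IsResidualLimitOf F p) : ∀ [Finite S], IsPGroup p S → F.IsSaturated p →
    RSt L p → L.IsSubnormalIn F p → L.IsSubsystemOf D := by
  rename_i hp
  revert hp
  induction h with
  | stable E p h1 h2 => exact fun _ _ _ k => subnormal_sub k
  | step F p D D' k1 k2 _ ih =>
    intro _ _ hS hF s k
    have l := hyp_le F p
    haveI := finite_of_le l
    rw [pres_iff] at k1
    have l1 := s.hyp.ge.trans (hyp_mono (subnormal_sub k))
    exact ih (hS.to_le l) k2.1 s (s.subn (hS.to_le l) (s.subn hS k (k1.2.nrm hS hF k1.1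
      (le_normalizer_hyp F p)) l1) (ppres_nrm_top (hS.to_le l) k1.1 k2) l1)

variable [Finite S]

/-- the residual limit of a normal subsystem containing the support of `F^∞` -/
theorem Nrm.lim_eq (n : Nrm E F p) (hS : IsPGroup p S) (h1 : L.IsResidualLimitOf F p)
    (h2 : D.IsResidualLimitOf E p) (l : V ≤ T) (P : Subgroup Ω) : L.Hom P = D.Hom P := by
  haveI := finite_of_le n.le
  have a := lim_nrm h1 hS (nrm_refl n.satF)
  have b := lim_nrm h2 hS n
  exact hom_eq_of_sub (lim_max h2 (hS.to_le n.le) n.satE a.2 (a.2.subn hS a.1.subnormal n l))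
    (lim_max h1 hS n.satF b.2 b.1.subnormal) P

theorem Inv.mid (h : Inv E F) (hS : IsPGroup p S) (hN : N.IsSaturated p) (h1 : E.IsSubsystemOf N)
    (h2 : N.IsSubsystemOf F) : Inv E N :=
  haveI := finite_of_le (sub_le h2)
  inv_of_strong (hS.to_le (sub_le h2)) hN h1 (sc_sub h2 h.sc (sub_le h1)) (h.strong.mono h2)

theorem sc_NK (hS : IsPGroup p S) (hF : F.IsSaturated p) (hT : F.StronglyClosed T)
    (hW : F.StronglyClosed W) {K : Subgroup (MulAut T)} (hK : F.autGroup T ≤ nrm K)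
    (l : T ≤ NK W T K) : F.StronglyClosed (NK W T K) := by
  refine stronglyClosed_iff.2 ⟨NK_le.trans hW.1, fun P f hf x hx hx' => ?_⟩
  obtain ⟨g, g1, g2⟩ := factor_lemma hS hF hT hf
  obtain ⟨α, a1, a2⟩ := sc_exists_aut hT g1 le_sup_right
  obtain ⟨x1, β, b1, b2⟩ := mem_NK.1 hx'
  have : g x ∈ NK W T K := mem_NK.2 ⟨sc_mem hW g1 (mem_sup_left hx) x1, _,
    conj_mem_of_mem_normalizer (hK a1) b1, fun y hy => by
      have y1 := afn_maps α⁻¹ hy
      have x2 := NK_le_normalizer hx'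
      rw [afn_conj' _ _ hy, b2 _ y1, a2 _ (conj_mem_of_mem_normalizer x2 y1),
        g1.homOn.conj (mem_sup_left hx) (mem_sup_right y1), ← a2 _ y1, afn_afn_inv _ hy]⟩
  simpa using mul_mem this (l (g2 x hx))

/-- reduction to `T C_S(T)` -/
theorem Nrm.exists_red (n : Nrm E F p) (hS : IsPGroup p S)
    (h : ∀ A ≤ F.autGroup T, A ≤ pRes p A ⊔ E.autGroup T → A ≤ pGen p A ⊔ E.autGroup T →
      A ≤ E.autGroup T) :
    ∃ N : FusionSystem (T ⊔ centralizerIn S T), Nrm N F p ∧ E.IsSubsystemOf N ∧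
      N.autGroup T = E.autGroup T ∧ ∀ (V : Subgroup Ω) (L : FusionSystem V), RSt L p →
        L.IsSubnormalIn F p → V ≤ T ⊔ centralizerIn S T := by
  haveI := finite_of_le n.le
  haveI := finite_mulAut n.le
  have hF := n.satF
  have nB := n.inv.autGroup_normal le_rfl
  refine sub_induction (Φ := fun {W} N => Nrm N F p → E.IsSubsystemOf N → centralizerIn S T ≤ W →
    (∀ (V : Subgroup Ω) (L : FusionSystem V), RSt L p → L.IsSubnormalIn F p → V ≤ W) →
    ∃ N : FusionSystem (T ⊔ centralizerIn S T), Nrm N F p ∧ E.IsSubsystemOf N ∧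
      N.autGroup T = E.autGroup T ∧ ∀ (V : Subgroup Ω) (L : FusionSystem V), RSt L p →
        L.IsSubnormalIn F p → V ≤ T ⊔ centralizerIn S T) (fun {W} _ N ih m e1 e2 e3 => ?_) F
    (nrm_refl hF) n.inv.sub centralizerIn_le fun V L _ k => sub_le (subnormal_sub k)
  by_contra ne
  have pW := hS.to_le m.le
  have lT := sub_le e1
  have i := n.inv.mid hS m.satE e1 m.inv.sub
  have nA := m.inv.autGroup_normal lT
  have aF := autGroup_mono m.inv.sub T
  have syl := sat_sylow pW m.satE (sc_fullyNormalized i.sc)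
  have k1 : N.autGroup T ≤ pRes p (N.autGroup T) ⊔ E.autGroup T := by
    have l0 : T ≤ NK W T (pRes p (N.autGroup T) ⊔ E.autGroup T) := fun t ht =>
      mem_NK_iff_cAut.2 ⟨lT ht, le_normalizer ht, mem_sup_right
        (autInducedBy_le_autGroup E le_rfl (cAut_mem _ ht))⟩
    have l1 := (hyp_le_NK pW m.satE i.sc).trans (NK_mono (sup_le_sup_left (Inn_le_autGroup E le_rfl) _))
    obtain ⟨N', s', n'⟩ := exists_pi pW m.satE NK_le l1
    by_cases k : N.IsSubsystemOf N'
    · exact syl.pRes_sup.ge.trans (sup_le le_sup_left (((autInducedBy_mono (sub_le k) T).trans_eq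
        (autInducedBy_NK _)).trans inf_le_right))
    · exact (ne (ih N' n'.sub k (n'.nrm_trans s' m hS (sc_NK hS hF n.inv.sc m.inv.sc
        (le_normalizer_sup' (nA.trans (normalizer_le_normalizer_pRes _)) nB) l0))
        (n'.ge pW n.satE e1 l0) (fun c hc => centralizerIn_le_NK ⟨e2 hc, hc.2⟩)
        fun V L s k => s.hyp.ge.trans ((hyp_mono (subnormal_sub (s.subn hS k m (e3 V L s k)))).trans
          l1))).elim
  have k2 : N.autGroup T ≤ pGen p (N.autGroup T) ⊔ E.autGroup T := by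
    have nK := le_normalizer_sup' (nA.trans (nrm_le_nrm_pGen (p := p))) nB
    obtain ⟨D, d1, d2, d3⟩ := i.exists_qi pW m.satE n.satE (K := pGen p (N.autGroup T) ⊔
      E.autGroup T) le_sup_right (sup_le pGen_le (autGroup_mono e1 T)) (aF.trans nK)
      fun γ hγ k hk => by
        obtain ⟨a, b, a1, b1, e, ⟨j, a2⟩, b2⟩ := exists_p_part (p := p) γ (orderOf_pos γ).ne'
        have a3 : a ∈ pGen p (N.autGroup T) ⊔ E.autGroup T := mem_sup_left
          (mem_pGen (zpowers_le.2 hγ a1) (a2 ▸ pow_orderOf_eq_one a))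
        have c : Commute a b := by
          obtain ⟨i, rfl⟩ := a1; obtain ⟨j, rfl⟩ := b1; exact Commute.zpow_zpow_self _ _ _
        rw [e, c.mul_pow] at hk
        exact e ▸ mul_mem a3 (mem_of_pow_p_mem b2 ((mul_mem_cancel_left (pow_mem a3 _)).1 hk))
    by_cases k : N.IsSubsystemOf D
    · intro α hα
      have a1 := (mem_autGroup lT).1 hα
      obtain ⟨β, b1, b2⟩ := (d3 T _ le_rfl a1).1 (a1.sub k)
      exact afn_ext b2 ▸ b1
    refine (ne (ih D d1.inv.sub k (d1.char m hS fun a a' Y D' a1 j1 j2 l => ?_) d2 e2 e3)).elim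
    obtain rfl : Y = W := j2.onto.symm.trans j1.onto
    have d' := j1.nrm j2 pW d1
    obtain ⟨O, o, -⟩ := exists_ppres' pW m.satE
    have o1 := ppres_nrm_top pW m.satE o
    have o2 := fun (C : FusionSystem Y) (c : Nrm C N p) =>
      (ppres_iff.1 o).2.2 C c.satE (c.inv.qi pW m.satE)
    refine sub_iff_mor.2 fun P f hf => ?_
    obtain ⟨b, f₀, b1, f1, f2⟩ := (o1.inv.mid pW d'.satE (o2 _ d') l).frat P hf.le f hf
    refine (Mor.comp ?_ (f1.sub (o2 _ d1)) fun x => f1.mem).congr fun x hx => (f2 x hx).symm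
    have b2 := j2.symm.mor b1
    rw [j2.symm.onto] at b2
    obtain ⟨β, c1, c2⟩ := (d3 _ _ lT (b2.sub d1.inv.sub)).1 b2
    obtain ⟨α, c3, c4⟩ := sc_exists_aut n.inv.sc a1 lT
    refine (d3 _ _ lT (b1.sub l)).2 ⟨_, conj_mem_of_mem_normalizer (nK c3) c1, fun t ht => ?_⟩
    have t1 := afn_maps α⁻¹ ht
    rw [afn_conj' _ _ ht, c4 _ (afn_maps _ t1), c2 _ t1, ← c4 _ t1, afn_afn_inv _ ht,
      j1.r _ (b1.mem (lT ht))]
  have k := le_antisymm (h _ aF k1 k2) (autGroup_mono e1 T)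
  obtain rfl : W = T ⊔ centralizerIn S T := le_antisymm (fun s hs =>
    have s1 := sc_le_normalizer i.sc hs
    mem_sup_centralizerIn_of_Inn n.le (m.le hs) s1 (((sat_sylow_top (hS.to_le n.le) n.satE).eq_of_le
      syl.isPGroup (Inn_le_autInducedBy lT) (syl.le.trans k.le)).le (cAut_mem s1 hs))) (sup_le lT e2)
  exact ne ⟨N, m, e1, k, e3⟩

omit [Fact p.Prime] [Finite S] in
theorem commutator_sup_cen_le (h : ⁅centralizerIn S T, centralizerIn S T⁆ ≤ T) :
    ⁅T ⊔ centralizerIn S T, T ⊔ centralizerIn S T⁆ ≤ T := by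
  refine commutator_le.2 fun x hx y hy => ?_
  obtain ⟨t, t1, c, c1, rfl⟩ := (mem_sup_of_cen (le_centralizer_iff.1 inf_le_right) le_rfl
    le_rfl).1 hx
  obtain ⟨u, u1, d, d1, rfl⟩ := (mem_sup_of_cen (le_centralizer_iff.1 inf_le_right) le_rfl
    le_rfl).1 hy
  have := mul_mem (mul_mem (mul_mem (mul_mem t1 u1) (h (commutator_mem_commutator c1 d1)))
    (inv_mem t1)) (inv_mem u1)
  rwa [show ⁅t * c, u * d⁆ = t * (c * u) * d * c⁻¹ * (d * t)⁻¹ * u⁻¹ by
    rw [commutatorElement_def]; group, ← c1.2 u u1, ← d1.2 t t1,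
    show t * (u * c) * d * c⁻¹ * (t * d)⁻¹ * u⁻¹ = t * u * ⁅c, d⁆ * t⁻¹ * u⁻¹ by
      rw [commutatorElement_def]; group]

/-- the focal subgroup of a system on `T C_S(T)` -/
theorem Nrm.focal_le (n : Nrm E F p) (hS : IsPGroup p S) (hN : N.IsSaturated p)
    (h1 : N.IsSubsystemOf F) (h2 : T ≤ W) (h3 : W ≤ T ⊔ centralizerIn S T)
    (h4 : N.autGroup T ≤ E.autGroup T) : N.focalSubgroup ≤ T ⊔ cenS F E p := by
  haveI := finite_of_le (sub_le h1)
  haveI := finite_of_le (sup_le n.le centralizerIn_le : T ⊔ centralizerIn S T ≤ S)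
  have sc := sc_sub h1 n.inv.sc h2
  refine focal_le_iff.2 fun P f hf x hx => ?_
  obtain ⟨g, g1, g2⟩ := factor_lemma (hS.to_le (sub_le h1)) hN sc hf
  obtain ⟨α, a1, a2⟩ := sc_exists_aut sc g1 le_sup_right
  obtain ⟨b, b1, b2, b3⟩ := n.ext _ ((mem_autGroup le_rfl).1 (h4 a1))
  obtain ⟨b', i⟩ := b1.exists_iso' (b1.img_eq_self (b1.maps_sup_centralizerIn n.inv.sc).2)
  obtain ⟨t, t1, c, c1, rfl⟩ := (mem_sup_of_cen (le_centralizer_iff.1 inf_le_right) le_rfl
    le_rfl).1 (h3 (hf.le hx))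
  have c2 : c ∈ P ⊔ T := (mul_mem_cancel_left (mem_sup_right t1)).1 (mem_sup_left hx)
  have m : ∀ y ∈ P ⊔ T, g y ∈ T ⊔ centralizerIn S T := fun y hy => h3 (g1.mem hy)
  have k : c⁻¹ * b' (g c) ∈ cenS F E p := mem_cenS_of_fix (i.mg.comp (g1.sub h1) m) le_sup_right
    (fun t ht => by rw [← a2 t ht, ← b2 t ht, i.gf t (mem_sup_left ht)]) c2 c1.2
  have k1 : b' (g c) ∈ centralizerIn S T := (mul_mem_cancel_left (inv_mem c1)).1 (H2.cenS_le k)
  have k2 := b3 _ k1
  rw [i.fg _ (m c c2)] at k2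
  have := mul_mem (mul_mem (mul_mem (mem_sup_left (conj_mem_of_mem_normalizer'
    (sc_le_normalizer n.inv.sc c1.1) (mul_mem (inv_mem t1) (sc_mem sc g1 (mem_sup_right t1) t1))))
    (mem_sup_right k)) (mem_sup_left k2)) (mem_sup_left (g2 _ hx))
  rw [g1.homOn _ (mem_sup_right t1) _ c2] at this
  convert this using 1
  group

theorem Nrm.cenS_le_of (n : Nrm E F p) (hS : IsPGroup p S) (h : ∀ Y, Y ≤ centralizerIn S T →
    (∀ C : FusionSystem (centralizerIn S Y), F.IsCentralizerSystem Y C → E.IsSubsystemOf C) →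
      Y ≤ T) : cenS F E p ≤ T :=
  h _ H2.cenS_le fun _ c => (isCentralizerSystem_iff.1 c).cz_iff.2 (n.cz_cenS hS)

omit [Finite S] in
theorem le_of_psolv {G : Type*} [Group G] {A B : Subgroup G} [Finite A]
    [(B.subgroupOf A).Normal] (h : IsPSolvable p (A ⧸ B.subgroupOf A)) :
    ∀ K ≤ A, K ≤ pRes p K ⊔ B ⊓ A → K ≤ pGen p K ⊔ B ⊓ A → K ≤ B := fun K l h1 h2 => by
  let φ := QuotientGroup.mk' (B.subgroupOf A)
  have e : ∀ X ≤ A, K ≤ X ⊔ B ⊓ A → (K.subgroupOf A).map φ ≤ (X.subgroupOf A).map φ :=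
    fun X lX k => by
    refine (map_mono (show _ ≤ (X ⊔ B ⊓ A).subgroupOf A from comap_mono k)).trans ?_
    rw [subgroupOf_sup lX inf_le_right, Subgroup.map_sup, inf_subgroupOf_right,
      (Subgroup.map_eq_bot_iff _).2 (QuotientGroup.ker_mk' _).ge, sup_bot_eq]
  have m : ∀ X : Subgroup A, (X.map A.subtype).subgroupOf A = X := fun X =>
    comap_map_eq_self_of_injective A.subtype_injective X
  have := ps_top_iff.1 h ((K.subgroupOf A).map φ) le_top (le_antisymm (pRes_le _) (by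
    rw [← map_pRes]
    refine (e _ ((pRes_le _).trans l) h1).trans_eq ?_
    rw [← m (pRes p _), map_pRes, map_subgroupOf_eq_of_le l])) (le_antisymm pGen_le
    (((e _ (pGen_le.trans l) h2).trans (map_mono ?_)).trans (map_pGen_le φ)))
  · exact fun x hx => ((Subgroup.map_eq_bot_iff _).1 this).trans (QuotientGroup.ker_mk' _).le
      (show (⟨x, l hx⟩ : A) ∈ K.subgroupOf A from hx)
  · refine fun x hx => ?_
    rw [← m (pGen p _)]
    exact (pGen_le_iff.2 fun a ha ⟨k, hk⟩ => ⟨⟨a, l ha⟩, mem_pGen ha (Subtype.ext hk), rfl⟩ :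
      pGen p K ≤ (pGen p (K.subgroupOf A)).map A.subtype) hx

end H2
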