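import Cfsg.Agent.H2.Basic
import Cfsg.Agent.H8.Misc1

/-! Casolo's count of the subnormalizer of a `p`-subgroup. -/

set_option autoImplicit false

namespace H2.Cas

open Subgroup Cfsg Classical

section Mu
variable {α : Type*} [PartialOrder α] [Fintype α]

/-- Möbius function towards `T` of the subposet cut out by `C`. -/
noncomputable def mu (C : α → Prop) (T : α) : α → ℤ :=
  (wellFounded_gt (α := α)).fix fun K ih =>
    (if K = T then 1 else 0) - ∑ L, if h : K < L ∧ C L then ih L h.1 else 0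

theorem mu_eq (C : α → Prop) (T K : α) :
    mu C T K = (if K = T then 1 else 0) - ∑ L, if K < L ∧ C L then mu C T L else 0 := by
  rw [mu, WellFounded.fix_eq]
  simp only [dite_eq_ite]

theorem sum_mu (C : α → Prop) (T X : α) (hX : C X) :
    (∑ L, if X ≤ L ∧ C L then mu C T L else 0) = if X = T then 1 else 0 := by
  have : ∀ L, (if X ≤ L ∧ C L then mu C T L else 0) =
      (if L = X then mu C T X else 0) + if X < L ∧ C L then mu C T L else 0 := by
    intro L
    by_cases h : L = X
    · subst h; simp [hX]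
    · simp [h, lt_iff_le_and_ne, Ne.symm h]
  simp only [this, Finset.sum_add_distrib, Finset.sum_ite_eq', Finset.mem_univ, if_true]
  rw [mu_eq]; ring
end Mu

variable {G : Type*} [Group G] {p : ℕ}

theorem subn_pCore {H : Subgroup G} (hH : H.IsSubnormal) :
    ∀ x : H, x ∈ pCore p H → (x : G) ∈ pCore p G := by
  have key : ∀ {Γ : Type _} [Group Γ] (N : Subgroup Γ) [N.Normal] (x : N), x ∈ pCore p N →
      (x : Γ) ∈ pCore p Γ := by
    intro Γ _ N _ x hx
    haveI : ((pCore p N).map N.subtype).Normal := ConjAct.normal_of_characteristic_of_normal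
    exact H1.le_pCore (N := (pCore p N).map N.subtype) (H1.isPGroup_pCore.map _) ⟨x, hx, rfl⟩
  induction hH with
  | top => exact key (Γ := G) ⊤
  | step H K hle _ hN ih =>
    intro x hx
    have h1 : (subgroupOfEquivOfLe hle).symm x ∈ pCore p (H.subgroupOf K) := by
      rw [← H1.map_pCore_equiv (subgroupOfEquivOfLe hle).symm]
      exact ⟨x, hx, rfl⟩
    exact ih _ (key (Γ := K) (H.subgroupOf K) _ h1)

theorem mem_norm_sInf {S : Set (Subgroup G)} {g : G}
    (h : ∀ K ∈ S, g ∈ normalizer (K : Set G)) : g ∈ normalizer ((sInf S : Subgroup G) : Set G) := by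
  rw [mem_normalizer_iff]
  intro x
  simp only [mem_sInf]
  exact forall₂_congr fun K hK => mem_normalizer_iff.1 (h K hK) x

/-- the least `g`-invariant subgroup containing `H` -/
def cl (H : Subgroup G) (g : G) : Subgroup G := sInf {K | H ≤ K ∧ g ∈ normalizer (K : Set G)}

theorem le_cl (H : Subgroup G) (g : G) : H ≤ cl H g := le_sInf fun _ h => h.1
theorem mem_norm_cl (H : Subgroup G) (g : G) : g ∈ normalizer (cl H g : Set G) :=
  mem_norm_sInf fun _ h => h.2
theorem cl_le {H K : Subgroup G} {g : G} (h1 : H ≤ K) (h2 : g ∈ normalizer (K : Set G)) :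
    cl H g ≤ K := sInf_le ⟨h1, h2⟩

theorem subn_iff [Finite G] [Fact p.Prime] {H : Subgroup G} (hH : IsPGroup p H) (g : G) :
    (H.subgroupOf (H ⊔ zpowers g)).IsSubnormal ↔ IsPGroup p (cl H g) := by
  set X := H ⊔ zpowers g with hX
  have hgX : g ∈ X := mem_sup_right (mem_zpowers g)
  constructor
  · intro h
    have h1 : IsPGroup p (H.subgroupOf X) := hH.comap_subtype
    have h2 : H ≤ (pCore p X).map X.subtype := fun x hx =>
      ⟨⟨x, mem_sup_left hx⟩, subn_pCore h ⟨⟨x, mem_sup_left hx⟩, hx⟩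
        (by rw [H1.pCore_eq_top_iff.2 h1]; trivial), rfl⟩
    refine (H1.isPGroup_pCore.map X.subtype).to_le (cl_le h2 (mem_normalizer_of_conj_mem ?_))
    rintro _ ⟨y, hy, rfl⟩
    exact ⟨_, (inferInstance : (pCore p X).Normal).conj_mem y hy ⟨g, hgX⟩, rfl⟩
  · intro h
    have hn : X ≤ normalizer (cl H g : Set G) :=
      sup_le ((le_cl H g).trans le_normalizer) (zpowers_le.2 (mem_norm_cl H g))
    haveI : ((cl H g).subgroupOf X).Normal := normal_subgroupOf_of_le_normalizer hn
    have h1 : IsPGroup p ((cl H g).subgroupOf X) := h.comap_subtype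
    haveI := h1.isNilpotent
    exact H8.isSubnormal_of_le_nilpotent (F := (cl H g).subgroupOf X) (comap_mono (le_cl H g))

/-- subgroups of `T` normalised by `T` and `g` -/
def CC (T : Subgroup G) (g : G) (L : Subgroup G) : Prop :=
  L ≤ T ∧ T ≤ normalizer (L : Set G) ∧ g ∈ normalizer (L : Set G)

variable [Fintype G] [Fintype (Subgroup G)] [Fact p.Prime]

theorem sum_B {H T : Subgroup G} {g : G} (hT : IsPGroup p T) (hg : g ∈ normalizer (T : Set G)) :
    (∑ K, if H ≤ K ∧ CC T g K then mu (CC T g) T K else 0) = if T = cl H g then 1 else 0 := by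
  by_cases hHT : H ≤ T
  swap
  · rw [Finset.sum_eq_zero, if_neg]
    · rintro rfl; exact hHT (le_cl H g)
    · intro K _
      rw [if_neg]
      exact fun h => hHT (h.1.trans h.2.1)
  set X := sInf {K | H ≤ K ∧ CC T g K} with hX
  have hXT : X ≤ T := sInf_le ⟨hHT, le_rfl, le_normalizer, hg⟩
  have hC : CC T g X :=
    ⟨hXT, fun t ht => mem_norm_sInf fun K hK => hK.2.2.1 ht, mem_norm_sInf fun K hK => hK.2.2.2⟩
  have hHX : H ≤ X := le_sInf fun _ h => h.1
  have e : ∀ K, (H ≤ K ∧ CC T g K) ↔ (X ≤ K ∧ CC T g K) := fun K =>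
    ⟨fun h => ⟨sInf_le h, h.2⟩, fun h => ⟨hHX.trans h.1, h.2⟩⟩
  simp only [e]
  rw [sum_mu _ _ _ hC]
  congr 1
  apply propext
  constructor
  · intro h
    by_contra hne
    have hlt : cl H g < T := lt_of_le_of_ne (cl_le hHT hg) (Ne.symm hne)
    obtain ⟨K, hK, hmax⟩ := WellFounded.has_min (wellFounded_gt (α := Subgroup G))
      {K | H ≤ K ∧ K < T ∧ g ∈ normalizer (K : Set G)} ⟨_, le_cl H g, hlt, mem_norm_cl H g⟩
    have h1 := lt_inf_normalizer hT hK.2.1
    have h2 : g ∈ normalizer ((T ⊓ normalizer (K : Set G) : Subgroup G) : Set G) := by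
      refine mem_normalizer_of_conj_mem fun x hx => ⟨conj_mem_of_mem_normalizer hg hx.1, ?_⟩
      exact Subgroup.mul_mem _ (Subgroup.mul_mem _ hK.2.2 hx.2) (Subgroup.inv_mem _ hK.2.2)
    have h3 : T ⊓ normalizer (K : Set G) = T := by
      by_contra h4
      exact hmax _ ⟨hK.1.trans h1.le, lt_of_le_of_ne inf_le_left h4, h2⟩ h1
    have h5 : X ≤ K := sInf_le ⟨hK.1, hK.2.1.le, inf_eq_left.1 h3, hK.2.2⟩
    exact (h ▸ h5).not_gt hK.2.1
  · intro h
    exact le_antisymm hXT (h.le.trans (cl_le hHX hC.2.2))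

omit [Fintype (Subgroup G)] [Fact p.Prime] in
theorem sum_mem (N : Subgroup G) : (∑ g, if g ∈ N then (1 : ℤ) else 0) = Nat.card N := by
  rw [Finset.sum_boole, Nat.card_eq_fintype_card, Fintype.card_subtype]

omit [Fintype (Subgroup G)] [Fact p.Prime] in
theorem fiber (N X : Subgroup G) {n : G} (hn : n ∈ N) :
    (∑ g, if g ∈ N ∧ cj g X = cj n X then (1 : ℤ) else 0) =
      Nat.card (N ⊓ normalizer (cj n X : Set G) : Subgroup G) := by
  rw [← sum_mem, ← Equiv.sum_comp (Equiv.mulRight n)]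
  refine Finset.sum_congr rfl fun g _ => ?_
  simp only [Equiv.coe_mulRight, mul_mem_cancel_right hn, mem_inf, mem_normalizer_iff_cj, cj_cj]

omit [Fintype (Subgroup G)] [Fact p.Prime] in
theorem fiber' (X : Subgroup G) (n : G) :
    (∑ g, if cj g X = cj n X then (1 : ℤ) else 0) = Nat.card (normalizer (X : Set G)) := by
  rw [← sum_mem, ← Equiv.sum_comp (Equiv.mulLeft n)]
  refine Finset.sum_congr rfl fun g _ => ?_
  simp only [Equiv.coe_mulLeft, mem_normalizer_iff_cj, ← cj_cj]
  congr 1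
  exact propext ⟨cj_injective n, fun h => by rw [h]⟩

theorem syl_iff {L N : Subgroup G} (hL : IsPGroup p L) (hLN : L ≤ N) :
    IsSylowIn p L (N ⊓ normalizer (L : Set G)) ↔ IsSylowIn p L N := by
  refine ⟨fun h => ?_, fun h => h.mono (le_inf hLN le_normalizer) inf_le_left⟩
  obtain ⟨Q, hQ, hLQ⟩ := exists_isSylowIn_ge hL hLN
  rcases hLQ.lt_or_eq with hlt | rfl
  · have h1 := lt_inf_normalizer hQ.isPGroup hlt
    exact absurd (h.eq_of_le (hQ.isPGroup.to_le inf_le_left) h1.le (inf_le_inf hQ.le le_rfl)) h1.ne'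
  · exact hQ

theorem syl_cj {L N : Subgroup G} (h : IsSylowIn p L N) {g : G} (hg : g ∈ N) :
    IsSylowIn p (cj g L) N := by
  have hp : IsPGroup p (cj g L) := h.isPGroup.map _
  have hle : cj g L ≤ N := (cj_mono g h.le).trans (cj_eq_of_mem hg).le
  obtain ⟨Q, hQ, hLQ⟩ := exists_isSylowIn_ge hp hle
  have := h.eq_of_le (Q := cj g⁻¹ Q) (hQ.isPGroup.map _) (cj_le_iff_le_cj_inv.1 hLQ)
    ((cj_mono _ hQ.le).trans (cj_eq_of_mem (inv_mem hg)).le)
  rw [← this, cj_cj_inv]; exact hQ

theorem sum_syl (N : Subgroup G) :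
    (∑ L, if IsSylowIn p L N then (Nat.card (N ⊓ normalizer (L : Set G) : Subgroup G) : ℤ) else 0) =
      Nat.card N := by
  obtain ⟨P, hP, -⟩ := exists_isSylowIn_ge (IsPGroup.of_bot (p := p)) (bot_le : ⊥ ≤ N)
  have : ∀ L, (if IsSylowIn p L N then (Nat.card (N ⊓ normalizer (L : Set G) : Subgroup G) : ℤ)
      else 0) = ∑ g, if g ∈ N ∧ cj g P = L then (1 : ℤ) else 0 := by
    intro L
    split_ifs with h
    · obtain ⟨n, hn, rfl⟩ := hP.exists_cj_eq h
      rw [fiber N P hn]
    · refine (Finset.sum_eq_zero fun g _ => if_neg ?_).symm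
      rintro ⟨hg, rfl⟩
      exact h (syl_cj hP hg)
  simp only [this]
  rw [Finset.sum_comm, ← sum_mem]
  refine Finset.sum_congr rfl fun g _ => ?_
  by_cases hg : g ∈ N <;> simp [hg]

variable (p) in
/-- the weighted count of chains starting at `K` inside `N` -/
noncomputable def AA (N K : Subgroup G) : ℤ :=
  ∑ g, ∑ T, if g ∈ N ∧ K ≤ T ∧ T ≤ N ∧ IsPGroup p T ∧ g ∈ normalizer (T : Set G) then
    mu (CC T g) T K else 0

theorem AA_eq (K : Subgroup G) : ∀ N : Subgroup G, IsPGroup p K → K ≤ N →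
    N ≤ normalizer (K : Set G) → AA p N K = if IsSylowIn p K N then (Nat.card N : ℤ) else 0 := by
  induction K using WellFoundedGT.induction with
  | ind K ih =>
  intro N hK hKN hNK
  have e1 : AA p N K = Nat.card N - ∑ L, if K < L ∧ L ≤ N ∧ IsPGroup p L then
      AA p (N ⊓ normalizer (L : Set G)) L else 0 := by
    have a1 : ∀ g T, (if g ∈ N ∧ K ≤ T ∧ T ≤ N ∧ IsPGroup p T ∧ g ∈ normalizer (T : Set G) then
        mu (CC T g) T K else 0) = (if T = K then (if g ∈ N then 1 else 0) else 0) -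
        ∑ L, if K < L ∧ L ≤ N ∧ IsPGroup p L then
          (if g ∈ N ⊓ normalizer (L : Set G) ∧ L ≤ T ∧ T ≤ N ⊓ normalizer (L : Set G) ∧
            IsPGroup p T ∧ g ∈ normalizer (T : Set G) then mu (CC T g) T L else 0) else 0 := by
      intro g T
      by_cases h : g ∈ N ∧ K ≤ T ∧ T ≤ N ∧ IsPGroup p T ∧ g ∈ normalizer (T : Set G)
      · rw [if_pos h, mu_eq, if_pos h.1]
        congr 1
        · simp only [eq_comm]
        · refine Finset.sum_congr rfl fun L _ => ?_
          rw [← ite_and]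
          congr 1
          exact propext ⟨fun k => ⟨⟨k.1, k.2.1.trans h.2.2.1, h.2.2.2.1.to_le k.2.1⟩,
            ⟨h.1, k.2.2.2⟩, k.2.1, le_inf h.2.2.1 k.2.2.1, h.2.2.2⟩,
            fun k => ⟨k.1.1, k.2.2.1, k.2.2.2.1.trans inf_le_right, k.2.1.2⟩⟩
      · rw [if_neg h, Finset.sum_eq_zero, sub_zero]
        · split_ifs with h1 h2
          · subst h1
            exact absurd ⟨h2, le_rfl, hKN, hK, hNK h2⟩ h
          all_goals rfl
        · intro L _
          rw [← ite_and, if_neg]
          exact fun k => h ⟨k.2.1.1, k.1.1.le.trans k.2.2.1, k.2.2.2.1.trans inf_le_left, k.2.2.2.2⟩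
    simp only [AA, a1, Finset.sum_sub_distrib, Finset.sum_ite_eq', Finset.mem_univ, if_true, sum_mem]
    congr 1
    simp only [Finset.sum_comm (γ := Subgroup G) (s := Finset.univ) (t := (Finset.univ : Finset (Subgroup G)))
      (f := fun T L => if K < L ∧ L ≤ N ∧ IsPGroup p L then
          (if _ ∈ N ⊓ normalizer (L : Set G) ∧ L ≤ T ∧ T ≤ N ⊓ normalizer (L : Set G) ∧
            IsPGroup p T ∧ _ ∈ normalizer (T : Set G) then mu (CC T _) T L else 0) else 0)]
    rw [Finset.sum_comm]
    refine Finset.sum_congr rfl fun L _ => ?_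
    split_ifs <;> simp
  have e2 : ∀ L, (if K < L ∧ L ≤ N ∧ IsPGroup p L then AA p (N ⊓ normalizer (L : Set G)) L else 0) =
      if K < L ∧ IsSylowIn p L N then (Nat.card (N ⊓ normalizer (L : Set G) : Subgroup G) : ℤ)
        else 0 := by
    intro L
    by_cases h : K < L ∧ L ≤ N ∧ IsPGroup p L
    · rw [if_pos h, ih L h.1 _ h.2.2 (le_inf h.2.1 le_normalizer) inf_le_right]
      simp only [syl_iff h.2.2 h.2.1, h.1, true_and]
    · rw [if_neg h, if_neg]
      exact fun k => h ⟨k.1, k.2.le, k.2.isPGroup⟩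
  rw [e1]
  simp only [e2]
  split_ifs with h
  · rw [Finset.sum_eq_zero, sub_zero]
    intro L _
    exact if_neg fun k => k.1.ne' (h.eq_of_le k.2.isPGroup k.1.le k.2.le)
  · rw [← sum_syl (p := p) N, sub_eq_zero]
    refine Finset.sum_congr rfl fun L _ => ?_
    congr 1
    refine propext ⟨fun k => ⟨lt_of_le_of_ne ?_ (fun e => h (e ▸ k)), k⟩, fun k => k.2⟩
    have := k.eq_of_le (k.isPGroup.to_sup_of_normal_right' hK (k.le.trans hNK)) le_sup_left
      (sup_le k.le hKN)
    exact le_sup_right.trans this.le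

theorem main (H : Subgroup G) :
    (∑ g, if IsPGroup p (cl H g) then (1 : ℤ) else 0) =
      ∑ K, if H ≤ K ∧ IsSylowIn p K ⊤ then (Nat.card (normalizer (K : Set G)) : ℤ) else 0 := by
  have a1 : ∀ g, (if IsPGroup p (cl H g) then (1 : ℤ) else 0) =
      ∑ K, ∑ T, if H ≤ K ∧ IsPGroup p K then
        (if g ∈ normalizer (K : Set G) ∧ K ≤ T ∧ T ≤ normalizer (K : Set G) ∧ IsPGroup p T ∧
          g ∈ normalizer (T : Set G) then mu (CC T g) T K else 0) else 0 := by
    intro g
    rw [Finset.sum_comm]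
    have b1 : ∀ T : Subgroup G, (∑ K, if H ≤ K ∧ IsPGroup p K then
        (if g ∈ normalizer (K : Set G) ∧ K ≤ T ∧ T ≤ normalizer (K : Set G) ∧ IsPGroup p T ∧
          g ∈ normalizer (T : Set G) then mu (CC T g) T K else 0) else 0) =
        if T = cl H g then (if IsPGroup p (cl H g) then 1 else 0) else 0 := by
      intro T
      by_cases h : IsPGroup p T ∧ g ∈ normalizer (T : Set G)
      · have : (if T = cl H g then (if IsPGroup p (cl H g) then (1 : ℤ) else 0) else 0) =
            if T = cl H g then 1 else 0 := by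
          by_cases e : T = cl H g
          · rw [if_pos e, if_pos e, if_pos (e ▸ h.1)]
          · rw [if_neg e, if_neg e]
        rw [this, ← sum_B h.1 h.2]
        refine Finset.sum_congr rfl fun K _ => ?_
        rw [← ite_and]
        congr 1
        exact propext ⟨fun k => ⟨k.1.1, k.2.2.1, k.2.2.2.1, k.2.1⟩,
          fun k => ⟨⟨k.1, h.1.to_le k.2.1⟩, k.2.2.2, k.2.1, k.2.2.1, h⟩⟩
      · rw [Finset.sum_eq_zero]
        · split_ifs with h1 h2
          · subst h1
            exact absurd ⟨h2, mem_norm_cl H g⟩ h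
          all_goals rfl
        · intro K _
          rw [← ite_and, if_neg]
          exact fun k => h k.2.2.2.2
    simp only [b1, Finset.sum_ite_eq', Finset.mem_univ, if_true]
  simp only [a1]
  rw [Finset.sum_comm]
  refine Finset.sum_congr rfl fun K _ => ?_
  by_cases h : H ≤ K ∧ IsPGroup p K
  · simp only [if_pos h]
    have := AA_eq (p := p) K _ h.2 le_normalizer le_rfl
    rw [AA] at this
    rw [this, ← syl_iff h.2 le_top, top_inf_eq]
    simp only [h.1, true_and]
  · simp only [if_neg h, Finset.sum_const_zero]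
    rw [if_neg]
    exact fun k => h ⟨k.1, k.2.isPGroup⟩

omit [Fact p.Prime] in
/-- counting elements by the conjugate they produce -/
theorem count_cj (X : Subgroup G) (Φ : Subgroup G → Prop) :
    (∑ g, if Φ (cj g X) then (1 : ℤ) else 0) =
      Nat.card {K : Subgroup G // Φ K ∧ ∃ g : G, K = cj g X} * Nat.card (normalizer (X : Set G)) := by
  have a1 : ∀ g, (if Φ (cj g X) then (1 : ℤ) else 0) =
      ∑ K, if Φ K ∧ ∃ g : G, K = cj g X then (if cj g X = K then 1 else 0) else 0 := by
    intro g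
    rw [Finset.sum_eq_single (cj g X)]
    · by_cases h : Φ (cj g X)
      · rw [if_pos h, if_pos ⟨h, g, rfl⟩, if_pos rfl]
      · rw [if_neg h, if_neg fun k => h k.1]
    · intro K _ hK
      simp [Ne.symm hK]
    · simp
  simp only [a1]
  rw [Finset.sum_comm, Nat.card_eq_fintype_card, Fintype.card_subtype, Finset.card_filter]
  push_cast
  rw [Finset.sum_mul]
  refine Finset.sum_congr rfl fun K _ => ?_
  split_ifs with h
  · obtain ⟨-, n, rfl⟩ := h
    rw [fiber', one_mul]
  · simp

end H2.Cas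

namespace H2.Cas
open Subgroup Cfsg Classical

theorem casolo {G : Type*} [Group G] [Finite G] (p : ℕ) [Fact p.Prime]
    (H : Subgroup G) (hH : IsPGroup p H) (P : Sylow p G) :
    Nat.card {g : G // ((H).subgroupOf (H ⊔ Subgroup.zpowers g)).IsSubnormal} =
        Nat.card {Q : Sylow p G // H ≤ (Q : Subgroup G)} *
          Nat.card (Subgroup.normalizer ((P : Subgroup G) : Set G)) ∧
    Nat.card {g : G // ((H).subgroupOf (H ⊔ Subgroup.zpowers g)).IsSubnormal} =
        Nat.card {K : Subgroup G // K ≤ (P : Subgroup G) ∧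
          ∃ g : G, K = H.map (MulAut.conj g).toMonoidHom} *
          Nat.card (Subgroup.normalizer (H : Set G)) := by
  letI := Fintype.ofFinite G
  letI := Fintype.ofFinite (Subgroup G)
  have hP := sylow_isSylowIn_top P
  have c1 : Nat.card {Q : Sylow p G // H ≤ (Q : Subgroup G)} =
      Nat.card {K : Subgroup G // H ≤ K ∧ ∃ g : G, K = cj g P} := by
    refine Nat.card_congr (Equiv.ofBijective (fun Q => ⟨Q.1, Q.2, ?_⟩) ⟨?_, ?_⟩)
    · obtain ⟨g, -, e⟩ := hP.exists_cj_eq (sylow_isSylowIn_top Q.1)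
      exact ⟨g, e.symm⟩
    · intro Q Q' h
      exact Subtype.ext (Sylow.ext (congrArg Subtype.val h))
    · rintro ⟨K, h, g, rfl⟩
      exact ⟨⟨(syl_cj hP (mem_top g)).toSylowTop, h⟩, rfl⟩
  have c2 : (Nat.card {g : G // ((H).subgroupOf (H ⊔ Subgroup.zpowers g)).IsSubnormal} : ℤ) =
      Nat.card {K : Subgroup G // H ≤ K ∧ ∃ g : G, K = cj g P} *
        Nat.card (Subgroup.normalizer ((P : Subgroup G) : Set G)) := by
    simp only [subn_iff hH]
    rw [Nat.card_eq_fintype_card, Fintype.card_subtype, Finset.card_filter]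
    push_cast
    rw [main, Nat.card_eq_fintype_card (α := Subtype _), Fintype.card_subtype, Finset.card_filter]
    push_cast
    rw [Finset.sum_mul]
    refine Finset.sum_congr rfl fun K _ => ?_
    by_cases h : H ≤ K ∧ IsSylowIn p K ⊤
    · obtain ⟨g, -, rfl⟩ := hP.exists_cj_eq h.2
      rw [if_pos h, if_pos ⟨h.1, g, rfl⟩, one_mul, ← fiber' (P : Subgroup G) g]
      have := fiber ⊤ (P : Subgroup G) (mem_top g)
      simp only [mem_top, true_and, top_inf_eq] at this
      exact this.symm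
    · rw [if_neg h, if_neg, zero_mul]
      rintro ⟨h1, g, rfl⟩
      exact h ⟨h1, syl_cj hP (mem_top g)⟩
  have c3 := count_cj (P : Subgroup G) (fun K => H ≤ K)
  have c4 := count_cj H (fun K => K ≤ (P : Subgroup G))
  have c5 : (∑ g, if H ≤ cj g (P : Subgroup G) then (1 : ℤ) else 0) =
      ∑ g, if cj g H ≤ (P : Subgroup G) then (1 : ℤ) else 0 := by
    rw [← Equiv.sum_comp (Equiv.inv G)]
    simp only [Equiv.inv_apply, cj_le_iff_le_cj_inv]
  constructor
  · rw [c1]; exact_mod_cast c2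
  · have := c2.trans (c3.symm.trans (c5.trans c4))
    exact_mod_cast this

end H2.Cas
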