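import Cfsg.Agent.H2.Cas1

/-! The subnormalizer count along a normal chain with `p`- and `p'`-factors. -/

set_option autoImplicit false

namespace H2.Cas

open Subgroup Cfsg Classical

theorem tele : ∀ (n : ℕ) (x : Fin (n + 1) → ℚ) (c : Fin n → ℚ),
    (∀ i : Fin n, x i.castSucc = x i.succ * c i) → x 0 = x (Fin.last n) * ∏ i, c i := by
  intro n
  induction n with
  | zero => intro x c _; simp
  | succ n ih =>
    intro x c h
    have h1 := ih (fun i => x i.succ) (fun i => c i.succ) fun i => h i.succ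
    have h0 := h 0
    simp only [Fin.castSucc_zero] at h0
    rw [h0, h1, Fin.prod_univ_succ, Fin.succ_last]; ring

variable {G : Type*} [Group G] [Fintype G] {p : ℕ} [Fact p.Prime]

/-- number of conjugates (with multiplicity) of `H` inside `X` -/
noncomputable def aa (H X : Subgroup G) : ℤ := ∑ g, if cj g H ≤ X then 1 else 0

theorem card_subn {H : Subgroup G} (hH : IsPGroup p H) (P : Sylow p G) :
    (Nat.card {g : G // ((H).subgroupOf (H ⊔ Subgroup.zpowers g)).IsSubnormal} : ℤ) = aa H P := by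
  letI := Fintype.ofFinite (Subgroup G)
  rw [(casolo p H hH P).2, aa, count_cj H (fun K => K ≤ (P : Subgroup G))]
  push_cast; rfl

theorem inf_le_of_coprime {P M N : Subgroup G} [M.Normal] (hP : IsPGroup p P) (hMN : M ≤ N)
    (hc : (M.relIndex N).Coprime p) : P ⊓ N ≤ M := by
  intro x hx
  obtain ⟨k, hk⟩ := hP ⟨x, hx.1⟩
  have h1 : x ^ p ^ k = 1 := congrArg Subtype.val hk
  have h2 : x ^ M.relIndex N ∈ M := by
    have := Subgroup.pow_index_mem (M.subgroupOf N) ⟨x, hx.2⟩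
    exact this
  have h3 : (QuotientGroup.mk x : G ⧸ M) = 1 := by
    rw [← pow_one (QuotientGroup.mk x : G ⧸ M), ← (hc.pow_right k).gcd_eq_one, pow_gcd_eq_one]
    exact ⟨by rw [← QuotientGroup.mk_pow, QuotientGroup.eq_one_iff]; exact h2,
      by rw [← QuotientGroup.mk_pow, h1, QuotientGroup.mk_one]⟩
  exact (QuotientGroup.eq_one_iff x).1 h3

/-- the preimage of the centraliser of `H` in `N / M` -/
def cz (H M N : Subgroup G) [hM : M.Normal] : Subgroup G where
  carrier := {u | u ∈ N ∧ ∀ h ∈ H, h * u * h⁻¹ * u⁻¹ ∈ M}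
  one_mem' := ⟨N.one_mem, fun h _ => by simp⟩
  mul_mem' := by
    rintro a b ⟨ha, ha'⟩ ⟨hb, hb'⟩
    refine ⟨N.mul_mem ha hb, fun h hh => ?_⟩
    have := M.mul_mem (ha' h hh) (hM.conj_mem _ (hb' h hh) a)
    convert this using 1; group
  inv_mem' := by
    rintro a ⟨ha, ha'⟩
    refine ⟨N.inv_mem ha, fun h hh => ?_⟩
    have := M.inv_mem (hM.conj_mem _ (ha' h hh) a⁻¹)
    convert this using 1; group

theorem step_cop {H M N : Subgroup G} [hM : M.Normal] [hN : N.Normal] (hH : IsPGroup p H)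
    (P : Sylow p G) (hMN : M ≤ N) (hc : (M.relIndex N).Coprime p) :
    (Nat.card N : ℤ) * aa H ((P : Subgroup G) ⊔ M) = aa H ((P : Subgroup G) ⊔ N) * Nat.card (cz H M N) := by
  have hPN := inf_le_of_coprime P.2 hMN hc
  have e1 : (Nat.card N : ℤ) * aa H ((P : Subgroup G) ⊔ M) =
      ∑ m, ∑ g, if m ∈ N ∧ cj (m * g) H ≤ (P : Subgroup G) ⊔ M then 1 else 0 := by
    rw [← sum_mem, Finset.sum_mul]
    refine Finset.sum_congr rfl fun m _ => ?_
    by_cases hm : m ∈ N
    · simp only [hm, true_and, if_true, one_mul, aa]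
      rw [← Equiv.sum_comp (Equiv.mulLeft m)]; rfl
    · simp [hm]
  rw [e1, Finset.sum_comm, aa, Finset.sum_mul]
  refine Finset.sum_congr rfl fun g _ => ?_
  by_cases hg : cj g H ≤ (P : Subgroup G) ⊔ N
  swap
  · rw [if_neg hg, zero_mul]
    refine Finset.sum_eq_zero fun m _ => if_neg fun h => hg ?_
    have h1 := h.2.trans (sup_le_sup_left hMN _)
    rw [← cj_cj, cj_le_iff_le_cj_inv,
      cj_eq_of_mem (Subgroup.inv_mem _ (mem_sup_right h.1))] at h1
    exact h1
  rw [if_pos hg, one_mul, ← sum_mem]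
  obtain ⟨x, hx, hxP⟩ := ((sylow_isSylowIn_top P).mono (le_sup_left : _ ≤ (P : Subgroup G) ⊔ N)
    le_top).exists_cj_le (isPGroup_cj g hH) hg
  rw [← SetLike.mem_coe, mul_normal] at hx
  obtain ⟨u, hu, m₀, hm₀, rfl⟩ := hx
  have h0 : cj (m₀ * g) H ≤ P := by
    simp only at hxP
    rw [← cj_cj, cj_le_iff_le_cj_inv, cj_eq_of_mem (Subgroup.inv_mem _ hu), cj_cj] at hxP
    exact hxP
  set y := m₀ * g with hy
  rw [← Equiv.sum_comp ((MulAut.conj y).toEquiv.trans (Equiv.mulRight m₀))]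
  refine Finset.sum_congr rfl fun v _ => ?_
  congr 1
  apply propext
  simp only [Equiv.trans_apply, Equiv.coe_mulRight, MulEquiv.toEquiv_eq_coe, EquivLike.coe_coe,
    MulAut.conj_apply]
  have hv : y * v * y⁻¹ * m₀ ∈ N ↔ v ∈ N := by
    rw [mul_mem_cancel_right hm₀]; exact hN.mem_comm_iff.trans (by simp)
  have e2 : y * v * y⁻¹ * m₀ * g = y * v := by rw [mul_assoc _ m₀, ← hy]; group
  rw [hv, e2]
  refine and_congr_right fun hvN => ?_
  rw [cj_le_iff]
  refine forall₂_congr fun h hh => ?_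
  have k1 : y * h * y⁻¹ ∈ (P : Subgroup G) ⊔ M := mem_sup_left (cj_le_iff.1 h0 h hh)
  have k2 : y * v * h * (y * v)⁻¹ = (y * (h * v * h⁻¹ * v⁻¹) * y⁻¹)⁻¹ * (y * h * y⁻¹) := by group
  have k3 : y * (h * v * h⁻¹ * v⁻¹) * y⁻¹ ∈ N :=
    hN.conj_mem _ (N.mul_mem (hN.conj_mem _ hvN h) (N.inv_mem hvN)) y
  rw [k2, mul_mem_cancel_right k1, inv_mem_iff]
  have k4 : y * (h * v * h⁻¹ * v⁻¹) * y⁻¹ ∈ M ↔ h * v * h⁻¹ * v⁻¹ ∈ M :=
    hM.mem_comm_iff.trans (by simp)
  rw [← k4]
  generalize y * (h * v * h⁻¹ * v⁻¹) * y⁻¹ = z at k3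
  refine ⟨fun hz => ?_, fun hz => mem_sup_right hz⟩
  rw [← SetLike.mem_coe, mul_normal] at hz
  obtain ⟨a, ha, b, hb, rfl⟩ := hz
  exact M.mul_mem (hPN ⟨ha, (mul_mem_cancel_right (hMN hb)).1 k3⟩) hb

theorem sup_eq_of_pow {M N : Subgroup G} [hM : M.Normal] [hN : N.Normal]
    (P : Sylow p G) (hMN : M ≤ N) {k : ℕ} (hk : M.relIndex N = p ^ k) :
    (P : Subgroup G) ⊔ M = (P : Subgroup G) ⊔ N := by
  refine le_antisymm (sup_le_sup_left hMN _) (sup_le le_sup_left ?_)
  have h1 : IsPGroup p (N.map (QuotientGroup.mk' M)) := by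
    refine IsPGroup.of_card (n := k) ?_
    rw [← hk, ← relIndex_ker, QuotientGroup.ker_mk']
  haveI := hN.map _ (QuotientGroup.mk'_surjective M)
  have h2 := h1.le_sylow_of_normal (P.mapSurjective (QuotientGroup.mk'_surjective M))
  rw [Sylow.coe_mapSurjective, Subgroup.map_le_map_iff, QuotientGroup.ker_mk'] at h2
  exact h2

theorem step {H M N : Subgroup G} [hM : M.Normal] [hN : N.Normal] (hH : IsPGroup p H)
    (P : Sylow p G) (hMN : M ≤ N)
    (hf : (∃ m : ℕ, M.relIndex N = p ^ m) ∨ (M.relIndex N).Coprime p) :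
    (aa H ((P : Subgroup G) ⊔ M) : ℚ) / Nat.card ((P : Subgroup G) ⊔ M : Subgroup G) =
      (aa H ((P : Subgroup G) ⊔ N) : ℚ) / Nat.card ((P : Subgroup G) ⊔ N : Subgroup G) *
      ((if (M.relIndex N).Coprime p then
        Nat.card {u : G // u ∈ N ∧ ∀ h ∈ H, h * u * h⁻¹ * u⁻¹ ∈ M} / Nat.card M else 1 : ℕ) : ℚ) := by
  split_ifs with hc
  · have h1 := step_cop hH P hMN hc
    have h2 : Nat.card M ∣ Nat.card (cz H M N) := card_dvd_of_le fun u hu =>
      ⟨hMN hu, fun h _ => M.mul_mem (hM.conj_mem _ hu h) (M.inv_mem hu)⟩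
    have h3 : Nat.card {u : G // u ∈ N ∧ ∀ h ∈ H, h * u * h⁻¹ * u⁻¹ ∈ M} = Nat.card (cz H M N) := rfl
    have a1 := card_sup_mul_card_inf (H := (P : Subgroup G)) (N := M) (by simp [normalizer_eq_top])
    have a2 := card_sup_mul_card_inf (H := (P : Subgroup G)) (N := N) (by simp [normalizer_eq_top])
    have a3 : (P : Subgroup G) ⊓ N = (P : Subgroup G) ⊓ M :=
      le_antisymm (le_inf inf_le_left (inf_le_of_coprime P.2 hMN hc)) (inf_le_inf_left _ hMN)
    rw [a3] at a2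
    obtain ⟨c, hcc⟩ := h2
    rw [h3, hcc, Nat.mul_div_cancel_left _ Nat.card_pos]
    rw [hcc] at h1
    have b1 : (Nat.card N : ℚ) * aa H ((P : Subgroup G) ⊔ M) =
        aa H ((P : Subgroup G) ⊔ N) * (Nat.card M * c) := by exact_mod_cast h1
    have b2 : (Nat.card ((P : Subgroup G) ⊔ M : Subgroup G) : ℚ) *
        Nat.card ((P : Subgroup G) ⊓ M : Subgroup G) = Nat.card (P : Subgroup G) * Nat.card M := by
      exact_mod_cast a1
    have b3 : (Nat.card ((P : Subgroup G) ⊔ N : Subgroup G) : ℚ) *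
        Nat.card ((P : Subgroup G) ⊓ M : Subgroup G) = Nat.card (P : Subgroup G) * Nat.card N := by
      exact_mod_cast a2
    have pos : ∀ X : Subgroup G, (Nat.card X : ℚ) ≠ 0 := fun X => by
      exact_mod_cast (Nat.card_pos (α := X)).ne'
    rw [div_mul_eq_mul_div, div_eq_div_iff (pos _) (pos _)]
    apply mul_right_cancel₀ (pos ((P : Subgroup G) ⊓ M))
    rw [mul_assoc, b3, mul_assoc, b2]
    linear_combination (Nat.card (P : Subgroup G) : ℚ) * b1
  · obtain ⟨k, hk⟩ := hf.resolve_right hc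
    rw [sup_eq_of_pow P hMN hk]; simp

end H2.Cas

namespace H2.Cas
open Subgroup Cfsg Classical

theorem chain_count {G : Type*} [Group G] [Finite G] (p : ℕ) [Fact p.Prime]
    (H : Subgroup G) (hH : IsPGroup p H) (P : Sylow p G)
    (n : ℕ) (M : Fin (n + 1) → Subgroup G) (h0 : M 0 = ⊥) (hn : M (Fin.last n) = ⊤)
    (hmono : Monotone M) (hnormal : ∀ i, (M i).Normal)
    (hfac : ∀ i : Fin n, (∃ m : ℕ, (M i.castSucc).relIndex (M i.succ) = p ^ m) ∨
      ((M i.castSucc).relIndex (M i.succ)).Coprime p) :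
    Nat.card {g : G // ((H).subgroupOf (H ⊔ Subgroup.zpowers g)).IsSubnormal} =
      Nat.card (P : Subgroup G) *
        ∏ i : Fin n, (if ((M i.castSucc).relIndex (M i.succ)).Coprime p then
          Nat.card {u : G // u ∈ M i.succ ∧ ∀ h ∈ H, h * u * h⁻¹ * u⁻¹ ∈ M i.castSucc} /
            Nat.card (M i.castSucc) else 1) := by
  letI := Fintype.ofFinite G
  have h := tele n
    (fun i => (aa H ((P : Subgroup G) ⊔ M i) : ℚ) / Nat.card ((P : Subgroup G) ⊔ M i : Subgroup G))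
    _ fun i => step hH P (hmono i.castSucc_lt_succ.le) (hfac i)
  have pos : ∀ X : Subgroup G, (Nat.card X : ℚ) ≠ 0 := fun X => by
    exact_mod_cast (Nat.card_pos (α := X)).ne'
  have ht : (aa H ⊤ : ℚ) = Nat.card (⊤ : Subgroup G) := by
    simp [aa]
  simp only [h0, hn, sup_bot_eq, sup_top_eq, ht, div_self (pos ⊤), one_mul] at h
  rw [div_eq_iff (pos _), ← card_subn hH P, mul_comm] at h
  rw [Int.cast_natCast, ← Nat.cast_prod, ← Nat.cast_mul] at h
  exact Nat.cast_injective h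

end H2.Cas
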