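import Cfsg.Agent.H2.CE5

/-! Saturation at a single subgroup for generated fusion systems. -/

set_option autoImplicit false

namespace H2
open Subgroup Cfsg Cfsg.FusionSystem H7
open scoped commutatorElement

universe u

theorem exists_conj_of_coprime {G : Type*} [Group G] [Finite G] {p : ℕ} [Fact p.Prime]
    {K : Subgroup G} (hK : IsPGroup p K) {b d : G} (hb : (orderOf b).Coprime p)
    (hd : (orderOf d).Coprime p) (hn : b ∈ nrm K) (h : b⁻¹ * d ∈ K) : ∃ k ∈ K, k * b * k⁻¹ = d := by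
  obtain ⟨m, hm⟩ := hK.exists_card_eq
  obtain ⟨n, n1, n2⟩ := H1.sz_conj_ambient (N := K) (H := zpowers b) (K := zpowers d)
    (zpowers_le.2 hn) (zpowers_le.2 (by simpa using mul_mem_sup (mem_zpowers b) h))
    (zpowers_le.2 (by simpa using mul_mem_sup (mem_zpowers d) (inv_mem h)))
    (by rw [Nat.card_zpowers, hm]; exact hb.pow_right m)
    (by rw [Nat.card_zpowers, hm]; exact hd.pow_right m)
    (Or.inr (isSolvable_of_comm fun a b => mul_comm' a b))
  rw [← cj_eq_smul] at n2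
  have k1 : d⁻¹ * (n * b * n⁻¹) ∈ zpowers d :=
    mul_mem (inv_mem (mem_zpowers d)) (n2 ▸ conj_mem_cj (mem_zpowers b))
  have k2 := mul_mem (mul_mem (inv_mem h) (conj_mem_of_mem_normalizer' hn n1)) (inv_mem n1)
  rw [show (b⁻¹ * d)⁻¹ * (b⁻¹ * n * b) * n⁻¹ = d⁻¹ * (n * b * n⁻¹) by group] at k2
  obtain ⟨j, hj⟩ := isPGroup_iff_mem.1 hK _ k2
  exact ⟨n, n1, (inv_mul_eq_one.1 (eq_one_of_coprime_of_pow hj
    (hd.of_dvd_left (orderOf_dvd_of_mem_zpowers k1)))).symm⟩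

variable {Ω : Type u} [Group Ω] {S T U V W X Y P Q R : Subgroup Ω} {F D : FusionSystem S}
  {p : ℕ} {f g : Ω → Ω} {𝒜 : ∀ U : Subgroup Ω, Subgroup (MulAut U)} [Fact p.Prime] [Finite S]

/-- every conjugate of `P` is carried to `P` together with its normalizer -/
theorem ret_gen (hS : IsPGroup p S)
    (h : ∀ E : FusionSystem S, (∀ R f, ¬ F.IsConj P R → Mor F R f → Mor E R f) →
      (∀ R, F.IsConj P R → 𝒜 R ≤ E.autGroup R) → F.IsSubsystemOf E) (hP : P ≠ S)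
    (h𝒜 : ∀ R, F.IsConj P R → 𝒜 R ≤ F.autGroup R) (hn : F.IsFullyNormalized P)
    (hs : ∀ R Q, F.IsConj P R → R < Q → Q ≤ S → SatAt F p Q) (hR : F.IsConj P R) :
    ∃ χ, Mor F (normalizerIn S R) χ ∧ img χ R = P := by
  let Φ : Subgroup Ω → Prop := fun R => ∃ χ, Mor F (normalizerIn S R) χ ∧ img χ R = P
  have h0 : Φ P := ⟨_, mor_id F normalizerIn_le, img_id P⟩
  have key : ∀ Q ≤ S, ∀ R f, F.IsConj P R → R < Q → Q ≤ nrm R → Mor F Q f → Φ R →
      Φ (img f R) := by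
    refine subgroup_down_induction_card fun Q hQ ih R f h1 h2 h3 h4 ⟨χ, h5, h6⟩ => ?_
    have h7 : Q ≤ normalizerIn S R := le_inf hQ h3
    obtain ⟨f', i⟩ := h4.exists_iso
    have h8 : img f Q ≤ normalizerIn S (img f R) := img_le_iff.2 fun x hx =>
      h4.maps_normalizerIn h2.le hx (h3 hx)
    have e0 : img (fun x => χ (f' x)) (img f R) = P := by
      rw [← (i.mg.homOn.mono (img_mono f h2.le)).img_img, i.img_img h2.le, h6]
    rcases h8.lt_or_eq with h9 | h9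
    swap
    · exact ⟨_, h9 ▸ h5.comp i.mg fun x hx => h7 (i.gQ x hx), e0⟩
    have c1 := h4.mono h2.le
    have h10 : img χ Q ≤ normalizerIn S P := h6 ▸ img_le_iff.2 fun x hx =>
      h5.maps_normalizerIn (le_normalizerIn (isConj_le_right h1)) (h7 hx) (h3 hx)
    have c2 := (h5.mono h7).card_img
    have h11 : img χ Q < normalizerIn S P := lt_of_le_of_ne h10 fun e => by
      have := (card_lt_of_lt h9).trans_le (hn.2 _ (isConj_trans h1 c1.isConj))
      rw [← e, c2, i.card_eq] at this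
      exact this.false
    have := finite_of_le hQ
    have c3 : Nat.card P < Nat.card Q := (isConj_card h1).trans_lt (card_lt_of_lt h2)
    obtain ⟨k, _, _, k1, rfl, k2⟩ := (hs R Q h1 h2 hQ).exists_pair h2.le
    obtain ⟨χ', j⟩ := (h5.mono h7).exists_iso
    have c4 : P ≤ img χ Q := h6 ▸ img_mono χ h2.le
    have big : ∀ {U V : Subgroup Ω}, U < normalizerIn S V → Nat.card U = Nat.card Q →
        U ⊔ normalizerIn (normalizerIn S V) U ≤ normalizerIn S V ∧
        U < U ⊔ normalizerIn (normalizerIn S V) U ∧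
        Nat.card Q < Nat.card (U ⊔ normalizerIn (normalizerIn S V) U : Subgroup Ω) :=
      fun {U V} h e =>
        have a1 : U ⊔ normalizerIn (normalizerIn S V) U ≤ normalizerIn S V :=
          sup_le h.le normalizerIn_le
        have a2 := (lt_normalizerIn (hS.to_le normalizerIn_le) h).trans_le
          (le_sup_right (a := U))
        have := finite_of_le a1
        ⟨a1, a2, e ▸ card_lt_of_lt a2⟩
    obtain ⟨ψ, p1, p2⟩ := k2.pair hS c4 (k1.comp j.mg j.gQ) (by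
      rw [← j.mg.homOn.img_img, j.symm.img_eq]) (by
      rw [← (j.mg.homOn.mono c4).img_img, ← h6, j.img_img h2.le])
    obtain ⟨b1, b2, b3⟩ := big h11 c2
    have r1 := ih _ p1.le b3 P ψ (isConj_refl F hn.1) (c4.trans_lt b2) (b1.trans inf_le_right) p1 h0
    obtain ⟨ψ', q1, q2⟩ := k2.pair hS (img_mono f h2.le) (k1.comp i.mg i.gQ) (by
      rw [← i.mg.homOn.img_img, i.symm.img_eq]) (by
      rw [← (i.mg.homOn.mono (img_mono f h2.le)).img_img, i.img_img h2.le])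
    obtain ⟨d1, d2, d3⟩ := big h9 i.card_eq.symm
    obtain ⟨ω, l⟩ := q1.exists_iso
    have d4 := (img_mono f h2.le).trans d2.le
    have := finite_of_le q1.img_le
    have r2 := ih _ q1.img_le (l.card_eq ▸ d3) (img ψ' (img f R)) ω
      (isConj_trans (isConj_trans h1 c1.isConj) (q1.mono d4).isConj)
      (lt_of_le_of_ne (img_mono _ d4) fun e => by
        have := congrArg (fun X : Subgroup Ω => Nat.card X) e
        simp only [← l.card_eq, (q1.mono d4).card_img, c1.card_img, ← isConj_card h1] at this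
        omega)
      (img_le_iff.2 fun x hx => (q1.maps_normalizerIn d4 hx (d1 hx).2).2) l.mg (q2 ▸ p2 ▸ r1)
    rwa [l.img_img d4] at r2
  obtain ⟨f, hf, rfl⟩ := isConj_iff.1 hR
  refine (gen_ind hS h hP h𝒜 (Ψ := fun R f => Φ R ↔ Φ (img f R)) (fun R f g h e => img_congr e ▸ h)
    (fun R f g _ h1 _ h2 h3 => by rw [← h1.homOn.img_img]; exact h2.trans h3)
    (fun R R' f g _ i h => by rw [i.symm.img_eq, ← i.img_eq]; exact h.symm)
    (fun R N f h1 h2 h3 h4 => ⟨key N h4.le R f h1 h2 h3 h4, fun h5 => ?_⟩)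
    (fun R _ α _ => by rw [img_afn])
    (isConj_refl F hn.1) hf).1 h0
  obtain ⟨f', i⟩ := h4.exists_iso
  have := finite_of_le h4.le
  have := finite_of_le h4.img_le
  have := key _ h4.img_le _ f' (isConj_trans h1 (h4.mono h2.le).isConj) (lt_of_le_of_ne
    (img_mono f h2.le) fun e => (card_lt_of_lt h2).ne (by
      rw [i.card_eq, ← e, (h4.mono h2.le).card_img]))
    (img_le_iff.2 fun x hx => (h4.maps_normalizerIn h2.le hx (h3 hx)).2) i.mg h5
  rwa [i.img_img h2.le] at this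

theorem res_le (hS : IsPGroup p S) (hP : P ≤ S) (hret : RetK F P ⊤)
    (hs : ∀ Q ≤ S, P < Q → SatAt F p Q) {L : Subgroup (MulAut P)} (l1 : autInducedBy S P ≤ L)
    (l2 : ∀ α ∈ F.autGroup P, (orderOf α).Coprime p → α ∈ L) (hPR : P < R) (hR : R ≤ nrm P)
    (hg : Mor F R g) (e : img g P = P) : ∃ α ∈ L, ∀ x ∈ P, g x = afn α x := by
  obtain ⟨N, hN⟩ := exists_nrm F hP
  have pW := le_normalizerIn hP
  have wc := normal_wc (hN.normal pW)
  have hd := fsData_sub N (normalizerIn S P) (fun R f => Mor N R f ∧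
      (P ≤ R → ∃ α ∈ L, ∀ x ∈ P, f x = afn α x))
    (fun R f h => ⟨h.1, h.1.le, fun x => h.1.mem⟩)
    (fun R f g h e => ⟨h.1.congr e, fun l => let ⟨k, k1, k2⟩ := h.2 l
      ⟨k, k1, fun x hx => (e x (l hx)).symm.trans (k2 x hx)⟩⟩)
    (fun R t h1 h2 => ⟨mor_conj N h1 h2, fun _ => ⟨_, l1 (cAut_mem h2.2 h2.1),
      fun x hx => (afn_cAut h2.2 hx).symm⟩⟩)
    (fun R Q f g h1 h2 h3 => ⟨h2.1.comp h1.1 h3, fun l => by
      obtain ⟨k, k1, k2⟩ := h1.2 l
      obtain ⟨m, m1, m2⟩ := h2.2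
        ((wc_img wc h1.1 l).ge.trans (img_le_iff.2 fun x hx => h3 x (l hx)))
      exact ⟨m * k, mul_mem m1 k1, fun x hx => by
        beta_reduce
        rw [k2 x hx, m2 _ (afn_maps k hx), afn_mul _ _ hx]⟩⟩)
    (fun R Q f g h1 i => ⟨i.mg, fun l' => by
      have l : P ≤ R := (wc_img wc i.mg l').ge.trans (img_le_iff.2 fun x hx => i.gQ x (l' hx))
      obtain ⟨k, k1, k2⟩ := h1.2 l
      refine ⟨k⁻¹, inv_mem k1, fun y hy => ?_⟩
      have y1 := wc_mem wc i.mg l' hy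
      rw [← afn_inv_afn k y1, ← k2 _ y1, i.fg y (l' hy)]⟩)
  refine (hd.mor.1 (mor_of_satAt (hS.to_le normalizerIn_le) (E := hd.fs) (fun N => P < N)
    (fun A A' h1 h2 => ?_) (fun _ _ h1 h2 _ => h1.trans_le h2) (fun A h1 h2 => ?_)
    (fun A h1 h2 => ?_) R (le_inf hg.le hR) hPR g (hN.mor_top hg hPR.le hR e))).2 hPR.le
  · obtain ⟨f, hf, rfl⟩ := isConj_iff.1 h2
    haveI := finite_of_le hf.le
    refine lt_of_le_of_ne ((wc_img wc hf h1.le).ge.trans (img_mono f h1.le)) fun k => ?_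
    exact (card_lt_of_lt h1).ne (by rw [← hf.card_img, ← k])
  · exact hN.satAt hS hret h1 (by
      rw [sup_eq_left.2 h2.le]; exact hs A (h1.trans normalizerIn_le) h2)
  · obtain ⟨l, s⟩ := fullyAutomized_iff.1 h2
    haveI := finite_mulAut l
    refine s.le_of_coprime (autInducedBy_le_autGroup _ l) fun β b1 b2 => ?_
    have b3 := (mem_autGroup l).1 b1
    obtain ⟨α, a1, a2, a3⟩ := exists_res_coprime (l.trans normalizerIn_le)
      (autGroup_mono hN.sub A b1) b2 h1.le fun x => wc_mem wc b3 h1.le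
    exact (mem_autGroup l).2 (hd.mor.2 ⟨b3, fun _ => ⟨α, l2 α a1 a2, fun x hx => (a3 x hx).symm⟩⟩)

theorem aut_le_of_gen (hS : IsPGroup p S)
    (h : ∀ E : FusionSystem S, (∀ R f, ¬ F.IsConj P R → Mor F R f → Mor E R f) →
      (∀ R, F.IsConj P R → 𝒜 R ≤ E.autGroup R) → F.IsSubsystemOf E) (l : P < S)
    (h𝒜 : ∀ R, F.IsConj P R → 𝒜 R ≤ F.autGroup R)
    (ret : ∀ R, F.IsConj P R → ∃ χ, Mor F (normalizerIn S R) χ ∧ img χ R = P)
    (hs : ∀ Q ≤ S, P < Q → SatAt F p Q) {L : Subgroup (MulAut P)} (l1 : autInducedBy S P ≤ L)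
    (l2 : ∀ α ∈ F.autGroup P, (orderOf α).Coprime p → α ∈ L)
    (l3 : ∀ (R : Subgroup Ω) (e : R ≃* P), Mor F R (afn e) → ∀ α ∈ 𝒜 R, MulAut.congr e α ∈ L) :
    F.autGroup P ≤ L := by
  let Ψ : Subgroup Ω → (Ω → Ω) → Prop := fun R f => ∀ χ χ', Mor F (normalizerIn S R) χ →
    img χ R = P → Mor F (normalizerIn S (img f R)) χ' → img χ' (img f R) = P →
    ∃ α ∈ L, ∀ x ∈ R, afn α (χ x) = χ' (f x)
  have ext : ∀ R N f, F.IsConj P R → R < N → N ≤ nrm R → Mor F N f → Ψ R f :=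
    fun R N f h1 h2 h3 h4 χ χ' k1 k2 k3 k4 => by
    have m1 : N ≤ normalizerIn S R := le_inf h4.le h3
    obtain ⟨χ₀, i⟩ := (k1.mono m1).exists_iso
    have m2 : P ≤ img χ N := k2 ▸ img_mono χ h2.le
    haveI := finite_of_le h4.le
    obtain ⟨α, a1, a2⟩ := res_le hS l.le (retK_of_ret l.le ret) hs l1 l2 (lt_of_le_of_ne m2 fun e =>
      (card_lt_of_lt h2).ne (by rw [i.card_eq, ← e, isConj_card h1])) (k2 ▸ img_le_iff.2 fun x hx =>
        (k1.maps_normalizerIn (h2.le.trans m1) (m1 hx) (h3 hx)).2)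
      (k3.comp (h4.comp i.mg i.gQ) fun x hx => h4.maps_normalizerIn h2.le (i.gQ x hx)
        (h3 (i.gQ x hx))) (by
      rw [← ((h4.comp i.mg i.gQ).mono m2).homOn.img_img, ← (i.mg.mono m2).homOn.img_img, ← k2,
        i.img_img h2.le, k4, k2])
    exact ⟨α, a1, fun x hx => by
      rw [← a2 _ (k2 ▸ mem_img_of_mem χ hx), i.gf x (h2.le hx)]⟩
  have key : ∀ R f, F.IsConj P R → Mor F R f → Ψ R f := fun R f => by
    refine gen_ind hS h l.ne h𝒜 (fun R f g k e χ χ' k1 k2 k3 k4 => ?_)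
      (fun R f g h1 h2 h3 k k' χ χ' k1 k2 k3 k4 => ?_) (fun R R' f g h1 i k χ χ' k1 k2 k3 k4 => ?_)
      ext fun R h1 γ hγ χ χ' k1 k2 k3 k4 => ?_
    · rw [← img_congr e] at k3 k4
      obtain ⟨α, a1, a2⟩ := k χ χ' k1 k2 k3 k4
      exact ⟨α, a1, fun x hx => e x hx ▸ a2 x hx⟩
    · obtain ⟨ω, w1, w2⟩ := ret _ (isConj_trans h1 h2.isConj)
      rw [← h2.homOn.img_img] at k3 k4
      obtain ⟨α, a1, a2⟩ := k χ ω k1 k2 w1 w2
      obtain ⟨β, b1, b2⟩ := k' ω χ' w1 w2 k3 k4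
      exact ⟨β * α, mul_mem b1 a1, fun x hx => by
        rw [afn_mul _ _ (k2 ▸ mem_img_of_mem χ hx), a2 x hx, b2 _ (mem_img_of_mem f hx)]⟩
    · rw [i.symm.img_eq] at k3 k4
      rw [← i.img_eq] at k1 k2
      obtain ⟨α, a1, a2⟩ := k χ' χ k3 k4 k1 k2
      exact ⟨α⁻¹, inv_mem a1, fun y hy => by
        rw [← afn_inv_afn α (x := χ' (g y)) (k4 ▸ mem_img_of_mem χ' (i.gQ y hy)),
          a2 _ (i.gQ y hy), i.fg y hy]⟩
    · rw [img_afn] at k3 k4
      have m1 := isConj_le_right h1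
      obtain ⟨α, a1, a2⟩ := ext R _ _ h1 (lt_normalizerIn hS (lt_of_le_of_ne m1 fun e => l.ne
        (eq_of_le_of_card_le l.le (e ▸ (isConj_card h1).ge)))) inf_le_right
        (mor_id F normalizerIn_le) χ χ' k1 k2 (by rwa [img_id]) (by rwa [img_id])
      obtain ⟨ε, e1, e2⟩ := (k1.mono (le_normalizerIn m1)).exists_equiv k2
      exact ⟨_, mul_mem a1 (l3 R ε e1 γ hγ), fun x hx => by
        rw [afn_mul _ _ (k2 ▸ mem_img_of_mem χ hx), ← e2 x hx, afn_congr _ _ hx,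
          e2 _ (afn_maps γ hx), a2 _ (afn_maps γ hx)]⟩
  intro α hα
  obtain ⟨β, b1, b2⟩ := key P _ (isConj_refl F l.le) ((mem_autGroup l.le).1 hα) _ _
    (mor_id F normalizerIn_le) (img_id P) (mor_id F normalizerIn_le) (by rw [img_id, img_afn])
  exact afn_ext b2 ▸ b1

omit [Fact p.Prime] [Finite S] in
theorem Mor.maps_NK' {α : MulAut P} {X X' : Subgroup (MulAut P)} (hg : Mor F (P ⊔ NK S P X) g)
    (e : ∀ x ∈ P, g x = afn α x) (h : cj α X ≤ X') : ∀ x ∈ P ⊔ NK S P X, g x ∈ P ⊔ NK S P X' :=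
  hg.homOn.maps_sup (fun x hx => mem_sup_left (e x hx ▸ afn_maps α hx)) fun x hx =>
    mem_sup_right (NK_mono ((trK_eq_cj α X).le.trans h) (hg.maps_NK le_sup_left
      (fun x hx => (e x hx).symm) (mem_sup_right hx) hx))

/-- extension of automorphisms from extension of `p'`-automorphisms -/
theorem ext_of_coprime (hS : IsPGroup p S) (hP : P ≤ S)
    (s : IsSylowIn p (autInducedBy S P) (F.autGroup P))
    (h : ∀ X ≤ autInducedBy S P, ∀ β ∈ F.autGroup P, (orderOf β).Coprime p → β ∈ nrm X →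
      ∃ g, Mor F (P ⊔ NK S P X) g ∧ ∀ x ∈ P, g x = afn β x) :
    ∀ X ≤ autInducedBy S P, Inn P ≤ X → ∀ α ∈ F.autGroup P, cj α X ≤ autInducedBy S P →
      ∃ g, Mor F (P ⊔ NK S P X) g ∧ ∀ x ∈ P, g x = afn α x := by
  haveI := finite_mulAut hP
  haveI := Inn_normal P
  have hI : ∀ {X : Subgroup (MulAut P)} (β), Inn P ≤ X → Inn P ≤ cj β X := fun β h =>
    (cj_eq_of_normal β _).ge.trans (H2.cj_mono β h)
  refine subgroup_down_induction_card fun X hX ih a0 α a1 a2 => ?_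
  obtain ⟨a, b1, b2, b3⟩ := s.exists_cj_normalizerIn (s.isPGroup.to_le hX) (hX.trans s.le)
  have hn : normalizerIn (F.autGroup P) (cj a X) ≤ subgroupOfFinite
      { carrier := {n | n ∈ nrm (cj a X) ∧ ∃ g, Mor F (P ⊔ NK S P (cj a X)) g ∧
          ∀ x ∈ P, g x = afn n x}
        one_mem' := ⟨one_mem _, _, mor_id F (sup_le hP NK_le), fun x hx => (afn_one hx).symm⟩
        mul_mem' := fun {m n} ⟨m1, f, f1, f2⟩ ⟨n1, g, g1, g2⟩ => ⟨mul_mem m1 n1, _, f1.comp g1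
          (g1.maps_NK' g2 (cj_eq_of_mem_normalizer n1).le), fun x hx => by
            rw [g2 x hx, f2 _ (afn_maps n hx), afn_mul _ _ hx]⟩ } :=
    b3.le_of_coprime (fun γ hγ => let ⟨t, t1, t2⟩ := mem_autInducedBy.1 hγ.1
      ⟨hγ.2, _, mor_conj F (sup_le hP NK_le) t1, fun x hx => (t2 x hx).symm⟩)
      fun γ h1 h2 => ⟨h1.2, h _ b2 γ h1.1 h2 h1.2⟩
  have key : ∀ Y ≤ autInducedBy S P, ∀ β ∈ F.autGroup P, cj β Y = cj a X →
      ∃ g, Mor F (P ⊔ NK S P Y) g ∧ ∀ x ∈ P, g x = afn β x := fun Y hY β c1 c2 => by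
    have cd : Nat.card Y = Nat.card X := by rw [← card_cj β, c2, card_cj]
    rcases hY.lt_or_eq with l | rfl
    · have l' := lt_normalizerIn s.isPGroup l
      obtain ⟨n, n1, n2⟩ := b3.exists_cj_le (Q := cj β (normalizerIn (autInducedBy S P) Y))
        (isPGroup_cj _ (s.isPGroup.to_le normalizerIn_le)) (by
          rw [cj_normalizerIn, c2]
          exact normalizerIn_mono ((H2.cj_mono β s.le).trans (cj_eq_of_mem c1).le))
      rw [H2.cj_cj] at n2
      obtain ⟨g, g1, g2⟩ := ih _ normalizerIn_le (cd ▸ card_lt_of_lt l') (le_trans (by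
        rw [← H2.cj_inv_cj β Y, c2]; exact hI _ (hI _ a0)) l'.le) _ (mul_mem n1.1 c1)
        (n2.trans normalizerIn_le)
      replace g1 := g1.mono (sup_le_sup_left (NK_mono l'.le) P)
      obtain ⟨-, k, k1, k2⟩ := hn (inv_mem n1)
      exact ⟨_, k1.comp g1 (g1.maps_NK' g2 (by
        rw [← H2.cj_cj, c2, cj_eq_of_mem_normalizer n1.2])), fun x hx => by
          rw [g2 x hx, k2 _ (afn_maps _ hx), afn_mul _ _ hx, afn_inv_afn _ (afn_maps _ hx)]⟩
    · have e := eq_of_le_of_card_le b2 (by rw [card_cj, cd])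
      have := (hn ⟨c1, mem_normalizer_iff_cj.2 (by rw [e, c2, e])⟩).2
      rwa [e] at this
  obtain ⟨g, g1, g2⟩ := key X hX a b1 rfl
  obtain ⟨k, k1, k2⟩ := key _ a2 _ (mul_mem b1 (inv_mem a1)) (by
    rw [H2.cj_cj, inv_mul_cancel_right])
  haveI := finite_of_le (sup_le hP NK_le : P ⊔ NK S P (cj a X) ≤ S)
  have cd : ∀ β, cj β X ≤ autInducedBy S P → Nat.card (P ⊔ NK S P (cj β X) : Subgroup Ω) =
      Nat.card X * Nat.card (centralizerIn S P) := fun β l => by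
    rw [sup_eq_right.2 ((le_NK_of_le (le_normalizerIn hP) (Inn_eq P).ge).trans (NK_mono (hI β a0))),
      card_NK, inf_eq_right.2 l, card_cj]
  obtain ⟨k', i⟩ := k1.exists_iso' (k1.img_eq_of_maps (k1.maps_NK' k2 (by
    rw [H2.cj_cj, inv_mul_cancel_right])) (by rw [cd _ a2, cd _ b2]))
  refine ⟨_, i.mg.comp g1 (g1.maps_NK' g2 le_rfl), fun x hx => ?_⟩
  have x1 := afn_maps α hx
  rw [← i.gf _ (mem_sup_left x1), k2 _ x1, afn_mul _ _ x1, afn_inv_afn _ hx, g2 x hx]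

theorem receptive_of_coprime (hS : IsPGroup p S) (hP : P ≤ S)
    (s : IsSylowIn p (autInducedBy S P) (F.autGroup P))
    (ret : ∀ R, F.IsConj P R → ∃ χ, Mor F (normalizerIn S R) χ ∧ img χ R = P)
    (h : ∀ X ≤ autInducedBy S P, ∀ β ∈ F.autGroup P, (orderOf β).Coprime p → β ∈ nrm X →
      ∃ g, Mor F (P ⊔ NK S P X) g ∧ ∀ x ∈ P, g x = afn β x) : F.IsReceptive P := by
  refine receptive_iff.2 ⟨hP, fun R φ h1 h2 => ?_⟩
  obtain ⟨χ, k1, k2⟩ := ret R (isConj_symm (h2 ▸ h1.isConj))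
  have lR := le_normalizerIn h1.le
  obtain ⟨χ', i⟩ := (k1.mono lR).exists_iso' k2
  obtain ⟨α, a1, a2⟩ := (h1.comp i.mg i.gQ).exists_aut' (by
    rw [← i.mg.homOn.img_img, i.symm.img_eq, h2])
  have a3 : ∀ x ∈ R, afn α (χ x) = φ x := fun x hx => by rw [a2 _ (i.fP x hx), i.gf x hx]
  have l1 := extd_le_normalizerIn (S := S) (P := R) (f := φ)
  have l2 : img χ (extd S R φ) ≤ normalizerIn S P := k2 ▸ img_le_iff.2 fun x hx =>
    k1.maps_normalizerIn lR (l1 hx) (l1 hx).2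
  have l3 : img χ (extd S R φ) ≤ extd S P (afn α) := img_le_iff.2 fun s hs => by
    obtain ⟨s1, s2, t, t1, t2⟩ := mem_extd.1 hs
    have s3 := l2 (mem_img_of_mem χ hs)
    refine mem_extd.2 ⟨s3.1, s3.2, t, t1, fun y hy => ?_⟩
    obtain ⟨x, hx, rfl⟩ := (k1.mono lR).mem_img.1 (k2.ge hy)
    rw [← k1.homOn.conj (l1 hs) (lR hx), a3 _ (conj_mem_of_mem_normalizer s2 hx), a3 x hx, t2 x hx]
  obtain ⟨g, g1, g2⟩ := ext_of_coprime hS hP s h _ (autInducedBy_mono (l2.trans normalizerIn_le) P)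
    ((Inn_eq P).le.trans (autInducedBy_mono (k2.ge.trans (img_mono χ h1.le_extd)) P)) α a1
    (trK_eq_cj α _ ▸ trK_le_of_le_extd l3)
  exact ⟨_, g1.comp (k1.mono l1) fun x hx => mem_sup_right (le_NK_of_le l2 le_rfl
    (mem_img_of_mem χ hx)), fun x hx => by rw [g2 _ (i.fP x hx), a3 x hx]⟩

/-- `N_T(P)` has maximal order -/
def FT (F : FusionSystem S) (T P : Subgroup Ω) : Prop :=
  P ≤ S ∧ ∀ R, F.IsConj P R → Nat.card (normalizerIn T R) ≤ Nat.card (normalizerIn T P)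

omit [Fact p.Prime] [Finite S] in
theorem Mor.maps_nT (hg : Mor F R g) (hT : F.StronglyClosed T) (hP : P ≤ R)
    (h : normalizerIn T P ≤ R) : img g (normalizerIn T P) ≤ normalizerIn T (img g P) :=
  img_le_iff.2 fun _ hx => ⟨sc_mem hT hg (h hx) hx.1, (hg.maps_normalizerIn hP (h hx) hx.2).2⟩

omit [Fact p.Prime] in
theorem Mor.card_nT (hg : Mor F R g) (hT : F.StronglyClosed T) (hP : P ≤ R)
    (h : normalizerIn T P ≤ R) :
    Nat.card (normalizerIn T P) ≤ Nat.card (normalizerIn T (img g P)) :=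
  haveI := finite_of_le hT.1
  (hg.mono h).card_img ▸ card_le_of_le' (hg.maps_nT hT hP h)

omit [Fact p.Prime] in
theorem FT.img_eq (h : FT F T P) (hT : F.StronglyClosed T) (hg : Mor F R g) (hP : P ≤ R)
    (l : normalizerIn T P ≤ R) : img g (normalizerIn T P) = normalizerIn T (img g P) :=
  haveI := finite_of_le hT.1
  eq_of_le_of_card_le (hg.maps_nT hT hP l) ((hg.mono l).card_img ▸ h.2 _ (hg.mono hP).isConj)

theorem ft_of_fn (hS : IsPGroup p S) (hF : F.IsSaturated p) (hT : F.StronglyClosed T)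
    (hn : F.IsFullyNormalized P) : FT F T P := ⟨hn.1, fun R c => by
  obtain ⟨ψ, p1, p2, -⟩ := sat_mor_normalizerIn hS hF hn (isConj_symm c)
  exact p2 ▸ p1.card_nT hT (le_normalizerIn (isConj_le_right c)) (normalizerIn_mono hT.1)⟩

theorem FT.ext (h : FT F T W) (hS : IsPGroup p S) (hF : F.IsSaturated p) (hT : F.StronglyClosed T)
    {e : V ≃* W} (he : Mor F V (afn e)) (hR : R ≤ normalizerIn T V)
    (k : trK e (autInducedBy R V) ≤
      autInducedBy S W ⊔ (pCore p (F.autGroup W)).map (F.autGroup W).subtype) :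
    ∃ ψ, Mor F (V ⊔ R) ψ ∧ ∀ x ∈ V, ψ x = afn e x := by
  obtain ⟨ρ, r1, r2⟩ := sat_exists_mor_normalizerIn hS hF h.1
  have lW := le_normalizerIn h.1
  obtain ⟨ε, e1, e2⟩ := (r1.mono lW).exists_equiv rfl
  obtain ⟨g, g1, g2⟩ := receptive_ext (sat_receptive hS hF r2) (he.afn_trans e1) (img_afn _)
    (le_extd_of_trK (hR.trans (normalizerIn_mono hT.1)) (by
      rw [← trK_trK]
      refine (trK_mono ε k).trans ?_
      rw [trK_sup, trK_map_pCore e1]
      exact sup_le (trK_autInducedBy_le r1.homOn lW e2 fun s hs hn => ⟨⟨hs, hn⟩, r1.mem ⟨hs, hn⟩⟩)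
        (sat_sylow hS hF r2).map_pCore_le))
  have g3 : ∀ x ∈ V, g x = ρ (afn e x) := fun x hx => by
    rw [g2 x hx, afn_trans _ _ hx, e2 _ (afn_maps e hx)]
  obtain ⟨ρ', i⟩ := r1.exists_iso
  refine ⟨_, i.mg.comp g1 (g1.homOn.maps_sup (fun x hx => g3 x hx ▸ i.fP _ (lW (afn_maps e hx)))
    fun x hx => img_mono ρ (normalizerIn_mono hT.1)
      ((h.img_eq hT r1 lW (normalizerIn_mono hT.1)).ge ⟨sc_mem hT g1 (mem_sup_right hx) (hR hx).1,
        ?_⟩)), fun x hx => by rw [g3 x hx, i.gf _ (lW (afn_maps e hx))]⟩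
  have := (g1.maps_normalizerIn le_sup_left (mem_sup_right hx) (hR hx).2).2
  rwa [img_congr g2, img_afn] at this

omit [Fact p.Prime] [Finite S] in
theorem autInd_zpowers_le {y : Ω} (hy : y ∈ nrm P) :
    autInducedBy (zpowers y) P ≤ zpowers (cAut P y hy) := by
  rw [autInducedBy_eq_map]
  rintro _ ⟨s, ⟨i, hi⟩, rfl⟩
  exact ⟨i, by
    rw [show s = (⟨y, hy⟩ : nrm P) ^ i from Subtype.ext hi.symm, map_zpow]; rfl⟩

theorem ft_step (hS : IsPGroup p S) (hF : F.IsSaturated p) (hT : F.StronglyClosed T)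
    (hD : D.IsSubsystemOf F) (hP : P ≤ S)
    (ret : ∀ R, D.IsConj P R → ∃ χ, Mor D (normalizerIn S R) χ ∧ img χ R = P)
    (ih : ∀ Q ≤ S, P < Q → SatAt D p Q ∧ (∀ (V : Subgroup Ω) (e : Q ≃* V), Mor F Q (afn e) →
      ∀ a ∈ autInducedBy T V, (MulAut.congr e).symm a ∈ D.autGroup Q) ∧
      ∀ Q', D.IsConj Q Q' → D.IsFullyNormalized Q' → FT F T Q') : FT F T P := by
  haveI := finite_of_le hT.1
  obtain ⟨φ, f1, f2⟩ := sat_exists_mor_normalizerIn hS hF hP
  have lP := le_normalizerIn hP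
  have lN : normalizerIn T P ≤ normalizerIn S P := normalizerIn_mono hT.1
  refine ⟨hP, fun R c => ((ft_of_fn hS hF hT f2).2 R
    (isConj_trans (isConj_symm (f1.mono lP).isConj) c)).trans ?_⟩
  by_cases k : T ≤ P
  · exact (card_le_of_le' normalizerIn_le).trans (card_le_of_le' (le_inf le_rfl
      (k.trans le_normalizer)))
  obtain ⟨t, t1, t2, t3⟩ := exists_mem_normalizer_of_not_le hS hP hT.1
    (hP.trans (sc_le_normalizer hT)) k
  have lQ : P ⊔ normalizerIn T P ≤ normalizerIn S P := sup_le lP lN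
  have lt : P < P ⊔ normalizerIn T P := lt_of_le_not_ge le_sup_left fun l =>
    t3 (l (mem_sup_right ⟨t1, t2⟩))
  obtain ⟨s1, s2, s3⟩ := ih _ (lQ.trans normalizerIn_le) lt
  rw [← (f1.mono lN).card_img]
  haveI := finite_of_le (f1.mono lN).img_le
  refine card_le_of_le' (((f1.maps_nT hT lP lN).lt_or_eq.resolve_left fun l => ?_).ge)
  obtain ⟨y, y1, y2, y3⟩ := exists_mem_normalizer_notMem ((hS.to_le hT.1).to_le normalizerIn_le) l
  obtain ⟨e, e1, e2⟩ := (f1.mono lQ).exists_equiv rfl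
  have y4 : y ∈ nrm (img φ (P ⊔ normalizerIn T P)) := by
    rw [(f1.mono lQ).homOn.img_sup]; exact mem_normalizer_sup y1.2 y2
  obtain ⟨Q', e', d1, d2, d3⟩ := s1.exists_goodK (resK lt.le ⊤)
  haveI := finite_mulAut d2.recep.1
  haveI := finite_of_le hP
  obtain ⟨j, hj⟩ := isPGroup_iff_mem.1 (isPGroup_autInducedBy (hS.to_le hT.1) _) _ (cAut_mem y4 y1.1)
  obtain ⟨η, ⟨n1, n2⟩, n3⟩ := d2.syl.exists_cj_le (Q := zpowers (MulAut.congr e'
      ((MulAut.congr e).symm (cAut _ y y4))))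
    (isPGroup_zpowers (k := j) (by rw [← map_pow, ← map_pow, hj, map_one, map_one]))
    (zpowers_le.2 ⟨congr_mem_autGroup d1 (s2 _ e e1 _ (cAut_mem y4 y1.1)), congr_mem_trK.2
      (mem_resK_top_of_maps fun x hx => by
        have := afn_congr_symm e (cAut _ y y4) (lt.le hx)
        rw [afn_cAut _ (afn_maps e (lt.le hx)), e2 x (lt.le hx), e2 _ (afn_maps _ (lt.le hx))] at this
        obtain ⟨z, z1, z2⟩ := (f1.mono lP).mem_img.1
          (this ▸ conj_mem_of_mem_normalizer y1.2 (mem_img_of_mem φ hx))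
        exact f1.inj _ (lP z1) _ (lQ (afn_maps _ (lt.le hx))) z2 ▸ z1)⟩)
  have c1 := d1.afn_trans ((mem_autGroup d2.recep.1).1 n1)
  obtain ⟨ψ, p1, p2⟩ := (s3 Q' d1.iso_afn.isConj (fullyNormalized_of_good hS d3 d2.recep)).ext hS hF
    hT (e1.afn_symm.afn_trans (c1.sub hD)) (R := zpowers y) (zpowers_le.2 ⟨y1.1, y4⟩)
    (le_trans (le_trans (map_mono (autInd_zpowers_le y4)) (by
      rw [MonoidHom.map_zpowers, H2.cj_zpowers]
      exact le_of_eq (congrArg _ (by ext; simp)))) (n3.trans (inf_le_left.trans le_sup_left)))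
  have p3 : ∀ x ∈ P ⊔ normalizerIn T P, ψ (φ x) = afn (e'.trans η) x := fun x hx => by
    rw [p2 _ (mem_img_of_mem φ hx), afn_trans _ _ (mem_img_of_mem φ hx), ← e2 x hx,
      afn_symm_afn _ hx]
  obtain ⟨χ, x1, x2⟩ := ret _ (c1.mono lt.le).isConj
  have q1 := (c1.sub hD).maps_nT hT lt.le le_sup_right
  have q2 := (x1.sub hD).card_nT hT (le_normalizerIn (c1.mono lt.le).img_le) (normalizerIn_mono hT.1)
  rw [x2, ← (c1.mono le_sup_right).card_img] at q2
  have y5 := mem_sup_right (S := img φ (P ⊔ normalizerIn T P)) (mem_zpowers y)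
  obtain ⟨u, u1, u2⟩ := (c1.mono le_sup_right).mem_img.1 ((eq_of_le_of_card_le q1 q2).ge
    ⟨sc_mem hT p1 y5 y1.1, by
      have := (p1.maps_normalizerIn ((img_mono φ lt.le).trans le_sup_left) y5 y1.2).2
      rwa [(f1.mono lP).homOn.img_img, img_congr fun x hx => p3 x (lt.le hx)] at this⟩)
  rw [← p3 u (mem_sup_right u1)] at u2
  exact y3 (p1.inj _ (mem_sup_left (mem_img_of_mem φ (mem_sup_right u1))) _ y5 u2 ▸
    mem_img_of_mem φ u1)

end H2
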