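import Cfsg.Agent.H2.ES1

/-! Automorphisms of `E`-type for a normal subsystem `E`. -/

set_option autoImplicit false

namespace H2
open Subgroup Cfsg Cfsg.FusionSystem H7
open scoped commutatorElement

universe u

theorem IsSylowIn.inf_pRes_le {G : Type*} [Group G] {p : ℕ} [Fact p.Prime] {W A N : Subgroup G}
    [Finite A] (h : IsSylowIn p W A) (k : ∀ Q ≤ W, ∀ b ∈ A, (orderOf b).Coprime p → b ∈ nrm Q →
      ∀ x ∈ Q, x⁻¹ * (b * x * b⁻¹) ∈ N) : W ⊓ pRes p A ≤ N := by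
  have g := isGF_sub h.le
  rw [← g.hyp_eq h]
  refine hyp_le_iff'.2 fun Q hQ a a1 a2 x hx => ?_
  rw [g.autGroup hQ] at a1
  obtain ⟨b, b1, b2⟩ := mem_autInducedBy.1 a1
  have n := mem_normalizer_of_afn b2
  obtain ⟨m, m1, m2⟩ := exists_pow_coprime_modEq (⟨b, b1⟩ : A) a2
  have e : a = cAut Q (b ^ m) (pow_mem n m) := by
    rw [← pow_one a, ← pow_eq_pow_iff_modEq.2 m2, show a = cAut Q b n from
      afn_ext fun y hy => (b2 y hy).trans (afn_cAut n hy).symm]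
    exact (map_pow Q.normalizerMonoidHom ⟨b, n⟩ m).symm
  rw [e, afn_cAut _ hx]
  exact k Q hQ _ (pow_mem b1 m) (by rwa [← Subgroup.orderOf_coe] at m1) (pow_mem n m) x hx

variable {Ω : Type u} [Group Ω] {S T U V W X Y P Q R : Subgroup Ω} {F D : FusionSystem S}
  {E : FusionSystem T} {p : ℕ} {f g : Ω → Ω}

/-- maps of `E`-type -/
def EPhi (E : FusionSystem T) (P : Subgroup Ω) (f : Ω → Ω) : Prop :=
  (∀ x ∈ P, x⁻¹ * f x ∈ T) ∧ Mor E (P ⊓ T) f

def esB (F : FusionSystem S) (E : FusionSystem T) (P : Subgroup Ω) : Subgroup (MulAut P) :=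
  F.autGroup P ⊓ (devK P T ⊓ resK (inf_le_left : P ⊓ T ≤ P) (E.autGroup (P ⊓ T)))

theorem esB_le : esB F E P ≤ F.autGroup P := inf_le_left

theorem Inv.gPr (h : Inv E F) : GPr F (EPhi E) where
  congr := fun _ _ _ k e => ⟨fun x hx => e x hx ▸ k.1 x hx, k.2.congr fun x hx => e x hx.1⟩
  id := fun _ _ => ⟨fun x _ => by simp, mor_id E inf_le_right⟩
  comp := fun _ _ _ _ _ _ k1 k2 m => ⟨fun x hx => md_trans (k1.1 x hx) (k2.1 _ (m x hx)),
    k2.2.comp k1.2 fun x hx => ⟨m x hx.1, k1.2.mem hx⟩⟩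
  conj := fun Q g s hs hg k => by
    have n := sc_le_normalizer h.sc hs
    refine ⟨fun y hy => ?_, (h.conj _ _ _ _ k.2 (mor_conj' F h.sc.1 hs) fun x _ => by
      simp [mul_assoc]).mono fun y hy => ?_⟩
    · simpa [mul_assoc] using conj_mem_of_mem_normalizer' n (k.1 (s * y * s⁻¹) (by simpa using hy))
    · simpa [mul_assoc] using mem_img_of_mem (fun x => s⁻¹ * x * s) (P := Q ⊓ T) (x := s * y * s⁻¹)
        ⟨by simpa using hy.1, conj_mem_of_mem_normalizer n hy.2⟩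

variable [Finite S]

theorem mem_esB (hP : P ≤ S) {α : MulAut P} :
    α ∈ esB F E P ↔ Mor F P (afn α) ∧ EPhi E P (afn α) :=
  haveI := finite_of_le (inf_le_left.trans hP : P ⊓ T ≤ S)
  ⟨fun ⟨h1, h2, β, b1, b2⟩ => ⟨(mem_autGroup hP).1 h1, h2,
    ((mem_autGroup inf_le_right).1 b1).congr fun x hx => (b2 x hx).symm⟩,
   fun ⟨h1, h2, h3⟩ => let ⟨β, b1, b2⟩ := h3.exists_aut fun x hx => ⟨afn_maps α hx.1, h3.mem hx⟩
    ⟨(mem_autGroup hP).2 h1, h2, mem_resK.2 ⟨β, b1, fun x hx => (b2 x hx).symm⟩⟩⟩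

theorem Inv.esB_tr (h : Inv E F) {e : P ≃* Q} (he : Mor F P (afn e)) {α : MulAut P}
    (hα : α ∈ esB F E P) : MulAut.congr e α ∈ esB F E Q := by
  obtain ⟨a1, a2, a3⟩ := (mem_esB he.le).1 hα
  have lQ := he.afn_symm.le
  refine (mem_esB lQ).2 ⟨(mem_autGroup lQ).1 (congr_mem_autGroup he hα.1), fun y hy => ?_, ?_⟩
  · have x1 := afn_maps e.symm hy
    have := sc_mem h.sc he (mul_mem (inv_mem x1) (afn_maps α x1)) (a2 _ x1)
    rwa [he.homOn.inv_mul x1 (afn_maps α x1), afn_afn_symm e hy, ← afn_congr' e α hy] at this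
  · have := h.strong _ _ _ _ (afn (MulAut.congr e α)) le_rfl inf_le_right a3
      (fun x hx => ⟨afn_maps α hx.1, a3.mem hx⟩) (he.mono inf_le_left) fun x hx => afn_congr e α hx.1
    rwa [sc_img_inf h.sc he, img_afn] at this

theorem Inv.aut_le_esB (h : Inv E F) (hP : P ≤ S) : autInducedBy T P ≤ esB F E P := fun α hα =>
  let ⟨t, t1, t2⟩ := mem_autInducedBy.1 hα
  (mem_esB hP).2 ⟨(mor_conj F hP (h.sc.1 t1)).congr fun x hx => (t2 x hx).symm, fun x hx =>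
    t2 x hx ▸ inv_mul_conj_mem (sc_le_normalizer h.sc (hP hx)) t1,
    (mor_conj E inf_le_right t1).congr fun x hx => (t2 x hx.1).symm⟩

omit [Finite S] in
theorem le_nrmIn_inf (hT : F.StronglyClosed T) (h : R ≤ normalizerIn S P) :
    R ≤ normalizerIn S (P ⊓ T) := fun _ hx =>
  ⟨(h hx).1, mem_normalizer_inf (h hx).2 (sc_le_normalizer hT (h hx).1)⟩

variable [Fact p.Prime]

theorem Nrm.k0 (h : Nrm E F p) (hS : IsPGroup p S) (hn : F.IsFullyNormalized P)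
    (hc : E.IsCentric (P ⊓ T)) {β : MulAut P} (b1 : β ∈ esB F E P) (b2 : (orderOf β).Coprime p)
    (hY : Y ≤ normalizerIn S (P ⊓ T)) (hw : ∀ w ∈ Y, ∃ t ∈ T, t ∈ Y ⊔ centralizerIn S (P ⊓ T) ∧
      ∀ x ∈ P ⊓ T, afn β (w * x * w⁻¹) = t * w * afn β x * (t * w)⁻¹) :
    ∃ γ ∈ F.autGroup (P ⊔ (Y ⊔ centralizerIn S (P ⊓ T))), (orderOf γ).Coprime p ∧
      (∀ x ∈ P, afn γ x = afn β x) ∧ ∀ w ∈ P ⊔ (Y ⊔ centralizerIn S (P ⊓ T)), w⁻¹ * afn γ w ∈ T := by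
  set W := P ⊔ (Y ⊔ centralizerIn S (P ⊓ T)) with hW
  have nT := sc_le_normalizer h.inv.sc
  have lP := le_nrmIn_inf h.inv.sc (le_normalizerIn hn.1)
  have lW : W ≤ normalizerIn S (P ⊓ T) := sup_le lP (sup_le hY centralizerIn_le_normalizerIn)
  have lS := lW.trans normalizerIn_le
  have nV : W ≤ nrm (W ⊓ T) := le_normalizer_inf' le_normalizer (lS.trans nT)
  have l1 : P ≤ W := le_sup_left
  haveI := finite_mulAut hn.1
  obtain ⟨a1, a2, a3⟩ := (mem_esB hn.1).1 b1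
  obtain ⟨β₀, c1, c2⟩ := mem_resK.1 b1.2.2
  obtain ⟨γ, g1, g2, g3, g4⟩ := h.star3 hS hc (V := W ⊓ T) (W := W) (inf_le_inf_right T l1)
    inf_le_right inf_le_left lS (α := β₀) (sup_le (fun w hw' => mem_stW_of_ext (homOn_afn β)
      inf_le_left c2 hw' (lP hw').2 (nV (l1 hw')) ⟨l1 (mul_mem (inv_mem hw') (afn_maps β hw')),
        a2 w hw'⟩) (sup_le (fun w hw' => let ⟨t, t1, t2, t3⟩ := hw w hw'
      ⟨(hY hw').2, nV (mem_sup_right (mem_sup_left hw')), t, ⟨mem_sup_right t2, t1⟩, fun x hx => by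
        rw [← c2 _ (conj_mem_of_mem_normalizer (hY hw').2 hx), ← c2 x hx, t3 x hx]⟩)
      fun c hc => mem_stW_of_cen hc.2 (nV (mem_sup_right (mem_sup_right hc))))) c1
    (b2.of_dvd_left (orderOf_res_dvd inf_le_left fun x hx => (c2 x hx).symm))
  have g5 := (mem_autGroup lS).1 g1
  have k : ∀ y ∈ P, (afn β y)⁻¹ * afn γ y ∈ P ⊓ T := fun y hy => centric_self hc
    ⟨md_trans (md_symm (a2 y hy)) (g4 y (l1 hy)).2, by
      have := mem_of_fix inf_le_left (lP.trans inf_le_right) (homOn_afn β) (g5.homOn.mono l1)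
        (fun x hx => (c2 x hx).trans (g3 x hx).symm) hy
      rwa [img_congr c2, img_afn] at this⟩
  obtain ⟨δ, d1, d2, d3⟩ := exists_res_coprime lS g1 g2 l1 fun y hy =>
    mem_of_dev (afn_maps β hy) (k y hy).1
  have pK := (isPGroup_map_pCore (p := p) (F.autGroup P)).to_le (stab_le_pCore hS h.inv.sc hn.1)
  obtain ⟨κ, k1, k2⟩ := exists_conj_of_coprime pK b2 d2 (mem_normalizer_inf (le_normalizer b1.1)
    (mem_normalizer_inf (resK_le_normalizer (K := ⊤) (by simp) (resK_mono le_top b1.2.2))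
      (le_normalizer_devK (A := F.autGroup P) (fun α hα x => sc_afn h.inv.sc hn.1 hα) b1.1)))
    ⟨Subgroup.mul_mem _ (Subgroup.inv_mem _ b1.1) d1, mem_resK_bot.2 fun x hx => by
      rw [afn_mul _ _ hx.1, d3 x hx.1, g3 x hx, ← c2 x hx, afn_inv_afn _ hx.1],
      Subgroup.mul_mem _ (Subgroup.inv_mem _ b1.2.1) fun y hy => d3 y hy ▸ (g4 y (l1 hy)).2⟩
  obtain ⟨c, e1, e2⟩ := mem_autInducedBy.1 ((sat_sylow hS h.satF hn).map_pCore_le
    (stab_le_pCore hS h.inv.sc hn.1 k1))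
  have e3 : c ∈ W := mem_sup_right (mem_sup_right ⟨e1, fun x hx => by
    have := mem_resK_bot.1 k1.2.1 x hx
    rw [e2 x hx.1, mul_inv_eq_iff_eq_mul] at this
    exact this.symm⟩)
  have e4 := mem_normalizer_of_afn e2
  have f1 := cAut_mem (le_normalizer e3) (lS e3)
  have f2 : ∀ w ∈ W, afn ((cAut W c (le_normalizer e3))⁻¹ * γ * (cAut W c (le_normalizer e3))⁻¹⁻¹)
      w = c⁻¹ * afn γ (c * w * c⁻¹) * c := fun w hw => by
    rw [afn_conj' _ _ hw, inv_inv, afn_cAut _ hw]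
    have := afn_cAut (le_normalizer e3) (afn_maps (cAut W c (le_normalizer e3))⁻¹
      (afn_maps γ (mul_mem (mul_mem e3 hw) (inv_mem e3))))
    rw [afn_afn_inv _ (afn_maps γ (mul_mem (mul_mem e3 hw) (inv_mem e3)))] at this
    conv_rhs => rw [this]
    group
  refine ⟨_, mul_mem (mul_mem (inv_mem (autInducedBy_le_autGroup F lS f1)) g1)
    (inv_mem (inv_mem (autInducedBy_le_autGroup F lS f1))), (orderOf_congr (cAut W c _)⁻¹ γ).symm ▸ g2, fun y hy => ?_,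
    fun w hw => ?_⟩
  · rw [f2 y (l1 hy), ← d3 _ (conj_mem_of_mem_normalizer e4 hy), ← k2, ← e2 y hy, afn_conj _ _ hy,
      e2 _ (afn_maps β hy)]
    group
  · have := conj_mem_of_mem_normalizer' (nT e1) (g4 _ (mul_mem (mul_mem e3 hw) (inv_mem e3))).2
    rw [f2 w hw]
    convert this using 1
    group

theorem Nrm.k2 (h : Nrm E F p) (hS : IsPGroup p S) (hc : E.IsCentric (P ⊓ T)) {β : MulAut P}
    (b1 : β ∈ esB F E P) (b2 : (orderOf β).Coprime p) (l1 : P ≤ W) (l2 : W ≤ S)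
    (l3 : W ≤ stW P (W ⊓ T) β) :
    ∃ γ ∈ esB F E W, (orderOf γ).Coprime p ∧ ∀ x ∈ P, afn γ x = afn β x := by
  obtain ⟨χ, x1, x2⟩ := sat_exists_mor_normalizerIn hS h.satF (l1.trans l2)
  have l4 : W ≤ normalizerIn S P := fun w hw => ⟨l2 hw, (l3 hw).1⟩
  replace x1 := x1.mono l4
  have sc := h.inv.sc
  have nT := sc_le_normalizer sc
  obtain ⟨e, e1, e2⟩ := (x1.mono l1).exists_equiv rfl
  have c := h.inv.centric_conj hc (x1.mono (inf_le_left.trans l1)).isConj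
  rw [sc_img_inf sc (x1.mono l1)] at c
  have n1 : img χ W ≤ normalizerIn S (img χ P) := img_le_iff.2 fun x hx =>
    x1.maps_normalizerIn l1 hx (l4 hx).2
  have e3 : ∀ x ∈ P, afn (MulAut.congr e β) (χ x) = χ (afn β x) := fun x hx => by
    rw [← e2 x hx, afn_congr _ _ hx, e2 _ (afn_maps β hx)]
  have hw : ∀ w ∈ W, ∃ t ∈ W ⊓ T, ∀ y ∈ img χ P, afn (MulAut.congr e β) (χ w * y * (χ w)⁻¹) =
      χ t * χ w * afn (MulAut.congr e β) y * (χ t * χ w)⁻¹ := fun w hw => by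
    obtain ⟨w1, -, t, t1, t2⟩ := l3 hw
    refine ⟨t, t1, fun y hy => ?_⟩
    obtain ⟨x, hx, rfl⟩ := (x1.mono l1).mem_img.1 hy
    rw [← x1.homOn.conj hw (l1 hx), e3 _ (conj_mem_of_mem_normalizer w1 hx), t2 x hx, e3 x hx,
      x1.homOn.conj (mul_mem t1.1 hw) (l1 (afn_maps β hx)), x1.homOn _ t1.1 _ hw]
  obtain ⟨γ, g1, g2, g3, g4⟩ := h.k0 hS x2 c (h.inv.esB_tr e1 b1) ((orderOf_congr e β).symm ▸ b2)
    (le_nrmIn_inf sc n1) fun w hw' => by
      obtain ⟨w, w1, rfl⟩ := x1.mem_img.1 hw'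
      obtain ⟨t, t1, t2⟩ := hw w w1
      exact ⟨χ t, sc_mem sc x1 t1.1 t1.2, mem_sup_left (mem_img_of_mem χ t1.1), fun y hy => t2 y hy.1⟩
  have l5 : img χ W ≤ img χ P ⊔ (img χ W ⊔ centralizerIn S (img χ P ⊓ T)) :=
    le_sup_left.trans le_sup_right
  have lS : img χ P ⊔ (img χ W ⊔ centralizerIn S (img χ P ⊓ T)) ≤ S :=
    sup_le x2.1 (sup_le x1.img_le centralizerIn_le)
  obtain ⟨δ, d1, d2, d3⟩ := exists_tr_aut x1 lS g1 g2 l5 fun w hw' => by
    obtain ⟨w, w1, rfl⟩ := x1.mem_img.1 hw'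
    obtain ⟨t, t1, t2⟩ := hw w w1
    have t3 := sc_mem sc x1 t1.1 t1.2
    refine mem_of_dev (mul_mem (mem_img_of_mem χ t1.1) hw') (img_mono χ l1 (centric_self c ⟨?_,
      fun y hy => ?_⟩).1)
    · have := mul_mem (conj_mem_of_mem_normalizer' (nT (x1.mem w1)) (inv_mem t3)) (g4 _ (l5 hw'))
      simpa [mul_assoc] using this
    · have y1 := afn_maps (MulAut.congr e β)⁻¹ hy.1
      have k := t2 _ y1
      rw [← g3 _ (conj_mem_of_mem_normalizer (n1 hw').2 y1), (homOn_afn γ).conj (l5 hw')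
        (mem_sup_left y1), g3 _ y1, afn_afn_inv _ hy.1] at k
      calc y * ((χ t * χ w)⁻¹ * afn γ (χ w))
          = (χ t * χ w)⁻¹ * (χ t * χ w * y * (χ t * χ w)⁻¹) * afn γ (χ w) := by group
        _ = _ := by rw [← k]; group
  have d4 : ∀ x ∈ P, afn δ x = afn β x := fun x hx => x1.inj _ (afn_maps δ (l1 hx)) _
    (l1 (afn_maps β hx)) (by rw [d3 x (l1 hx), g3 _ (mem_img_of_mem χ hx), e3 x hx])
  have d5 := (mem_autGroup l2).1 d1
  obtain ⟨δ₀, f1, f2, f3⟩ := exists_res_coprime l2 d1 d2 (inf_le_left : W ⊓ T ≤ W)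
    fun x hx => ⟨afn_maps δ hx.1, sc_mem sc d5 hx.1 hx.2⟩
  have a3 := (((mem_esB (l1.trans l2)).1 b1).2.2).congr fun x hx =>
    ((f3 x ⟨l1 hx.1, hx.2⟩).trans (d4 x hx.1)).symm
  refine ⟨δ, (mem_esB l2).2 ⟨d5, fun w hw => sc_mem' sc x1 (mul_mem (inv_mem hw) (afn_maps δ hw))
    ?_, (h.inv.mor_of_coprime hS h.satE inf_le_right f1 f2 _ (inf_le_inf_right T l1) hc
      (fun x hx => ⟨?_, a3.mem hx⟩) a3).congr f3⟩, d2, d4⟩
  · rw [x1.homOn.inv_mul hw (afn_maps δ hw), d3 w hw]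
    exact g4 _ (l5 (mem_img_of_mem χ hw))
  · rw [f3 x ⟨l1 hx.1, hx.2⟩, d4 x hx.1]; exact afn_maps β hx.1

omit [Finite S] in
theorem exists_conj_of_mor' [Finite T] (hS : IsPGroup p S) (hE : E.IsSaturated p) (hT : T ≤ S)
    (hn : E.IsFullyNormalized U) {s : Ω} (hs : s ∈ S) (hs' : s ∈ nrm U)
    (h : cAut U s hs' ∈ E.autGroup U) : ∃ t ∈ T, t⁻¹ * s ∈ centralizerIn S U := by
  have k := sat_sylow (hS.to_le hT) hE hn
  obtain ⟨t, t1, t2⟩ := mem_autInducedBy.1 ((k.eq_of_le (isPGroup_autInducedBy hS U).to_inf_left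
    (le_inf (autInducedBy_mono hT U) k.le) inf_le_right).le ⟨cAut_mem hs' hs, h⟩)
  refine ⟨t, t1, S.mul_mem (S.inv_mem (hT t1)) hs, fun x hx => ?_⟩
  have := t2 x hx
  rw [afn_cAut _ hx] at this
  calc x * (t⁻¹ * s) = t⁻¹ * (t * x * t⁻¹) * s := by group
    _ = _ := by rw [← this]; group

theorem Nrm.syl_nice (h : Nrm E F p) (hS : IsPGroup p S) (hn : F.IsFullyNormalized P)
    (hn' : F.IsFullyNormalized (P ⊓ T)) (hc : E.IsCentric (P ⊓ T)) :
    pRes p (esB F E P) ⊓ autInducedBy S P ≤ autInducedBy T P := by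
  haveI := finite_mulAut hn.1
  haveI := finite_of_le h.le
  have s := (sat_sylow hS h.satF hn).inf_normal (N := esB F E P) fun α hα =>
    mem_normalizer_of_conj_mem fun β hβ => h.inv.esB_tr ((mem_autGroup hn.1).1 hα) hβ
  rw [inf_eq_right.2 esB_le] at s
  refine le_trans (le_inf (le_inf inf_le_right (inf_le_left.trans (pRes_le _))) inf_le_left)
    (s.inf_pRes_le fun Q hQ β b1 b2 b3 => ?_)
  have lY : NK S P Q ≤ normalizerIn S (P ⊓ T) := le_nrmIn_inf h.inv.sc NK_le_normalizerIn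
  obtain ⟨γ, g1, -, g3, g4⟩ := h.k0 hS hn hc b1 b2 lY fun y hy => by
    obtain ⟨y1, y2, y3⟩ := mem_NK_iff_cAut.1 hy
    have k1 := conj_mem_of_mem_normalizer b3 y3
    obtain ⟨z, z1, z2⟩ := mem_autInducedBy.1 (hQ k1).1
    have z3 : z ∈ NK S P Q := mem_NK.2 ⟨z1, _, k1, z2⟩
    have z4 := mul_mem z3 (inv_mem hy)
    obtain ⟨δ, d1, d2⟩ := mem_resK.1 (hQ (mul_mem k1 (inv_mem y3))).2.2.2
    obtain ⟨t, t1, t2⟩ := exists_conj_of_mor' hS h.satE h.le (fullyNormalized_sub hS h.satF h.inv.sc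
      h.inv.sub inf_le_right hn') (NK_le z4) (lY z4).2 (by
        rwa [show cAut _ _ (lY z4).2 = δ from afn_ext fun x hx => by
          have x1 := conj_mem_of_mem_normalizer' y2 hx.1
          have := afn_inv_afn (cAut P y y2) x1
          rw [afn_cAut _ x1, show y * (y⁻¹ * x * y) * y⁻¹ = x by group] at this
          rw [← d2 x hx, afn_mul _ _ hx.1, this, z2 _ x1, afn_cAut _ hx]; group])
    refine ⟨t, t1, by simpa [mul_assoc] using mul_mem_sup z4 (inv_mem t2), fun x hx => ?_⟩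
    have x1 := ((mem_esB hn.1).1 b1).2.2.mem hx
    have := t2.2 _ (conj_mem_of_mem_normalizer (lY hy).2 ⟨afn_maps β hx.1, x1⟩)
    rw [← afn_cAut y2 hx.1, ← afn_conj β _ hx.1, z2 _ (afn_maps β hx.1)]
    calc z * afn β x * z⁻¹ = t * (t⁻¹ * (z * y⁻¹) * (y * afn β x * y⁻¹)) * y * z⁻¹ := by group
      _ = _ := by rw [← this]; group
  intro a ha
  obtain ⟨y, y1, y2⟩ := mem_autInducedBy.1 (hQ ha).1
  have y3 : y ∈ P ⊔ (NK S P Q ⊔ centralizerIn S (P ⊓ T)) :=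
    mem_sup_right (mem_sup_left (mem_NK.2 ⟨y1, a, ha, y2⟩))
  refine mem_autInducedBy.2 ⟨_, g4 y y3, fun x hx => ?_⟩
  have x1 := afn_maps β⁻¹ hx
  have n := mem_normalizer_of_afn y2
  have x2 := afn_maps (β * a * β⁻¹) hx
  have := y2 _ (afn_maps a⁻¹ x2)
  rw [afn_afn_inv _ x2, afn_conj' _ _ hx, y2 _ x1, ← g3 _ (conj_mem_of_mem_normalizer n x1),
    (homOn_afn γ).conj y3 (mem_sup_left x1), g3 _ x1, afn_afn_inv _ hx] at this
  rw [afn_mul _ _ hx, afn_conj' _ _ hx, y2 _ x1, ← g3 _ (conj_mem_of_mem_normalizer n x1),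
    (homOn_afn γ).conj y3 (mem_sup_left x1), g3 _ x1, afn_afn_inv _ hx]
  calc _ = y⁻¹ * (y * afn a⁻¹ (afn γ y * x * (afn γ y)⁻¹) * y⁻¹) * y := by group
    _ = _ := by rw [← this]; group

end H2
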