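import Cfsg.Agent.H2.ES2

/-! The product `E S` of a normal subsystem with the Sylow subgroup. -/

set_option autoImplicit false

namespace H2
open Subgroup Cfsg Cfsg.FusionSystem H7
open scoped commutatorElement

universe u

variable {Ω : Type u} [Group Ω] {S T U V W X Y P Q R : Subgroup Ω} {F D : FusionSystem S}
  {E : FusionSystem T} {p : ℕ} {f g : Ω → Ω} [Finite S]

theorem Inv.nrm_esB (h : Inv E F) (hP : P ≤ S) : F.autGroup P ≤ nrm (esB F E P) := fun _ hα =>
  haveI := finite_mulAut hP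
  mem_normalizer_of_conj_mem fun _ hβ => h.esB_tr ((mem_autGroup hP).1 hα) hβ

theorem Inv.trK_esB (h : Inv E F) {e : P ≃* Q} (he : Mor F P (afn e)) :
    trK e (esB F E P) ≤ esB F E Q := by
  rintro _ ⟨α, hα, rfl⟩; exact h.esB_tr he hα

theorem Inv.centric_img_inf (h : Inv E F) (hf : Mor F P f) (hc : E.IsCentric (P ⊓ T)) :
    E.IsCentric (img f P ⊓ T) :=
  sc_img_inf h.sc hf ▸ h.centric_conj hc (hf.mono inf_le_left).isConj

theorem Inv.centric_conj_inf (h : Inv E F) (c : F.IsConj P Q) (hc : E.IsCentric (P ⊓ T)) :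
    E.IsCentric (Q ⊓ T) :=
  let ⟨_, hf, e⟩ := isConj_iff.1 c; e ▸ h.centric_img_inf hf hc

omit [Finite S] in
theorem centric_inf_mono (hc : E.IsCentric (P ⊓ T)) (l : P ≤ Q) : E.IsCentric (Q ⊓ T) :=
  centric_mono hc (inf_le_inf_right T l) inf_le_right

omit [Finite S] in
theorem cAut_mem_stab (hT : F.StronglyClosed T) (hP : P ≤ S) {x : Ω}
    (h1 : x ∈ centralizerIn T (P ⊓ T)) (h2 : x ∈ nrm P) : cAut P x h2 ∈
      F.autGroup P ⊓ (resK (inf_le_left : P ⊓ T ≤ P) ⊥ ⊓ devK P T) :=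
  ⟨autInducedBy_le_autGroup F hP (cAut_mem h2 (hT.1 h1.1)), mem_resK_bot.2 fun y hy => by
    rw [afn_cAut h2 hy.1, ← h1.2 y hy, mul_inv_cancel_right], fun y hy => by
    rw [afn_cAut h2 hy]; exact inv_mul_conj_mem (sc_le_normalizer hT (hP hy)) h1.1⟩

variable [Fact p.Prime]

/-- conjugates of `X`-automorphisms -/
theorem nrm_pRes_sup (hS : IsPGroup p S) (hF : F.IsSaturated p) (hX : F.StronglyClosed X)
    (hn : F.IsFullyNormalized U) {B : Subgroup (MulAut U)} (h1 : B ≤ F.autGroup U)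
    (n1 : F.autGroup U ≤ nrm (pRes p B)) (s : IsSylowIn p (autInducedBy S U ⊓ B) B)
    (h2 : ∀ α ∈ F.autGroup U, cj α (autInducedBy X U) ≤ B) :
    F.autGroup U ≤ nrm (pRes p B ⊔ autInducedBy X U : Subgroup _) := fun α hα => by
  haveI := finite_mulAut hn.1
  refine mem_normalizer_of_cj_le ?_
  rw [H2.cj_sup, cj_eq_of_mem_normalizer (n1 hα)]
  refine sup_le le_sup_left ?_
  obtain ⟨l, hl, k⟩ := exists_cj_le_of_le_sup (W := autInducedBy S U ⊓ B) (C := pRes p B)
    (X := cj α (autInducedBy X U)) s (pRes_le _) (inf_le_right.trans (h1.trans n1))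
    (isPGroup_cj _ (isPGroup_autInducedBy (hS.to_le hX.1) U)) (by
      rw [sup_comm, s.pRes_sup]; exact h2 α hα)
  rw [H2.cj_cj] at k
  refine H2.cj_le_iff.2 fun γ hγ => ?_
  have := sc_autInd hX (sat_receptive hS hF hn) (mul_mem (h1 (pRes_le _ hl)) hα) hγ
    (H2.cj_le_iff.1 k γ hγ).1
  have := mul_mem (mul_mem (inv_mem (mem_sup_left hl)) (mem_sup_right this)) (mem_sup_left hl)
  rwa [show l⁻¹ * (l * α * γ * (l * α)⁻¹) * l = α * γ * α⁻¹ by group] at this

theorem Inv.nrm0 (h : Inv E F) (hS : IsPGroup p S) (hF : F.IsSaturated p)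
    (hn : F.IsFullyNormalized U) :
    F.autGroup U ≤ nrm (pRes p (esB F E U) ⊔ autInducedBy T U : Subgroup _) := by
  haveI := finite_mulAut hn.1
  have s := (sat_sylow hS hF hn).inf_normal (h.nrm_esB hn.1)
  rw [inf_eq_right.2 esB_le] at s
  exact nrm_pRes_sup hS hF h.sc hn esB_le ((h.nrm_esB hn.1).trans (normalizer_le_normalizer_pRes _))
    s fun α hα => (H2.cj_mono _ (h.aut_le_esB hn.1)).trans
      (cj_eq_of_mem_normalizer (h.nrm_esB hn.1 hα)).le

theorem Inv.le_esA (h : Inv E F) (hS : IsPGroup p S) (hF : F.IsSaturated p) :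
    pRes p (esB F E U) ⊔ autInducedBy T U ≤ wnA F p T (esB F E) U := fun α hα V e he hV => by
  refine (?_ : trK e _ ≤ _) (congr_mem_trK.2 hα)
  rw [trK_sup]
  refine sup_le (((trK_pRes e _).trans (pRes_mono (h.trK_esB he))).trans le_sup_left) ?_
  obtain ⟨ψ, p1, p2, -⟩ := sat_mor_normalizerIn hS hF hV he.iso_afn.isConj
  obtain ⟨ε, e1, e2⟩ := (p1.mono (le_normalizerIn he.le)).exists_equiv p2
  have k := trK_autInducedBy_le p1.homOn (le_normalizerIn he.le) e2 (Y := T) (Y' := T)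
    fun s hs hn => ⟨⟨h.sc.1 hs, hn⟩, sc_mem h.sc p1 ⟨h.sc.1 hs, hn⟩ hs⟩
  have e3 : trK e (autInducedBy T U) = trK (ε.symm.trans e) (trK ε (autInducedBy T U)) := by
    rw [trK_trK]; congr 1; ext; simp
  rw [e3, trK_eq_cj, ← cj_eq_of_mem_normalizer (h.nrm0 hS hF hV
    ((mem_autGroup hV.1).2 (e1.afn_symm.afn_trans he)))]
  exact H2.cj_mono _ (k.trans le_sup_right)

omit [Fact p.Prime] in
theorem Inv.esA_le (h : Inv E F) (hU : U ≤ S) : wnA F p T (esB F E) U ≤ esB F E U := fun α hα => by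
  obtain ⟨V, v1, v2⟩ := exists_fullyNormalized F hU
  obtain ⟨e, he⟩ := isConj_iff_equiv.1 v1
  have := h.esB_tr he.afn_symm (sup_le (pRes_le _) (h.aut_le_esB v2.1) (hα V e he v2))
  rwa [show MulAut.congr e.symm (MulAut.congr e α) = α by ext; simp] at this

omit [Fact p.Prime] in
theorem FT.trK_eq (h : FT F T P) (hT : F.StronglyClosed T) (hg : Mor F (normalizerIn S P) g)
    {e : P ≃* Q} (he : ∀ x ∈ P, afn e x = g x) (k : img g P = Q) :
    trK e (autInducedBy T P) = autInducedBy T Q := by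
  have lP := le_normalizerIn h.1
  have lN : normalizerIn T P ≤ normalizerIn S P := normalizerIn_mono hT.1
  refine le_antisymm (trK_autInducedBy_le hg.homOn lP he fun s hs hn =>
    ⟨lN ⟨hs, hn⟩, sc_mem hT hg (lN ⟨hs, hn⟩) hs⟩) fun α hα => ?_
  obtain ⟨t, t1, t2⟩ := mem_autInducedBy.1 hα
  have t3 := mem_normalizer_of_afn t2
  obtain ⟨u, u1, rfl⟩ := (hg.mono lN).mem_img.1 ((h.img_eq hT hg lP lN).ge ⟨t1, k ▸ t3⟩)
  rw [show α = cAut Q (g u) t3 from afn_ext fun x hx => (t2 x hx).trans (afn_cAut t3 hx).symm,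
    ← congr_cAut hg.homOn lP he (lN u1) u1.2]
  exact congr_mem_trK.2 (cAut_mem _ u1.1)

theorem Nrm.sylA (h : Nrm E F p) (hS : IsPGroup p S) (hP : FT F T P) (hc : E.IsCentric (P ⊓ T)) :
    IsSylowIn p (autInducedBy T P) (wnA F p T (esB F E) P) := by
  obtain ⟨f, f1, f2, f3⟩ := exists_nice_pair hS h.satF (inf_le_left : P ⊓ T ≤ P)
    (le_nrmIn_inf h.inv.sc (le_normalizerIn hP.1))
  rw [sc_img_inf h.inv.sc f1] at f2
  haveI := finite_mulAut f1.img_le
  haveI := finite_of_le f1.img_le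
  have hn : F.IsFullyNormalized (img f P) := fullyNormalized_of_good hS (fullyAutomized_iff.2
    ⟨f1.img_le, by
      have k : F.autGroup (img f P) ≤ resK (img_mono f (inf_le_left : P ⊓ T ≤ P)) ⊤ :=
        fun α hα => mem_resK_top.2 (by
          rw [sc_img_inf h.inv.sc f1, sc_img_inf h.inv.sc ((mem_autGroup f1.img_le).1 hα),
            img_afn])
      have := f3.syl
      rwa [inf_eq_left.2 k, inf_eq_left.2 ((autInducedBy_le_autGroup F f1.img_le).trans k)]
        at this⟩) f3.recep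
  have n1 := (h.inv.nrm_esB hn.1).trans (normalizer_le_normalizer_pRes (p := p) _)
  have s := (sat_sylow hS h.satF hn).inf_normal n1
  rw [inf_eq_right.2 ((pRes_le _).trans esB_le)] at s
  have s1 : IsSylowIn p (autInducedBy T (img f P)) (pRes p (esB F E (img f P)) ⊔
      autInducedBy T (img f P)) := IsSylowIn.sup_normal (by
    rwa [le_antisymm (inf_le_inf_left _ (autInducedBy_mono h.le _)) (le_inf inf_le_left
      (h.syl_nice hS hn f2 (h.inv.centric_img_inf f1 hc))), inf_comm])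
    (isPGroup_autInducedBy (hS.to_le h.le) _) ((autInducedBy_mono h.le _).trans
      ((autInducedBy_le_autGroup F hn.1).trans n1))
  obtain ⟨ψ, p1, p2, -⟩ := sat_mor_normalizerIn hS h.satF hn f1.isConj
  obtain ⟨e, e1, e2⟩ := (p1.mono (le_normalizerIn hP.1)).exists_equiv p2
  have s2 := s1.trK e.symm
  rw [← hP.trK_eq h.inv.sc p1 e2 p2, trK_symm_trK] at s2
  exact s2.mono (le_sup_right.trans (h.inv.le_esA hS h.satF)) fun α hα => by
    rw [hP.trK_eq h.inv.sc p1 e2 p2]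
    exact mem_trK.2 (hα _ e e1 hn)

/-- a conjugate with large centraliser -/
theorem exists_not_cen (hS : IsPGroup p S) (h : Inv E F) (hE : E.IsSaturated p)
    (hD : D.IsSubsystemOf F) (hED : E.IsSubsystemOf D)
    (hs : ∀ U ≤ T, E.IsCentric U → SatAt D p U) : ∀ U ≤ T, ¬ E.IsCentric U →
      ∃ χ, Mor D (normalizerIn S U) χ ∧ ¬ centralizerIn T (img χ U) ≤ img χ U := by
  haveI := finite_of_le h.sc.1
  have pT := hS.to_le h.sc.1
  have sc := sc_sub hD h.sc h.sc.1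
  refine subgroup_down_induction_card fun U₀ hU₀ ih h0 => ?_
  have l0 := le_normalizerIn (hU₀.trans h.sc.1)
  obtain ⟨n, ⟨χ, x1, rfl⟩, mx⟩ := Set.Finite.exists_maximal (s := {n | ∃ χ, Mor D (normalizerIn S U₀) χ ∧
      n = Nat.card (normalizerIn T (img χ U₀))}) ((Set.finite_Iic (Nat.card T)).subset
    fun n ⟨χ, _, e⟩ => e ▸ card_le_of_le' normalizerIn_le) ⟨_, _, mor_id D normalizerIn_le, rfl⟩
  have c0 := ((x1.mono l0).sub hD).isConj
  have tr : ∀ ψ, Mor D (normalizerIn S (img χ U₀)) ψ → Mor D (normalizerIn S U₀) (fun x => ψ (χ x)) ∧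
      img (fun x => ψ (χ x)) U₀ = img ψ (img χ U₀) := fun ψ hψ =>
    ⟨hψ.comp x1 fun x hx => x1.maps_normalizerIn l0 hx hx.2, ((x1.mono l0).homOn.img_img ψ).symm⟩
  replace mx : ∀ ψ, Mor D (normalizerIn S (img χ U₀)) ψ → Nat.card (normalizerIn T
      (img ψ (img χ U₀))) ≤ Nat.card (normalizerIn T (img χ U₀)) := fun ψ hψ =>
    le_of_not_gt fun l => l.not_ge (mx ⟨_, (tr ψ hψ).1, by rw [(tr ψ hψ).2]⟩ l.le)
  suffices k : ∃ ψ, Mor D (normalizerIn S (img χ U₀)) ψ ∧
      ¬ centralizerIn T (img ψ (img χ U₀)) ≤ img ψ (img χ U₀) from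
    let ⟨ψ, p1, p2⟩ := k; ⟨_, (tr ψ p1).1, (tr ψ p1).2.symm ▸ p2⟩
  have hU := sc_isConj_le h.sc hU₀ c0
  have h1 : ¬ E.IsCentric (img χ U₀) := fun k => h0 (h.centric_conj k (isConj_symm c0))
  rw [isConj_card c0] at ih
  generalize img χ U₀ = U at *
  clear c0 tr x1 l0 h0 hU₀ χ U₀
  have lt := lt_normalizerIn pT (lt_of_le_of_ne hU fun e => h1 (e ▸ centric_top E))
  have lN : normalizerIn S U ≤ normalizerIn S (normalizerIn T U) := fun s hs =>
    ⟨hs.1, mem_normalizer_inf (sc_le_normalizer h.sc hs.1) (le_normalizer hs.2)⟩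
  have l1 := le_normalizerIn (normalizerIn_le.trans h.sc.1 : normalizerIn T U ≤ S)
  by_cases hc : E.IsCentric (normalizerIn T U)
  swap
  · obtain ⟨ψ, p1, p2⟩ := ih _ normalizerIn_le (card_lt_of_lt lt) hc
    exact ⟨ψ, p1.mono lN, fun k => p2 ((centralizerIn_anti (img_mono ψ lt.le)).trans
      (k.trans (img_mono ψ lt.le)))⟩
  suffices fn : E.IsFullyNormalized U from ⟨_, mor_id D normalizerIn_le, by
    rw [img_id]; exact fun k => h1 (sat_centric pT hE (sat_fullyCentralized pT hE fn) k)⟩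
  obtain ⟨ψ, p1, p2⟩ := sat_exists_mor_normalizerIn pT hE hU
  refine ⟨hU, fun R c => (p2.2 R (isConj_trans (isConj_symm (p1.mono lt.le).isConj) c)).trans ?_⟩
  obtain ⟨k, _, l2, k1, rfl, k2⟩ := (hs _ normalizerIn_le hc).exists_pair lt.le
  obtain ⟨ω, w1, w2⟩ := k2.pair hS lt.le k1 rfl rfl
  replace w1 := w1.mono (le_sup_of_le_right fun s hs => ⟨hs, (lN hs).2⟩)
  have m := mx ω w1
  rw [w2] at m
  have q := img_mono ψ lt.le
  obtain ⟨ψ', i⟩ := (p1.sub hED).exists_iso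
  obtain ⟨ρ, r1, r2⟩ := k2.pair hS q (k1.comp i.mg i.gQ) (by
    rw [← i.mg.homOn.img_img, i.symm.img_eq]) (by
    rw [← (i.mg.homOn.mono q).img_img, i.img_img lt.le])
  rw [← p1.card_img]
  haveI := finite_of_le p1.img_le
  have q1 : img ψ (normalizerIn T U) ≤ normalizerIn T (img ψ U) := img_le_iff.2 fun x hx =>
    p1.maps_normalizerIn lt.le hx hx.2
  refine card_le_of_le' (q1.lt_or_eq.resolve_left fun l => ?_).ge
  have l' := lt_normalizerIn (pT.to_le normalizerIn_le) l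
  have l3 : normalizerIn (normalizerIn T (img ψ U)) (img ψ (normalizerIn T U)) ≤
      img ψ (normalizerIn T U) ⊔ normalizerIn (normalizerIn S (img ψ U)) (img ψ (normalizerIn T U)) :=
    le_sup_of_le_right (normalizerIn_mono (normalizerIn_mono h.sc.1))
  have := (r1.mono l3).card_le (Q := normalizerIn T (img k U)) fun x hx =>
    ⟨sc_mem sc r1 (l3 hx) hx.1.1, r2 ▸ (r1.maps_normalizerIn (q.trans le_sup_left) (l3 hx) hx.1.2).2⟩
  exact ((card_lt_of_lt l').trans_le (this.trans m)).ne p1.card_img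

/-- the system `E S` -/
structure ESD (F : FusionSystem S) (E : FusionSystem T) (D : FusionSystem S) (p : ℕ) : Prop where
  sat : D.IsSaturated p
  sub : D.IsSubsystemOf F
  esub : E.IsSubsystemOf D
  aut : ∀ P ≤ S, E.IsCentric (P ⊓ T) → wnA F p T (esB F E) P ≤ D.autGroup P
  cop : ∀ P ≤ S, ∀ α ∈ D.autGroup P, (orderOf α).Coprime p → α ∈ esB F E P
  ft : ∀ P, E.IsCentric (P ⊓ T) → D.IsFullyNormalized P → FT F T P

theorem Nrm.exists_es (h : Nrm E F p) (hS : IsPGroup p S) : ∃ D, ESD F E D p := by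
  have hF := h.satF
  have i := h.inv
  haveI := finite_of_le h.le
  have pT := hS.to_le h.le
  obtain ⟨D, hD⟩ := exists_sInf F fun C => ∀ P ≤ S, E.IsCentric (P ⊓ T) →
    wnA F p T (esB F E) P ≤ C.autGroup P
  have d1 : D.IsSubsystemOf F := sub_iff_mor.2 fun _ _ k => ((hD _ _).1 k).1
  have d2 : ∀ P ≤ S, E.IsCentric (P ⊓ T) → wnA F p T (esB F E) P ≤ D.autGroup P :=
    fun P hP hc α hα => (mem_autGroup hP).2 ((hD _ _).2 ⟨(mem_autGroup hP).1 (i.esA_le hP hα).1,
      fun C hC => (mem_autGroup hP).1 (hC P hP hc hα)⟩)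
  have d3 : ∀ C : FusionSystem S, (∀ P ≤ S, E.IsCentric (P ⊓ T) →
      wnA F p T (esB F E) P ≤ C.autGroup P) → D.IsSubsystemOf C :=
    fun C hC => sub_iff_mor.2 fun _ _ k => ((hD _ _).1 k).2 C hC
  have G := i.gPr
  have hd := fsData_sub F S (fun P f => ∃ s, Tw F (EPhi E) P f s)
    (fun P f ⟨_, k⟩ => ⟨k.mor, k.mor.le, fun _ => k.mor.mem⟩) (fun P f g ⟨s, k⟩ e => ⟨s, k.congr e⟩)
    (fun P t h1 h2 => ⟨t, G.tw_conj h1 h2⟩) (fun P Q f g ⟨_, k⟩ ⟨_, k'⟩ m => ⟨_, G.tw_comp k k' m⟩)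
    fun P Q f g ⟨s, s1, a, a1, a2, a3⟩ j => by
      obtain ⟨a', l⟩ := a1.exists_iso
      refine ⟨_, (G.tw_comp (G.tw_conj j.mg.le (inv_mem s1)) (tw_one l.mg ⟨fun y hy => ?_, ?_⟩)
        fun y hy => ?_).congr fun y hy => ?_⟩
      · have := md_symm (a2.1 _ (l.gQ y hy))
        rwa [l.fg y hy] at this
      · rw [← sc_img_inf i.sc a1]
        exact a2.2.inv fun x hx => l.gf x hx.1
      · rw [← j.fg y hy, a3 _ (j.gQ y hy)]
        simpa [mul_assoc] using l.fP _ (j.gQ y hy)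
      · conv_lhs => rw [← j.fg y hy, a3 _ (j.gQ y hy)]
        simpa [mul_assoc] using l.gf _ (j.gQ y hy)
  have d4 : ∀ P ≤ S, ∀ α ∈ D.autGroup P, (orderOf α).Coprime p → α ∈ esB F E P :=
    fun P hP α a1 a2 =>
    have a3 := (mem_autGroup hP).1 a1
    let ⟨_, k⟩ := hd.mor.1 (a3.sub (d3 hd.fs fun P hP _ α hα =>
      have := (mem_esB hP).1 (i.esA_le hP hα)
      (mem_autGroup hP).2 (hd.mor.2 ⟨1, tw_one this.1 this.2⟩)))
    (mem_esB hP).2 ⟨a3.sub d1, G.of_coprime hS a2 k⟩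
  have mA : ∀ P, ∀ α ∈ esB F E P, (orderOf α).Coprime p → α ∈ wnA F p T (esB F E) P :=
    fun P α a1 a2 => i.le_esA hS hF (mem_sup_left (mem_pRes a1 a2))
  have d5 : E.IsSubsystemOf D := alperin_sub' pT h.satE h.le fun R hR _ => by
    haveI := finite_mulAut hR.le
    have l := hR.le.trans h.le
    have e := inf_eq_left.2 hR.le
    refine (sat_sylow pT h.satE hR.fullyNormalized).le_of_coprime ((autInducedBy_mono h.le R).trans
      (autInducedBy_le_autGroup D l)) fun α a1 a2 => d2 R l (e.symm ▸ hR.centric) (mA R α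
        ((mem_esB l).2 ⟨((mem_autGroup hR.le).1 a1).sub i.sub, fun x hx => hR.le (mul_mem
          (inv_mem hx) (afn_maps α hx)), ((mem_autGroup hR.le).1 a1).mono inf_le_left⟩) a2)
  have cj : ∀ {A B}, D.IsConj A B → F.IsConj A B := fun k => by
    obtain ⟨f, hf, rfl⟩ := isConj_iff.1 k; exact (hf.sub d1).isConj
  have main : ∀ P ≤ S, E.IsCentric (P ⊓ T) →
      SatAt D p P ∧ ∀ Q, D.IsConj P Q → D.IsFullyNormalized Q → FT F T Q := by
    refine subgroup_down_induction_card fun P₀ hP₀ ih hc₀ => ?_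
    suffices k : ∀ P, D.IsConj P₀ P → D.IsFullyNormalized P → SatAt D p P ∧ FT F T P by
      obtain ⟨P, p1, p2⟩ := exists_fullyNormalized D hP₀
      exact ⟨(k P p1 p2).1.conj (isConj_symm p1), fun Q q1 q2 => (k Q q1 q2).2⟩
    intro P p1 hn
    have hc := i.centric_conj_inf (cj p1) hc₀
    rw [isConj_card p1] at ih
    clear p1 hc₀ hP₀ P₀
    haveI := finite_mulAut hn.1
    rcases hn.1.lt_or_eq with l | rfl
    swap
    · exact ⟨⟨P, isConj_refl D le_rfl, fullyAutomized_iff.2 ⟨le_rfl, (sat_sylow hS hF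
        fullyNormalized_top).mono (autInducedBy_le_autGroup D le_rfl) (autGroup_mono d1 P)⟩,
        receptive_top D⟩, ft_of_fn hS hF i.sc fullyNormalized_top⟩
    have cH : ∀ R, D.IsConj P R → E.IsCentric (R ⊓ T) := fun R k => i.centric_conj_inf (cj k) hc
    have gen : ∀ C : FusionSystem S, (∀ R f, ¬ D.IsConj P R → Mor D R f → Mor C R f) →
        (∀ R, D.IsConj P R → wnA F p T (esB F E) R ≤ C.autGroup R) → D.IsSubsystemOf C :=
      fun C h1 h2 => d3 C fun U hU hc α hα => by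
        by_cases k : D.IsConj P U
        · exact h2 U k hα
        · exact (mem_autGroup hU).2 (h1 U _ k ((mem_autGroup hU).1 (d2 U hU hc hα)))
    have aD := fun R k => d2 R (isConj_le_right k) (cH R k)
    have ih' := fun R Q (k : D.IsConj P R) (l : R < Q) (l' : Q ≤ S) =>
      haveI := finite_of_le l'
      ih Q l' ((isConj_card k).trans_lt (card_lt_of_lt l)) (centric_inf_mono (cH R k) l.le)
    have ret := fun R => ret_gen hS gen l.ne aD hn (R := R) fun R Q k l l' => (ih' R Q k l l').1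
    have c0 := isConj_refl D hn.1
    have ft : FT F T P := ft_step hS hF i.sc d1 hn.1 ret fun Q l' l => ⟨(ih' P Q c0 l l').1,
      fun V e he a ha => d2 Q l' (centric_inf_mono hc l.le)
        (wnA_tr he.afn_symm (i.le_esA hS hF (mem_sup_right ha))), (ih' P Q c0 l l').2⟩
    have s := h.sylA hS ft hc
    have e1 : autInducedBy S P ⊓ wnA F p T (esB F E) P = autInducedBy T P :=
      s.eq_of_le (isPGroup_autInducedBy hS P).to_inf_left
        (le_inf (autInducedBy_mono h.le P) s.le) inf_le_right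
    have k := aut_le_of_gen hS gen l aD ret (fun Q l' l => (ih' P Q c0 l l').1)
      (L := wnA F p T (esB F E) P ⊔ autInducedBy S P) le_sup_right
      (fun α a1 a2 => mem_sup_left (mA P α (d4 P hn.1 α a1 a2) a2))
      fun R e he α hα => mem_sup_left (wnA_tr (he.sub d1) hα)
    have s' : IsSylowIn p (autInducedBy S P) (D.autGroup P) := (IsSylowIn.sup_normal (by
      rwa [inf_comm, e1]) (isPGroup_autInducedBy hS P) fun α hα => mem_normalizer_of_conj_mem
        fun β hβ => wnA_tr ((mem_autGroup hn.1).1 (autInducedBy_le_autGroup F hn.1 hα)) hβ).mono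
      (autInducedBy_le_autGroup D hn.1) k
    refine ⟨⟨P, c0, fullyAutomized_iff.2 ⟨hn.1, s'⟩, receptive_of_coprime hS hn.1 s' ret
      fun X hX β b1 b2 b3 => ?_⟩, ft⟩
    have lW : P ⊔ NK S P X ≤ normalizerIn S P := sup_le (le_normalizerIn hn.1) NK_le_normalizerIn
    have lS := lW.trans normalizerIn_le
    have nV : P ⊔ NK S P X ≤ nrm ((P ⊔ NK S P X) ⊓ T) :=
      le_normalizer_inf' le_normalizer (lS.trans (sc_le_normalizer i.sc))
    have b4 := d4 P hn.1 β b1 b2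
    obtain ⟨γ, g1, g2, g3⟩ := h.k2 hS hc b4 b2 le_sup_left lS (sup_le (fun w hw =>
      mem_stW_of_ext (homOn_afn β) le_rfl (fun _ _ => rfl) hw (le_normalizer hw)
        (nV (mem_sup_left hw)) ⟨mem_sup_left (mul_mem (inv_mem hw) (afn_maps β hw)), b4.2.1 w hw⟩)
      fun w hw => by
        obtain ⟨w1, w2, w3⟩ := mem_NK_iff_cAut.1 hw
        have k1 : β * (cAut P w w2 * β⁻¹ * (cAut P w w2)⁻¹) ∈ X := by
          simpa [mul_assoc] using mul_mem (conj_mem_of_mem_normalizer b3 w3) (inv_mem w3)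
        obtain ⟨t, t1, t2⟩ := mem_autInducedBy.1 (e1.le ⟨hX k1, mul_mem (mA P β b4 b2) (wnA_tr
          ((mem_autGroup hn.1).1 (autInducedBy_le_autGroup F hn.1 (hX w3)))
          (inv_mem (mA P β b4 b2)))⟩)
        exact mem_stW_of_comm w2 (nV (mem_sup_right hw)) (mem_autInducedBy.2 ⟨t, ⟨mem_sup_right
          (mem_NK.2 ⟨h.le t1, _, k1, t2⟩), t1⟩, t2⟩))
    exact ⟨_, (mem_autGroup lS).1 (d2 _ lS (centric_inf_mono hc le_sup_left) (mA _ γ g1 g2)), g3⟩
  refine ⟨D, saturated_of_gen hS (fun P => P ≤ S ∧ E.IsCentric (P ⊓ T))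
    (fun P k Q c => ⟨isConj_le_right c, i.centric_conj_inf (cj c) k.2⟩)
    (fun P k => (main P k.1 k.2).1) (fun C hC => d3 C fun P hP hc α hα => (mem_autGroup hP).2
      (hC P _ ⟨hP, hc⟩ ((mem_autGroup hP).1 (d2 P hP hc hα)))) fun P hc k => ?_, d1, d5, d2, d4,
    fun P hc hn => (main P hn.1 hc).2 P (isConj_refl D hn.1) hn⟩
  obtain ⟨χ, x1, x2⟩ := exists_not_cen hS i h.satE d1 d5 (fun U hU c => (main U (hU.trans h.le)
    ((inf_eq_left.2 hU).symm ▸ c)).1) (P ⊓ T) inf_le_right fun c => k ⟨hc.1, c⟩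
  replace x1 := x1.mono (le_nrmIn_inf i.sc (le_normalizerIn hc.1))
  have sc := sc_sub d1 i.sc h.le
  rw [sc_img_inf sc x1] at x2
  have nT := x1.img_le.trans (sc_le_normalizer i.sc)
  obtain ⟨x, y1, y2, y3⟩ := exists_mem_normalizer_of_not_le hS x1.img_le
    (centralizerIn_le.trans h.le) (le_normalizer_centralizerIn nT (le_normalizer_inf' le_normalizer
      nT)) fun l => x2 (le_inf l centralizerIn_le)
  exact ⟨_, x1.isConj, fun l => y3 (mem_of_Inn (centric_self (centric_conj hc x1.isConj)) x1.img_le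
    (h.le y1.1) y2 (l ⟨cAut_mem y2 (h.le y1.1), stab_le_pCore hS sc x1.img_le
      (cAut_mem_stab sc x1.img_le y1 y2)⟩))⟩

end H2
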