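import Cfsg.Agent.H2.ES3
import Cfsg.Agent.H2.CE5

/-! Products of normal subsystems with `p`-subgroups. -/

set_option autoImplicit false

namespace H2
open Subgroup Cfsg Cfsg.FusionSystem H7
open scoped commutatorElement

universe u

open scoped IsMulCommutative in
theorem exists_cprod' {G : Type*} [Group G] {A : Subgroup G} (hA : IsMulCommutative A) (X : Type*)
    [Finite X] : ∃ N, CProd A X N ∧ ∀ (B : Subgroup G) f, (∀ x, f x ∈ A) → (∀ x, f x ∈ B) →
      N f ∈ B := by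
  haveI := Fintype.ofFinite X
  have e : ∀ x (hx : x ∈ A), fn (MonoidHom.id A) x = ⟨x, hx⟩ := fun x hx => fn_mem _ hx
  refine ⟨fun f => ((∏ x, fn (MonoidHom.id A) (f x) : A) : G), ⟨fun f => Subtype.property _,
    fun f g hf hg => ?_, fun f σ => ?_, fun f φ hf hφ hm => ?_, fun z hz => ?_⟩,
    fun B f h1 h2 => ?_⟩
  · rw [← coe_mul, ← Finset.prod_mul_distrib]
    exact congrArg _ (Finset.prod_congr rfl fun x _ => homOn_fn _ _ (hf x) _ (hg x))
  · exact congrArg _ (Equiv.prod_comp σ fun x => fn (MonoidHom.id A) (f x))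
  · have := map_prod (hφ.toHom.codRestrict A fun a => hm a a.2)
      (fun x => fn (MonoidHom.id A) (f x)) Finset.univ
    refine Eq.trans ?_ (congrArg Subtype.val this).symm
    exact congrArg _ (Finset.prod_congr rfl fun x _ => by rw [e _ (hm _ (hf x)), e _ (hf x)]; rfl)
  · simp only [Finset.prod_const, Finset.card_univ, Nat.card_eq_fintype_card, e z hz]; rfl
  · exact mem_subgroupOf.1 (Subgroup.prod_mem (B.subgroupOf A) fun x _ => by
      rw [e _ (h1 x)]; exact h2 x)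

variable {Ω : Type u} [Group Ω] {S T U V W X Y P Q R : Subgroup Ω} {F D : FusionSystem S}
  {E : FusionSystem T} {N : FusionSystem R} {p : ℕ} {f g : Ω → Ω} [Fact p.Prime]

theorem exists_fix_mod [Finite Q] {A W : Subgroup (MulAut Q)}
    (hi : ¬ p ∣ W.relIndex A) (hV : V ≤ Q) (cV : IsMulCommutative V) (pV : IsPGroup p V)
    (hA : ∀ α ∈ A, ∀ x ∈ V, afn α x ∈ V) (hX : ∀ α ∈ A, ∀ x ∈ V, x⁻¹ * afn α x ∈ X) {z : Ω}
    (z0 : z ∈ V) (hz : ∀ α ∈ W, afn α z = z) :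
    ∃ c ∈ V, (∀ α ∈ A, afn α c = c) ∧ z⁻¹ * c ∈ X := by
  obtain ⟨N, hN, hN'⟩ := exists_cprod' cV (A ⧸ W.subgroupOf A)
  obtain ⟨y, ⟨n, rfl⟩, y2⟩ : ∃ y ∈ zpowers z, y ^ W.relIndex A = z := by
    obtain ⟨k, hk⟩ := isPGroup_iff_mem.1 pV z z0
    exact exists_pow_eq_of_coprime (isPGroup_zpowers hk) hi (mem_zpowers z)
  replace hz : ∀ α ∈ W, afn α (z ^ n) = z ^ n := fun α hα => by
    rw [(homOn_afn α).zpow (hV z0), hz α hα]
  replace z0 := V.zpow_mem z0 n
  simp only at y2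
  generalize z ^ n = y at *
  have m : ∀ w : A ⧸ W.subgroupOf A, afn (w.out : MulAut Q) y ∈ V := fun w => hA _ w.out.2 y z0
  refine ⟨N fun w => afn (w.out : MulAut Q) y, hN.mem _, fun α hα => ?_, ?_⟩
  · rw [← hN.map _ _ m ((homOn_afn α).mono hV) (hA α hα),
      ← hN.perm _ (MulAction.toPerm (⟨α, hα⟩ : A)⁻¹)]
    refine congrArg N (funext fun w => ?_)
    have z1 := hV z0
    obtain ⟨t, ht⟩ := QuotientGroup.mk_out_eq_mul (W.subgroupOf A) ((⟨α, hα⟩ : A)⁻¹ * w.out)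
    have e : ((MulAction.toPerm (⟨α, hα⟩ : A)⁻¹) w).out = (⟨α, hα⟩ : A)⁻¹ * w.out * t := by
      rw [← ht, MulAction.toPerm_apply, ← smul_eq_mul, MulAction.Quotient.mk_smul_out]
    rw [e, ← afn_mul _ _ z1, Subgroup.coe_mul, Subgroup.coe_mul, Subgroup.coe_inv, ← mul_assoc,
      mul_inv_cancel_left, afn_mul _ _ z1, hz t.1.1 t.2]
  · have := hN.mul (fun _ => y) (fun w => y⁻¹ * afn (w.out : MulAut Q) y) (fun _ => z0)
      fun w => mul_mem (inv_mem z0) (m w)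
    simp only [mul_inv_cancel_left] at this
    rw [this, hN.const y z0, show Nat.card (A ⧸ W.subgroupOf A) = W.relIndex A from rfl, y2,
      inv_mul_cancel_left]
    exact hN' X _ (fun w => mul_mem (inv_mem z0) (m w)) fun w => hX _ w.out.2 y z0

variable [Finite S]

theorem center_mod_focal (hS : IsPGroup p S) (hF : F.IsSaturated p) (hQ : F.IsNormal Q)
    (hZ : S ⊓ cen S ≤ Q) {z : Ω} (hz : z ∈ S ⊓ cen S) :
    ∃ c ∈ F.center, z⁻¹ * c ∈ F.focalSubgroup := by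
  have := finite_of_le hQ.1
  have h1 := sat_sylow hS hF (sc_fullyNormalized (normal_sc hQ))
  obtain ⟨c, c1, c2, c3⟩ := exists_fix_mod h1.not_dvd inf_le_left (isMulCommutative_center Q)
    (hS.to_le (inf_le_left.trans hQ.1))
    (fun α _ x hx => afn_mem_of_characteristic (characteristic_center Q) α hx.1 hx)
    (fun α hα x hx => mem_focal ((mem_autGroup hQ.1).1 hα) hx.1) ⟨hZ hz, cen_anti hQ.1 hz.2⟩
    fun α hα => by
      obtain ⟨s, hs, e⟩ := mem_autInducedBy.1 hα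
      rw [e z (hZ hz), mem_cen.1 hz.2 s hs, mul_inv_cancel_right]
  refine ⟨c, (mem_center_iff' hS hF).2 ⟨hQ.1 c1.1, fun P f hf hP => ?_⟩, c3⟩
  obtain ⟨α, hα, e⟩ := normal_ext_aut hQ (hf.mono (zpowers_le.2 hP)) (zpowers_le.2 c1.1)
  rw [← e c (mem_zpowers c), c2 α hα]

theorem center_mod_focal_odd (h2 : p ≠ 2) (hS : IsPGroup p S) (hF : F.IsSaturated p) {z : Ω}
    (hz : z ∈ S ⊓ cen S) : ∃ c ∈ F.center, z⁻¹ * c ∈ F.focalSubgroup := by
  have l : JJ 0 S ≤ S := J_le_iff.2 fun _ h => h.1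
  obtain ⟨N, hN⟩ := exists_nrmSystem F l (nrm_J le_normalizer)
  obtain ⟨c, c1, c2⟩ := center_mod_focal hS (hN.sat_top hS hF (fullyNormalized_of_normal l
    (nrm_J le_normalizer))) (hN.normal l) (center_le_J S) hz
  exact ⟨c, center_eq_J_odd h2 hS hF hN ▸ c1, focal_mono hN.sub c2⟩

omit [Fact p.Prime] in
theorem ESD.pi (h : ESD F E D p) : PI E D p :=
  ⟨h.esub, hyp_le_iff'.2 fun P hP α a1 a2 => (h.cop P hP α a1 a2).2.1, fun P hP =>
    pRes_le_iff.2 fun α a1 a2 => (mem_autGroup hP).2 (((mem_esB (hP.trans (sub_le h.esub))).1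
      (h.cop P (hP.trans (sub_le h.esub)) α a1 a2)).2.2.mono (le_inf le_rfl hP))⟩

omit [Fact p.Prime] [Finite S] in
theorem PI.ephi [Finite R] (h : PI E N p) (hT : N.StronglyClosed T) (hP : P ≤ R) {α : MulAut P}
    (h1 : α ∈ N.autGroup P) (h2 : (orderOf α).Coprime p) : EPhi E P (afn α) := by
  have a := (mem_autGroup hP).1 h1
  obtain ⟨β, b1, b2, b3⟩ := exists_res_coprime hP h1 h2 (inf_le_left : P ⊓ T ≤ P)
    fun x hx => ⟨afn_maps α hx.1, sc_mem hT a hx.1 hx.2⟩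
  exact ⟨fun x hx => h.hyp (mem_hyp hP (mem_pRes h1 h2) hx), ((mem_autGroup inf_le_right).1
    (h.aut _ inf_le_right (mem_pRes b1 b2))).congr b3⟩

theorem ESD.ge (h : ESD F E D p) (n : Nrm E F p) (hS : IsPGroup p S) (hN : N.IsSaturated p)
    (h1 : N.IsSubsystemOf F) (h2 : PI E N p) : N.IsSubsystemOf D := by
  have l := sub_le h1
  haveI := finite_of_le l
  have pR := hS.to_le l
  have i := h2.inv pR hN n.satE (l.trans (sc_le_normalizer n.inv.sc))
  refine alperin_sub' pR hN l fun P hP _ => ?_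
  haveI := finite_mulAut hP.le
  have l' := hP.le.trans l
  exact (sat_sylow pR hN hP.fullyNormalized).le_of_coprime ((autInducedBy_mono l P).trans
    (autInducedBy_le_autGroup D l')) fun α a1 a2 => h.aut P l' (i.centric_inf pR hN n.satE
      hP.centric (hP.radical pR hN)) (n.inv.le_esA hS n.satF (mem_sup_left (mem_pRes ((mem_esB
        l').2 ⟨((mem_autGroup hP.le).1 a1).sub h1, h2.ephi i.sc hP.le a1 a2⟩) a2)))

theorem PI.le_of_le (h : PI E F p) (hS : IsPGroup p S) (hF : F.IsSaturated p) (n : Nrm E D p)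
    (h1 : D.IsSubsystemOf F) : F.IsSubsystemOf D := by
  have i := h.inv hS hF n.satE (sc_le_normalizer n.inv.sc)
  refine alperin_sub' hS hF le_rfl fun P hP _ => ?_
  haveI := finite_mulAut hP.le
  haveI := finite_of_le hP.le
  refine (sat_sylow hS hF hP.fullyNormalized).le_of_coprime (autInducedBy_le_autGroup D hP.le)
    fun α a1 a2 => ?_
  have hr := hP.radical hS hF
  have k := h.ephi i.sc hP.le a1 a2
  have a := (mem_autGroup hP.le).1 a1
  obtain ⟨β, -, b2, b3⟩ := exists_res_coprime hP.le a1 a2 (inf_le_left : P ⊓ T ≤ P)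
    fun x hx => ⟨afn_maps α hx.1, sc_mem i.sc a hx.1 hx.2⟩
  have nP : P ≤ nrm (P ⊓ T) := le_normalizer_inf' le_normalizer (hP.le.trans (sc_le_normalizer i.sc))
  obtain ⟨γ, g1, -, g3, g4⟩ := n.star3 hS (i.centric_inf hS hF n.satE hP.centric hr) le_rfl
    inf_le_right inf_le_left hP.le (α := β) (fun w hw => mem_stW_of_ext (homOn_afn α) inf_le_left
      (fun x hx => (b3 x hx).symm) hw (nP hw) (nP hw)
        ⟨P.mul_mem (P.inv_mem hw) (afn_maps α hw), k.1 w hw⟩) (k.2.aut_mem b3) b2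
  have := (radical_iff hS).1 hr |>.2 (stab_le_pCore hS i.sc hP.le (show γ⁻¹ * α ∈ _ from
    ⟨Subgroup.mul_mem _ (Subgroup.inv_mem _ (autGroup_mono h1 P g1)) a1, mem_resK_bot.2 fun x hx => by
      rw [afn_mul _ _ hx.1, ← b3 x hx, ← g3 x hx, afn_inv_afn _ hx.1],
      (devK P T).mul_mem ((devK P T).inv_mem fun x hx => (g4 x hx).2) k.1⟩))
  rw [← mul_inv_cancel_left γ α]
  exact mul_mem g1 (autInducedBy_le_autGroup D hP.le (autInducedBy_mono hP.le P (Inn_eq P ▸ this)))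

/-- the product `E R` -/
theorem Nrm.exists_er (n : Nrm E F p) (hS : IsPGroup p S) (h1 : T ≤ R) (h2 : R ≤ S) :
    ∃ N : FusionSystem R, N.IsSaturated p ∧ N.IsSubsystemOf F ∧ PI E N p ∧
      ∀ (Y : Subgroup Ω) (C : FusionSystem Y), C.IsSaturated p → C.IsSubsystemOf F → PI E C p →
        Y ≤ R → C.IsSubsystemOf N := by
  obtain ⟨D, hD⟩ := n.exists_es hS
  obtain ⟨N, n1, n2⟩ := exists_pi hS hD.sat h2 (hD.pi.hyp.trans h1)
  exact ⟨N, n1, sub_trans n2.sub hD.sub, hD.pi.of_sub (n2.ge hS n.satE hD.esub h1) n2.sub,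
    fun Y C c1 c2 c3 c4 => n2.ge hS c1 (hD.ge n hS c1 c2 c3) c4⟩

theorem Nrm.cen_le_odd (n : Nrm E F p) (hS : IsPGroup p S) (h2 : p ≠ 2) (h : cenS F E p ≤ T) :
    centralizerIn S T ≤ T := fun x hx => by
  have l : T ⊔ zpowers x ≤ S := sup_le n.le (zpowers_le.2 hx.1)
  haveI := finite_of_le l
  obtain ⟨N, n1, n2, n3, -⟩ := n.exists_er hS le_sup_left l
  have cx : T ⊔ zpowers x ≤ cen (zpowers x) :=
    sup_le (le_cen_symm (zpowers_le.2 hx.2)) (le_cen_symm (zpowers_le.2 (mem_cen.2 fun y hy => by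
      obtain ⟨k, rfl⟩ := hy; exact (Commute.zpow_left rfl k).eq)))
  obtain ⟨c, c1, c2⟩ := center_mod_focal_odd h2 (hS.to_le l) n1
    ⟨mem_sup_right (mem_zpowers x), le_cen_symm cx (mem_zpowers x)⟩
  have c3 := h (((cz_of_central (central_center N) n3.sub).sub_right n2).le_cenS hS c1)
  rw [focal_eq (hS.to_le l) n1] at c2
  replace c2 : x⁻¹ * c ∈ T := (sup_le n3.hyp ?_ : _ ≤ T) c2
  · simpa using mul_mem c3 (inv_mem c2)
  · refine commutator_le.2 fun a ha b hb => ?_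
    have nx : zpowers x ≤ nrm T := (zpowers_le.2 hx.1).trans (sc_le_normalizer n.inv.sc)
    obtain ⟨a, a1, u, u1, rfl⟩ := (mem_sup_of_le_normalizer' nx).1 ha
    obtain ⟨b, b1, v, v1, rfl⟩ := (mem_sup_of_le_normalizer' nx).1 hb
    have e1 := mem_cen.1 (le_cen_symm cx u1) _ hb
    have e2 := mem_cen.1 (le_cen_symm cx v1) _ (mem_sup_left a1)
    rw [show ⁅a * u, b * v⁆ = a * (u * (b * v)) * u⁻¹ * a⁻¹ * (b * v)⁻¹ by
      rw [commutatorElement_def]; group, ← e1, show a * (b * v * u) * u⁻¹ * a⁻¹ * (b * v)⁻¹ =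
        a * b * a⁻¹ * (a * v) * a⁻¹ * v⁻¹ * b⁻¹ by group, e2]
    simpa [mul_assoc] using mul_mem (mul_mem (mul_mem a1 b1) (inv_mem a1)) (inv_mem b1)

end H2
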