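import Mathlib

set_option autoImplicit false

namespace H2

open scoped MonoidAlgebra

theorem sd_field {F : Type*} [Field F] {H : Type*} [CommGroup H] {V : Type*} [AddCommGroup V]
    [Module F V] [Nontrivial V] (ρ : Representation F H V)
    (hirr : ∀ U : Submodule F V, (∀ h : H, ∀ u ∈ U, ρ h u ∈ U) → U = ⊥ ∨ U = ⊤) :
    ∃ (I : Ideal F[H]) (_ : I.IsMaximal) (e : V ≃ₗ[F] (F[H] ⧸ I)) (ι : H →* (F[H] ⧸ I)),
      ∀ h v, e (ρ h v) = ι h * e v := by
  have hI : ρ.IsIrreducible := by
    refine { exists_pair_ne := ⟨⊥, ⊤, ?_⟩, eq_bot_or_eq_top := fun U => ?_ }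
    · intro h
      have := congrArg Subrepresentation.toSubmodule h
      exact bot_ne_top this
    · rcases hirr U.toSubmodule (fun h u hu => U.apply_mem_toSubmodule h hu) with h | h
      · left; exact Subrepresentation.toSubmodule_injective h
      · right; exact Subrepresentation.toSubmodule_injective h
  obtain ⟨I, hm, ⟨e⟩⟩ := isSimpleModule_iff_quot_maximal.1
    ((Representation.irreducible_iff_isSimpleModule_asModule ρ).1 hI)
  refine ⟨I, hm, ρ.asModuleEquiv.symm.trans (e.restrictScalars F),
    ((Ideal.Quotient.mk I : F[H] →+* _) : F[H] →* _).comp (MonoidAlgebra.of F H), fun h v => ?_⟩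
  simp only [LinearEquiv.trans_apply, LinearEquiv.restrictScalars_apply,
    Representation.asModuleEquiv_symm_map_rho, map_smul]
  rfl

theorem sd_span {F : Type*} [Field F] {H : Type*} [CommGroup H] {V : Type*} [AddCommGroup V]
    [Module F V] (ρ : Representation F H V)
    (hirr : ∀ U : Submodule F V, (∀ h : H, ∀ u ∈ U, ρ h u ∈ U) → U = ⊥ ∨ U = ⊤)
    {K : Type*} [Field K] [Algebra F K] (e : V ≃ₗ[F] K) (ι : H →* K)
    (he : ∀ h v, e (ρ h v) = ι h * e v) : Submodule.span F (Set.range ι) = ⊤ := by
  have key : ∀ h : H, ∀ x ∈ Submodule.span F (Set.range ι), ι h * x ∈ Submodule.span F (Set.range ι) := by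
    intro h x hx
    induction hx using Submodule.span_induction with
    | mem x hx => obtain ⟨g, rfl⟩ := hx; rw [← map_mul]; exact Submodule.subset_span ⟨_, rfl⟩
    | zero => simp
    | add x y _ _ hx hy => rw [mul_add]; exact add_mem hx hy
    | smul c x _ hx => rw [mul_smul_comm]; exact Submodule.smul_mem _ _ hx
  rcases hirr ((Submodule.span F (Set.range ι)).comap (e : V →ₗ[F] K)) (fun h u hu => by
    simp only [Submodule.mem_comap, LinearEquiv.coe_coe] at hu ⊢
    rw [he]; exact key h _ hu) with h | h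
  · exfalso
    have : e.symm 1 ∈ (Submodule.span F (Set.range ι)).comap (e : V →ₗ[F] K) := by
      simp only [Submodule.mem_comap, LinearEquiv.coe_coe, LinearEquiv.apply_symm_apply]
      exact Submodule.subset_span ⟨1, map_one ι⟩
    rw [h, Submodule.mem_bot] at this
    have h2 := congrArg e this
    simp at h2
  · rw [eq_top_iff]
    intro x _
    have : e.symm x ∈ (Submodule.span F (Set.range ι)).comap (e : V →ₗ[F] K) := by
      rw [h]; trivial
    simpa using this

theorem sd_aut {F : Type*} [Field F] {H : Type*} [CommGroup H] {K : Type*} [Field K] [Algebra F K]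
    [FiniteDimensional F K] (ι : H →* K) (hs : Submodule.span F (Set.range ι) = ⊤)
    (B : LinearMap.BilinForm F K) (hB : B.Nondegenerate)
    (hinv : ∀ h x y, B (ι h * x) (ι h * y) = B x y) :
    ∃ σ : K ≃ₐ[F] K, ∀ h, σ (ι h) = ι h⁻¹ := by
  -- the form C x y = B 1 (x * y)
  let C : LinearMap.BilinForm F K := (LinearMap.mul F K).compr₂ (B 1)
  have hC : ∀ x y, C x y = B 1 (x * y) := fun x y => rfl
  have hCn : C.Nondegenerate := by
    apply LinearMap.BilinForm.Nondegenerate.ofSeparatingLeft
    intro x hx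
    by_contra h0
    have : (1 : K) = 0 := hB.1 1 (fun y => by
      have := hx (x⁻¹ * y)
      rwa [hC, ← mul_assoc, mul_inv_cancel₀ h0, one_mul] at this)
    exact one_ne_zero this
  let s : K ≃ₗ[F] K := (B.toDual hB).trans (C.toDual hCn).symm
  have hsx : ∀ x y, B 1 (s x * y) = B x y := by
    intro x y
    rw [← hC]
    exact LinearMap.BilinForm.apply_toDual_symm_apply (B := C) (hB := hCn) _ _
  have huniq : ∀ a b : K, (∀ y, B 1 (a * y) = B 1 (b * y)) → a = b := by
    intro a b hab
    rw [← sub_eq_zero]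
    refine hCn.1 _ (fun y => ?_)
    rw [hC, sub_mul, map_sub, hab, sub_self]
  have h1 : ∀ h x, s (ι h * x) = ι h⁻¹ * s x := by
    intro h x
    apply huniq
    intro y
    rw [hsx, mul_comm (ι h⁻¹), mul_assoc, hsx, ← hinv h x, ← mul_assoc, ← map_mul, mul_inv_cancel,
      map_one, one_mul]
  have hone : s 1 = 1 := by
    apply huniq
    intro y
    rw [hsx, one_mul]
  have h2 : ∀ h, s (ι h) = ι h⁻¹ := by
    intro h
    have := h1 h 1
    rwa [mul_one, hone, mul_one] at this
  have hmul : ∀ a x, s (a * x) = s a * s x := by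
    intro a x
    have ha : a ∈ Submodule.span F (Set.range ι) := by rw [hs]; trivial
    induction ha using Submodule.span_induction with
    | mem a ha => obtain ⟨g, rfl⟩ := ha; rw [h1, h2]
    | zero => simp
    | add a b _ _ ha hb => rw [add_mul, map_add, ha, hb, map_add, add_mul]
    | smul c a _ ha => rw [smul_mul_assoc, map_smul, ha, map_smul, smul_mul_assoc]
  exact ⟨AlgEquiv.ofLinearEquiv s hone hmul, h2⟩

theorem sd_frob {F : Type*} [Field F] [Fintype F] {H : Type*} [CommGroup H] [Finite H] {K : Type*}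
    [Field K] [Algebra F K]
    [FiniteDimensional F K] (ι : H →* K) (hι : Function.Injective ι)
    (hs : Submodule.span F (Set.range ι) = ⊤)
    (σ : K ≃ₐ[F] K) (hσ : ∀ h, σ (ι h) = ι h⁻¹) :
    ∃ m, Nat.card H ∣ Fintype.card F ^ m + 1 ∧
      ((m = 0 ∧ Module.finrank F K ≤ 1) ∨ Module.finrank F K = 2 * m) := by
  haveI : Finite K := Module.finite_of_finite F
  obtain ⟨⟨m, hm⟩, rfl⟩ := (FiniteField.bijective_frobeniusAlgEquivOfAlgebraic_pow F K).2 σ
  have hp : ∀ x : K, (FiniteField.frobeniusAlgEquivOfAlgebraic F K ^ m) x = x ^ (Fintype.card F ^ m) := by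
    intro x
    rw [AlgEquiv.coe_pow, FiniteField.coe_frobeniusAlgEquivOfAlgebraic_iterate]
  simp only at hσ
  refine ⟨m, ?_, ?_⟩
  · haveI := isCyclic_of_injective_ringHom ι hι
    rw [← IsCyclic.exponent_eq_card]
    apply Monoid.exponent_dvd_of_forall_pow_eq_one
    intro h
    apply hι
    rw [pow_succ, map_mul, map_pow, ← hp, hσ, ← map_mul, inv_mul_cancel]
  · have h2 : (FiniteField.frobeniusAlgEquivOfAlgebraic F K ^ m) ^ 2 = 1 := by
      apply AlgEquiv.toLinearMap_injective
      apply LinearMap.ext_on_range (v := ι) hs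
      intro h
      simp only [pow_two, AlgEquiv.toLinearMap_apply, AlgEquiv.mul_apply, hσ, inv_inv,
        AlgEquiv.one_apply]
    rw [← pow_mul, ← orderOf_dvd_iff_pow_eq_one, FiniteField.orderOf_frobeniusAlgEquivOfAlgebraic] at h2
    obtain ⟨c, hc⟩ := h2
    rcases Nat.eq_zero_or_pos m with h0 | h0
    · left
      refine ⟨h0, ?_⟩
      subst h0
      have hle : (⊤ : Submodule F K) ≤ Submodule.span F {(1 : K)} := by
        rw [← hs, Submodule.span_le]
        rintro _ ⟨h, rfl⟩
        have h3 : ι h * ι h = 1 := by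
          have := hσ h
          rw [pow_zero, AlgEquiv.one_apply] at this
          nth_rewrite 1 [this]
          rw [← map_mul, inv_mul_cancel, map_one]
        rcases mul_self_eq_one_iff.1 h3 with h4 | h4
        · rw [h4]; exact Submodule.subset_span rfl
        · rw [h4]; exact neg_mem (Submodule.subset_span rfl)
      have := Submodule.finrank_mono hle
      rw [finrank_top, finrank_span_singleton one_ne_zero] at this
      exact this
    · right
      have : c = 1 := by
        rcases c with _ | _ | c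
        · omega
        · rfl
        · nlinarith
      subst this
      omega

theorem sd_form {F : Type*} [Field F] [Fintype F] {H : Type*} [CommGroup H] [Finite H] {K : Type*}
    [Field K] [Algebra F K] [FiniteDimensional F K] (ι : H →* K) (m : ℕ)
    (hm : Nat.card H ∣ Fintype.card F ^ m + 1) :
    ∃ B : LinearMap.BilinForm F K, B.Nondegenerate ∧ ∀ h x y, B (ι h * x) (ι h * y) = B x y := by
  haveI : Finite K := Module.finite_of_finite F
  let σ := FiniteField.frobeniusAlgEquivOfAlgebraic F K ^ m
  have hp : ∀ x : K, σ x = x ^ (Fintype.card F ^ m) := by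
    intro x
    rw [AlgEquiv.coe_pow, FiniteField.coe_frobeniusAlgEquivOfAlgebraic_iterate]
  refine ⟨(Algebra.traceForm F K).compRight σ.toLinearMap, ?_, ?_⟩
  · apply LinearMap.BilinForm.Nondegenerate.ofSeparatingLeft
    intro x hx
    refine (traceForm_nondegenerate F K).1 x (fun y => ?_)
    have := hx (σ.symm y)
    simpa using this
  · intro h x y
    simp only [LinearMap.BilinForm.compRight_apply, AlgEquiv.toLinearMap_apply, map_mul,
      Algebra.traceForm_apply]
    congr 1
    have : ι h * σ (ι h) = 1 := by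
      rw [hp, ← pow_succ', ← map_pow, orderOf_dvd_iff_pow_eq_one.1 ((orderOf_dvd_natCard h).trans hm),
        map_one]
    calc ι h * x * (σ (ι h) * σ y) = (ι h * σ (ι h)) * (x * σ y) := by ring
      _ = x * σ y := by rw [this, one_mul]

theorem sd_main {F : Type*} [Field F] [Fintype F] {H : Type*} [CommGroup H] [Finite H] {V : Type*} [AddCommGroup V] [Module F V] [FiniteDimensional F V] (ρ : Representation F H V) (hfaith : Function.Injective ρ) (hirr : ∀ U : Submodule F V, (∀ h : H, ∀ u ∈ U, ρ h u ∈ U) → U = ⊥ ∨ U = ⊤)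
    {K : Type*} [Field K] [Algebra F K] (e : V ≃ₗ[F] K) (ι : H →* K)
    (he : ∀ h v, e (ρ h v) = ι h * e v) : (Module.finrank F V = 1 → (∃ B : LinearMap.BilinForm F V, B.Nondegenerate ∧ ∀ h : H, ∀ x y : V, B (ρ h x) (ρ h y) = B x y) → Nat.card H ≤ 2) ∧ (2 ≤ Module.finrank F V → ((∃ B : LinearMap.BilinForm F V, B.Nondegenerate ∧ ∀ h : H, ∀ x y : V, B (ρ h x) (ρ h y) = B x y) ↔ (Even (Module.finrank F V) ∧ Nat.card H ∣ Fintype.card F ^ (Module.finrank F V / 2) + 1))) := by
  haveI : FiniteDimensional F K := Module.Finite.equiv e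
  have hs := sd_span ρ hirr e ι he
  have hι : Function.Injective ι := by
    intro a b hab
    apply hfaith
    ext v
    apply e.injective
    rw [he, he, hab]
  have he' : ∀ h x, e.symm (ι h * x) = ρ h (e.symm x) := by
    intro h x
    apply e.injective
    rw [he]; simp
  have key : (∃ B : LinearMap.BilinForm F V, B.Nondegenerate ∧ ∀ h : H, ∀ x y : V, B (ρ h x) (ρ h y) = B x y) →
      ∃ m, Nat.card H ∣ Fintype.card F ^ m + 1 ∧
      ((m = 0 ∧ Module.finrank F V ≤ 1) ∨ Module.finrank F V = 2 * m) := by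
    rintro ⟨B, hB, hinv⟩
    obtain ⟨σ, hσ⟩ := sd_aut ι hs (LinearMap.BilinForm.congr e B) (hB.congr e) (fun h x y => by
      simp only [LinearMap.BilinForm.congr_apply, he', hinv])
    rw [e.finrank_eq]
    exact sd_frob ι hι hs σ hσ
  refine ⟨fun h1 hB => ?_, fun h2 => ⟨fun hB => ?_, ?_⟩⟩
  · obtain ⟨m, hm, h | h⟩ := key hB
    · rw [h.1] at hm
      exact Nat.le_of_dvd (by norm_num) hm
    · omega
  · obtain ⟨m, hm, h | h⟩ := key hB
    · omega
    · refine ⟨⟨m, by omega⟩, ?_⟩
      rwa [h, Nat.mul_div_cancel_left _ (by norm_num)]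
  · rintro ⟨-, hm⟩
    obtain ⟨B, hB, hinv⟩ := sd_form ι _ hm
    refine ⟨LinearMap.BilinForm.congr e.symm B, hB.congr e.symm, fun h x y => ?_⟩
    simp only [LinearMap.BilinForm.congr_apply, LinearEquiv.symm_symm, he, hinv]

end H2
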