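import Cfsg.Agent.H2.SD1
import Cfsg.Agent.H1.Zsig

set_option autoImplicit false

namespace H2

theorem sd_pp {q p k m : ℕ} (hp : p.Prime) (hk : 0 < k) (hq : q = p ^ k) (h : q + 1 = 2 ^ m) :
    q.Prime := by
  subst hq
  have h1 : 1 < p ^ k := Nat.one_lt_pow hk.ne' hp.one_lt
  rcases Nat.even_or_odd k with he | ho
  · exfalso
    obtain ⟨j, rfl⟩ := he
    have h4 : 4 ∣ 2 ^ m := by
      rcases m with _ | _ | m
      · omega
      · omega
      · exact Dvd.intro_left (2 ^ m) (by ring)
    rw [← h, pow_add] at h4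
    rcases Nat.even_or_odd' (p ^ j) with ⟨c, hc | hc⟩
    · rw [hc] at h4
      have : 2 * c * (2 * c) + 1 = 4 * (c * c) + 1 := by ring
      omega
    · rw [hc] at h4
      have : (2 * c + 1) * (2 * c + 1) + 1 = 4 * (c * c + c) + 2 := by ring
      omega
  · by_cases h1k : k = 1
    · subst h1k; simpa using hp
    · exfalso
      have hk2 : 1 < 2 * k := by omega
      obtain ⟨r, hr, hd, hn⟩ := H1B.zsigmondy (a := p) (n := 2 * k) hp.one_lt hk2 (by
        rintro ⟨rfl, h6⟩
        have : k = 3 := by omega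
        subst this
        have : 3 ∣ 2 ^ m := by rw [← h]; norm_num
        have := Nat.Prime.dvd_of_dvd_pow Nat.prime_three this
        omega) (by omega)
      have e : p ^ (2 * k) - 1 = (p ^ k + 1) * (p ^ k - 1) := by
        rw [mul_comm 2 k, pow_mul, ← Nat.sq_sub_sq]
      rw [e] at hd
      rcases (Nat.Prime.dvd_mul hr).1 hd with h2 | h2
      · rw [h] at h2
        have := (Nat.prime_dvd_prime_iff_eq hr Nat.prime_two).1 (hr.dvd_of_dvd_pow h2)
        subst this
        apply hn 1 one_pos hk2
        have hpo : Odd p := by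
          by_contra hne
          rw [Nat.not_odd_iff_even] at hne
          have : Even (p ^ k) := (Nat.even_pow' hk.ne').2 hne
          rw [← h] at h2
          obtain ⟨c, hc⟩ := this
          omega
        obtain ⟨c, hc⟩ := hpo
        rw [pow_one]; omega
      · exact hn k hk (by omega) h2

theorem sd_fix {F V : Type*} [Field F] [Fintype F] [AddCommGroup V] [Module F V] [Finite V]
    (x : Module.End F V) {r : ℕ} (hr : r.Prime) (hx : x ^ r = 1) :
    Fintype.card F ^ Module.finrank F V ≡
      Fintype.card F ^ Module.finrank F (LinearMap.ker (x - 1)) [MOD r] := by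
  classical
  haveI := Fact.mk hr
  haveI := Fintype.ofFinite V
  haveI := Fintype.ofFinite (LinearMap.ker (x - 1))
  have h1 : (show Function.End V from ⇑x) ^ r ^ 1 = 1 := by
    rw [pow_one]
    funext v
    have : ∀ n : ℕ, ((show Function.End V from ⇑x) ^ n) v = (x ^ n) v := by
      intro n
      rw [Module.End.coe_pow]; rfl
    rw [this, hx]; rfl
  have := Equiv.Perm.card_fixedPoints_modEq h1
  rw [← Module.card_eq_pow_finrank, ← Module.card_eq_pow_finrank]
  convert this using 1
  refine Fintype.card_congr (Equiv.subtypeEquivRight (fun v => ?_))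
  simp [Function.mem_fixedPoints, Function.IsFixedPt, sub_eq_zero]

theorem sd_irr {F V : Type*} [Field F] [Fintype F] [AddCommGroup V] [Module F V] [Finite V]
    (x : Module.End F V) {r : ℕ} (hr : r.Prime) (hx : x ^ r = 1) (hx1 : x ≠ 1)
    (hd : r ∣ Fintype.card F ^ Module.finrank F V - 1)
    (hn : ∀ k, 0 < k → k < Module.finrank F V → ¬ r ∣ Fintype.card F ^ k - 1)
    (W : Submodule F V) (hW : ∀ w ∈ W, x w ∈ W) : W = ⊥ ∨ W = ⊤ := by
  by_contra hc
  push Not at hc
  have hq : ∀ k, 1 ≤ Fintype.card F ^ k := fun k => Nat.one_le_pow _ _ Fintype.card_pos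
  have h1 := sd_fix (x.restrict hW) hr (by
    ext w
    rw [Module.End.pow_restrict, LinearMap.restrict_apply]
    simp [hx])
  have h2 := sd_fix x hr hx
  have hWpos : 0 < Module.finrank F W := by
    rw [Nat.pos_iff_ne_zero, Ne, Submodule.finrank_eq_zero]; exact hc.1
  have hWlt : Module.finrank F W < Module.finrank F V := Submodule.finrank_lt hc.2
  have h3 : LinearMap.ker (x.restrict hW - 1) ≠ ⊥ := by
    intro h
    rw [h, finrank_bot, pow_zero] at h1
    exact hn _ hWpos hWlt ((Nat.modEq_iff_dvd' (hq _)).1 h1.symm)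
  obtain ⟨w, hw, hw0⟩ := Submodule.exists_mem_ne_zero_of_ne_bot h3
  have h4 : LinearMap.ker (x - 1) ≠ ⊥ := by
    intro h
    have : (w : V) ∈ LinearMap.ker (x - 1) := by
      rw [LinearMap.mem_ker] at hw ⊢
      have := congrArg Subtype.val hw
      simpa [LinearMap.restrict_apply] using this
    rw [h, Submodule.mem_bot] at this
    exact hw0 (Subtype.ext this)
  have h5 : LinearMap.ker (x - 1) ≠ ⊤ := by
    intro h
    rw [LinearMap.ker_eq_top, sub_eq_zero] at h
    exact hx1 h
  refine hn _ ?_ (Submodule.finrank_lt h5) ((Nat.modEq_iff_dvd' (hq _)).1 ?_)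
  · rw [Nat.pos_iff_ne_zero, Ne, Submodule.finrank_eq_zero]; exact h4
  · exact (((Nat.modEq_iff_dvd' (hq _)).2 hd).trans h2)

end H2
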