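import Cfsg.Agent.H1.XS
import Cfsg.Prelude.Def_KGroupFacts
import Cfsg.Prelude.Def_Classical

/-! The outer automorphism group of an extraspecial 2-group is an orthogonal group. -/

set_option autoImplicit false

namespace H2.XO

open Cfsg Matrix

local notation "F" => ZMod 2

variable {ι : Type} [Fintype ι] [DecidableEq ι]

/-- the central extension of `ι → F` by `F` with cocycle `B` -/
@[ext] structure EB (B : (ι → F) →ₗ[F] (ι → F) →ₗ[F] F) where
  v : ι → F
  a : F

variable {B : (ι → F) →ₗ[F] (ι → F) →ₗ[F] F}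

instance : Mul (EB B) := ⟨fun x y => ⟨x.v + y.v, x.a + y.a + B x.v y.v⟩⟩
instance : One (EB B) := ⟨⟨0, 0⟩⟩
instance : _root_.Inv (EB B) := ⟨fun x => ⟨-x.v, -x.a + B x.v x.v⟩⟩

@[simp] theorem mul_v (x y : EB B) : (x * y).v = x.v + y.v := rfl
@[simp] theorem mul_a (x y : EB B) : (x * y).a = x.a + y.a + B x.v y.v := rfl
@[simp] theorem one_v : (1 : EB B).v = 0 := rfl
@[simp] theorem one_a : (1 : EB B).a = 0 := rfl
@[simp] theorem inv_v (x : EB B) : (x⁻¹).v = -x.v := rfl
@[simp] theorem inv_a (x : EB B) : (x⁻¹).a = -x.a + B x.v x.v := rfl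

instance : Group (EB B) := Group.ofLeftAxioms
  (fun x y z => by ext <;> simp [add_assoc]; ring)
  (fun x => by ext <;> simp)
  (fun x => by
    ext1
    · exact neg_add_cancel _
    · rw [mul_a, inv_a, inv_v, map_neg, LinearMap.neg_apply, one_a]; ring)

def eqv : EB B ≃ (ι → F) × F := ⟨fun x => (x.v, x.a), fun p => ⟨p.1, p.2⟩, fun _ => rfl, fun _ => rfl⟩

instance : Finite (EB B) := Finite.of_equiv _ eqv.symm

theorem card_EB : Nat.card (EB B) = 2 ^ (Fintype.card ι + 1) := by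
  rw [Nat.card_congr eqv]; simp [pow_succ]

theorem h2 : (2 : F) = 0 := rfl
theorem vneg (v : ι → F) : -v = v := funext fun i => ZMod.neg_eq_self_mod_two _
theorem vadd (v : ι → F) : v + v = 0 := by rw [add_eq_zero_iff_eq_neg, vneg]

/-- nondegeneracy of the polar form -/
def ND (B : (ι → F) →ₗ[F] (ι → F) →ₗ[F] F) : Prop := ∀ v, (∀ w, B v w = B w v) → v = 0

def zz : EB B := ⟨0, 1⟩

theorem eq_one_or {x : EB B} (h : x.v = 0) : x = 1 ∨ x = zz := by
  obtain ⟨v, a⟩ := x
  simp only at h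
  subst h
  have : a = 0 ∨ a = 1 := by revert a; decide
  rcases this with rfl | rfl
  · left; rfl
  · right; rfl

theorem zz_ne : (zz : EB B) ≠ 1 := fun h => by simpa [zz] using congrArg EB.a h
theorem zz_comm (x : EB B) : x * zz = zz * x := by ext <;> simp [zz, add_comm]
theorem mem_zp {x : EB B} (h : x.v = 0) : x ∈ Subgroup.zpowers (zz : EB B) := by
  rcases eq_one_or h with rfl | rfl
  · exact Subgroup.one_mem _
  · exact Subgroup.mem_zpowers _

theorem central (h : ND B) {x : EB B} (hx : ∀ y, y * x = x * y) : x.v = 0 := h _ fun w => by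
  have := congrArg EB.a (hx ⟨w, 0⟩)
  simpa using this.symm

theorem xs (h : ND B) : H1B.XS 2 (⊤ : Subgroup (EB B)) zz := by
  have hz : (zz : EB B) ∈ Subgroup.centralizer ((⊤ : Subgroup (EB B)) : Set (EB B)) :=
    fun x _ => zz_comm x
  refine ⟨⟨trivial, orderOf_eq_prime (by rw [pow_two]; ext <;> simp [zz]; rfl) zz_ne, hz,
    fun a _ b _ => mem_zp (by simp [commutatorElement_def]),
    fun a _ => mem_zp (by simp [pow_two, vadd])⟩, le_antisymm (fun x hx => ?_) ?_⟩
  · exact mem_zp (central h fun y => hx.2 y trivial)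
  · exact Subgroup.zpowers_le.2 ⟨trivial, hz⟩

theorem aut_zz (h : ND B) (φ : MulAut (EB B)) : φ zz = zz := by
  have : (φ zz).v = 0 := central h fun y => by
    obtain ⟨y, rfl⟩ := φ.surjective y
    rw [← map_mul, ← map_mul, zz_comm]
  exact (eq_one_or this).resolve_left fun e => zz_ne (by simpa using e)

theorem aut_cen (h : ND B) (φ : MulAut (EB B)) (a : F) : φ ⟨0, a⟩ = ⟨0, a⟩ := by
  rcases eq_one_or (x := (⟨0, a⟩ : EB B)) rfl with e | e <;> rw [e]
  · exact map_one φ
  · exact aut_zz h φ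

theorem aut_apply (h : ND B) (φ : MulAut (EB B)) (x : EB B) :
    φ x = ⟨(φ ⟨x.v, 0⟩).v, (φ ⟨x.v, 0⟩).a + x.a⟩ := by
  have : x = ⟨x.v, 0⟩ * ⟨0, x.a⟩ := by ext <;> simp
  conv_lhs => rw [this, map_mul, aut_cen h]
  ext <;> simp

/-- the linear map induced on the central quotient -/
def lin (h : ND B) (φ : MulAut (EB B)) : (ι → F) →ₗ[F] (ι → F) :=
  (AddMonoidHom.mk' (fun v => (φ ⟨v, 0⟩).v) fun v w => by
    have := congrArg EB.v (aut_apply h φ (⟨v, 0⟩ * ⟨w, 0⟩))
    rw [map_mul] at this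
    exact this.symm).toZModLinearMap 2

theorem lin_apply (h : ND B) (φ : MulAut (EB B)) (x : EB B) : lin h φ x.v = (φ x).v := by
  rw [aut_apply h φ x]; rfl

def linH (h : ND B) : MulAut (EB B) →* Module.End F (ι → F) :=
  { toFun := lin h
    map_one' := LinearMap.ext fun v => lin_apply h 1 ⟨v, 0⟩
    map_mul' := fun φ ψ => LinearMap.ext fun v => by
      have e1 := lin_apply h (φ * ψ) ⟨v, 0⟩
      have e2 := lin_apply h ψ ⟨v, 0⟩
      have e3 := lin_apply h φ (ψ ⟨v, 0⟩)
      simp only at e1 e2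
      rw [Module.End.mul_apply, e1, e2, e3]; rfl }

noncomputable def glH (h : ND B) : MulAut (EB B) →* GL ι F :=
  (((LinearMap.toMatrixAlgEquiv' (R := F) (n := ι)).toMulEquiv.toMonoidHom).comp (linH h)).toHomUnits

theorem glH_mulVec (h : ND B) (φ : MulAut (EB B)) (x : EB B) :
    (glH h φ : Matrix ι ι F) *ᵥ x.v = (φ x).v := by
  rw [← lin_apply h]
  exact LinearMap.toMatrix'_mulVec (lin h φ) x.v

theorem glH_mem (h : ND B) (φ : MulAut (EB B)) : glH h φ ∈ isometryGroup F fun v => B v v := by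
  intro u _
  have e := glH_mulVec h φ ⟨u, 0⟩
  simp only at e
  simp only [Units.coeHom_apply, e]
  have e1 : (⟨u, 0⟩ * ⟨u, 0⟩ : EB B) = ⟨0, B u u⟩ := by ext1 <;> simp [vadd]
  have e2 := congrArg EB.a (aut_cen h φ (B u u))
  rw [← e1, map_mul, e1] at e2
  simp only [mul_a] at e2
  linear_combination e2 - (φ ⟨u, 0⟩).a * h2

theorem exists_quad (D : (ι → F) →ₗ[F] (ι → F) →ₗ[F] F) (hD : ∀ v, D v v = 0) :
    ∃ f : (ι → F) → F, ∀ v w, f (v + w) = f v + f w + D v w := by
  letI : LinearOrder ι := LinearOrder.lift' (Fintype.equivFin ι) (Fintype.equivFin ι).injective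
  set m : ι → ι → F := fun i j => D (Pi.single i 1) (Pi.single j 1) with hm
  have hs : ∀ i j, m i j = m j i := fun i j => by
    have := hD (Pi.single i 1 + Pi.single j 1)
    simp only [map_add, LinearMap.add_apply, hD] at this
    simp only [hm]
    linear_combination -this + D (Pi.single i 1) (Pi.single j 1) * h2
  have hexp : ∀ v w, D v w = ∑ i, ∑ j, v i * w j * m i j := fun v w => by
    conv_lhs => rw [pi_eq_sum_univ' v, pi_eq_sum_univ' w]
    simp only [map_sum, map_smul, LinearMap.sum_apply, LinearMap.smul_apply, smul_eq_mul,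
      Finset.mul_sum, hm]
    rw [Finset.sum_comm]
    refine Finset.sum_congr rfl fun i _ => Finset.sum_congr rfl fun j _ => ?_
    ring
  refine ⟨fun v => ∑ i, ∑ j, if i < j then v i * v j * m i j else 0, fun v w => ?_⟩
  have e1 : ∑ i, ∑ j, (if i < j then w i * v j * m i j else 0) =
      ∑ i, ∑ j, if j < i then v i * w j * m i j else 0 := by
    rw [Finset.sum_comm]
    refine Finset.sum_congr rfl fun i _ => Finset.sum_congr rfl fun j _ => ?_
    rw [hs j i, mul_comm (w j)]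
  have e2 : D v w = ∑ i, ∑ j, (if i < j then v i * w j * m i j else 0) +
      ∑ i, ∑ j, (if i < j then w i * v j * m i j else 0) := by
    rw [e1, hexp, ← Finset.sum_add_distrib]
    refine Finset.sum_congr rfl fun i _ => ?_
    rw [← Finset.sum_add_distrib]
    refine Finset.sum_congr rfl fun j _ => ?_
    rcases lt_trichotomy i j with h | rfl | h
    · simp [h, h.not_gt]
    · simp [hm, hD]
    · simp [h, h.not_gt]
  rw [e2]
  simp only [← Finset.sum_add_distrib]
  refine Finset.sum_congr rfl fun i _ => Finset.sum_congr rfl fun j _ => ?_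
  split_ifs
  · simp only [Pi.add_apply]; ring
  · simp

theorem glH_surj (h : ND B) (g : GL ι F) (hg : g ∈ isometryGroup F fun v => B v v) :
    ∃ φ, glH h φ = g := by
  set T : (ι → F) →ₗ[F] (ι → F) := Matrix.toLin' (g : Matrix ι ι F) with hT
  obtain ⟨f, hf⟩ := exists_quad (B.compl₁₂ T T - B) fun v => by
    have := hg v v
    simp only [Units.coeHom_apply] at this
    simp [hT, this]
  let ψ : EB B →* EB B := MonoidHom.mk' (fun x => ⟨T x.v, x.a + f x.v⟩) fun x y => by
    ext1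
    · simp
    · simp only [mul_a, mul_v, hf, LinearMap.sub_apply, LinearMap.compl₁₂_apply]; ring
  have hinj : Function.Injective ψ := by
    intro x y e
    have e1 : T x.v = T y.v := congrArg EB.v e
    have e2 : x.a + f x.v = y.a + f y.v := congrArg EB.a e
    have e3 : x.v = y.v := by
      have := congrArg (fun u => ((g⁻¹ : GL ι F) : Matrix ι ι F) *ᵥ u) e1
      simpa [hT, Matrix.mulVec_mulVec] using this
    rw [e3] at e2
    exact EB.ext e3 (add_right_cancel e2)
  refine ⟨MulEquiv.ofBijective ψ (Finite.injective_iff_bijective.1 hinj), Units.ext ?_⟩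
  refine Matrix.toLin'.injective (LinearMap.ext fun v => ?_)
  rw [Matrix.toLin'_apply]
  exact glH_mulVec h _ ⟨v, 0⟩

theorem ker_glH (h : ND B) : (glH h).ker = Inn (EB B) := by
  ext φ
  rw [MonoidHom.mem_ker]
  constructor
  · intro e
    have hv : ∀ x : EB B, (φ x).v = x.v := fun x => by rw [← glH_mulVec h, e]; simp
    let lam : (ι → F) →ₗ[F] F := (AddMonoidHom.mk' (fun v => (φ ⟨v, 0⟩).a) fun v w => by
      have := congrArg EB.a (aut_apply h φ (⟨v, 0⟩ * ⟨w, 0⟩))
      rw [map_mul] at this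
      simp only [mul_a, mul_v, hv, zero_add] at this
      exact (add_right_cancel this).symm).toZModLinearMap 2
    have hinj : Function.Injective (B - B.flip) := by
      rw [injective_iff_map_eq_zero]
      intro v hv
      exact h v fun w => sub_eq_zero.1 (by simpa using LinearMap.congr_fun hv w)
    obtain ⟨u, hu⟩ := (LinearMap.injective_iff_surjective_of_finrank_eq_finrank
      (Subspace.dual_finrank_eq (K := F) (V := ι → F)).symm).1 hinj lam
    refine ⟨⟨u, 0⟩, MulEquiv.ext fun x => ?_⟩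
    have := LinearMap.congr_fun hu x.v
    have e2 : lam x.v = (φ ⟨x.v, 0⟩).a := rfl
    rw [aut_apply h φ x, hv, ← e2, ← this]
    ext1
    · simp
    · simp; linear_combination (B u u + B x.v u) * h2
  · rintro ⟨x, rfl⟩
    refine Units.ext (Matrix.toLin'.injective (LinearMap.ext fun v => ?_))
    rw [Matrix.toLin'_apply, glH_mulVec h _ ⟨v, 0⟩]
    simp

theorem out_EB (h : ND B) : Nonempty (Out (EB B) ≃* isometryGroup F fun v => B v v) := by
  let π := (glH h).codRestrict _ (glH_mem h)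
  have hs : Function.Surjective π := fun g => by
    obtain ⟨φ, e⟩ := glH_surj h g.1 g.2
    exact ⟨φ, Subtype.ext e⟩
  have hk : π.ker = Inn (EB B) := by rw [MonoidHom.ker_codRestrict, ker_glH]
  exact ⟨(QuotientGroup.quotientMulEquivOfEq hk.symm).trans
    (QuotientGroup.quotientKerEquivOfSurjective π hs)⟩

theorem out_congr {E E' : Type*} [Group E] [Group E'] (e : E ≃* E') : Nonempty (Out E ≃* Out E') := by
  refine ⟨QuotientGroup.congr (Inn E) (Inn E') (MulAut.congr e) ?_⟩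
  ext φ
  constructor
  · rintro ⟨_, ⟨x, rfl⟩, rfl⟩
    exact ⟨e x, by ext y; simp⟩
  · rintro ⟨y, rfl⟩
    exact ⟨_, ⟨e.symm y, rfl⟩, by ext x; simp⟩

/-- the sign character of `F` -/
def chi (a : F) : ℤ := if a = 0 then 1 else -1

theorem chi_add : ∀ a b : F, chi (a + b) = chi a * chi b := by decide

theorem chi_sum {κ : Type*} (s : Finset κ) (f : κ → F) : chi (∑ i ∈ s, f i) = ∏ i ∈ s, chi (f i) := by
  classical
  induction s using Finset.induction_on with
  | empty => rfl
  | insert i s hi ih => rw [Finset.sum_insert hi, Finset.prod_insert hi, chi_add, ih]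

theorem nsq_EB : (H1B.nsq (⊤ : Subgroup (EB B)) : ℤ) = 2 ^ Fintype.card ι + ∑ v, chi (B v v) := by
  have e : {x : EB B // x ^ 2 = 1} ≃ {v : ι → F // B v v = 0} × F :=
    ⟨fun x => (⟨x.1.v, by
        have := congrArg EB.a x.2
        simp only [pow_two, mul_a, one_a] at this
        linear_combination this - x.1.a * h2⟩, x.1.a),
      fun p => ⟨⟨p.1.1, p.2⟩, by
        ext1
        · simp [pow_two, vadd]
        · simp only [pow_two, mul_a, one_a, p.1.2]; linear_combination p.2 * h2⟩,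
      fun _ => rfl, fun _ => rfl⟩
  rw [H1B.nsq_top, Nat.card_congr e, Nat.card_prod, Nat.card_zmod, Nat.card_eq_fintype_card,
    Fintype.card_subtype, Finset.card_filter]
  have : (2 : ℤ) ^ Fintype.card ι = ∑ _v : ι → F, 1 := by simp
  push_cast
  rw [this, ← Finset.sum_add_distrib, Finset.sum_mul]
  refine Finset.sum_congr rfl fun v _ => ?_
  unfold chi
  split_ifs <;> norm_num

theorem sum_plus (n : ℕ) :
    ∑ v : Fin n ⊕ Fin n → F, chi (∑ i, v (.inl i) * v (.inr i)) = 2 ^ n := by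
  have h1 : ∑ p : F × F, chi (p.1 * p.2) = 2 := by decide
  have := Finset.prod_univ_sum (fun _ : Fin n => (Finset.univ : Finset (F × F)))
    fun _ p => chi (p.1 * p.2)
  rw [Fintype.piFinset_univ] at this
  simp only [h1, Finset.prod_const, Finset.card_univ, Fintype.card_fin] at this
  rw [this]
  refine Fintype.sum_equiv ((Equiv.sumArrowEquivProdArrow _ _ _).trans
    (Equiv.arrowProdEquivProdArrow _ _ _).symm) _ _ fun v => ?_
  rw [chi_sum]; rfl

/-- product of two coordinates -/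
def co (i j : ι) : (ι → F) →ₗ[F] (ι → F) →ₗ[F] F :=
  (LinearMap.mul F F).compl₁₂ (LinearMap.proj i) (LinearMap.proj j)

omit [Fintype ι] [DecidableEq ι] in
@[simp] theorem co_apply (i j : ι) (v w : ι → F) : co i j v w = v i * w j := rfl

def Bp (n : ℕ) : (Fin n ⊕ Fin n → F) →ₗ[F] (Fin n ⊕ Fin n → F) →ₗ[F] F :=
  ∑ i, co (.inl i) (.inr i)

def Bm (n : ℕ) : ((Fin n ⊕ Fin n) ⊕ Fin 2 → F) →ₗ[F] ((Fin n ⊕ Fin n) ⊕ Fin 2 → F) →ₗ[F] F :=
  ∑ i, co (.inl (.inl i)) (.inl (.inr i)) +
    (co (.inr 0) (.inr 0) + co (.inr 0) (.inr 1) + co (.inr 1) (.inr 1))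

theorem Bp_apply (n : ℕ) (v w) : Bp n v w = ∑ i, v (.inl i) * w (.inr i) := by
  simp [Bp, LinearMap.sum_apply]

theorem Bm_apply (n : ℕ) (v w) : Bm n v w = ∑ i, v (.inl (.inl i)) * w (.inl (.inr i)) +
    (v (.inr 0) * w (.inr 0) + v (.inr 0) * w (.inr 1) + v (.inr 1) * w (.inr 1)) := by
  simp [Bm, LinearMap.sum_apply]

theorem nd_p (n : ℕ) : ND (Bp n) := fun v hv => by
  ext (i | i)
  · simpa [Bp_apply, Pi.single_apply] using hv (Pi.single (.inr i) 1)
  · simpa [Bp_apply, Pi.single_apply] using (hv (Pi.single (.inl i) 1)).symm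

theorem nd_m (n : ℕ) : ND (Bm n) := fun v hv => by
  ext ((i | i) | i)
  · simpa [Bm_apply, Pi.single_apply] using hv (Pi.single (.inl (.inr i)) 1)
  · simpa [Bm_apply, Pi.single_apply] using (hv (Pi.single (.inl (.inl i)) 1)).symm
  · fin_cases i
    · simpa [Bm_apply, Pi.single_apply] using hv (Pi.single (.inr 1) 1)
    · simpa [Bm_apply, Pi.single_apply] using (hv (Pi.single (.inr 0) 1)).symm

theorem sum_minus (n : ℕ) : ∑ v, chi (Bm n v v) = -2 ^ (n + 1) := by
  have h1 : ∑ z : Fin 2 → F, chi (z 0 * z 0 + z 0 * z 1 + z 1 * z 1) = -2 := by decide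
  rw [pow_succ, ← mul_neg, ← h1, ← sum_plus n, Finset.sum_mul_sum, ← Fintype.sum_prod_type']
  refine Fintype.sum_equiv (Equiv.sumArrowEquivProdArrow _ _ _) _ _ fun v => ?_
  rw [Bm_apply, chi_add]; rfl

theorem model {E : Type*} [Group E] [Finite E] {z : E} (hE : H1B.XS 2 (⊤ : Subgroup E) z) {n : ℕ}
    (hcard : Nat.card E = 2 ^ (2 * n + 1)) (h : ND B) (hι : Fintype.card ι = 2 * n)
    (hs : H1B.nsq (⊤ : Subgroup E) = H1B.nsq (⊤ : Subgroup (EB B))) : Nonempty (E ≃* EB B) := by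
  have c1 : Nat.card (⊤ : Subgroup E) = 2 ^ (2 * n + 1) := by rw [Subgroup.card_top, hcard]
  have c2 : Nat.card (⊤ : Subgroup (EB B)) = 2 ^ (2 * n + 1) := by
    rw [Subgroup.card_top, card_EB, hι]
  obtain ⟨e⟩ := (hE.gr_two (xs h) c1 c2 hs).equiv (c1.trans c2.symm)
  exact ⟨Subgroup.topEquiv.symm.trans (e.trans Subgroup.topEquiv)⟩

theorem model_plus {E : Type*} [Group E] [Finite E] (hE : IsExtraspecial 2 E) {n : ℕ}
    (hcard : Nat.card E = 2 ^ (2 * n + 1))
    (hA : ∃ A : Subgroup E, IsElementaryAbelian 2 A ∧ Nat.card A = 2 ^ (n + 1)) :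
    Nonempty (E ≃* EB (Bp n)) := by
  obtain ⟨z, hz, -⟩ := H1B.xs_top hE
  have c1 : Nat.card (⊤ : Subgroup E) = 2 ^ (2 * n + 1) := by rw [Subgroup.card_top, hcard]
  refine model hz hcard (nd_p n) (by simp [two_mul]) ?_
  have a1 : H1B.nsq (⊤ : Subgroup E) = 2 ^ (2 * n) + 2 ^ n := by
    by_contra hne
    obtain ⟨A, h1, h2⟩ := hA
    have := (hz.rk c1).2 hne A le_top h1
    rw [h2, pow_succ] at this
    have : 0 < 2 ^ n := by positivity
    omega
  have a2 := nsq_EB (B := Bp n)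
  simp only [Bp_apply, sum_plus, Fintype.card_sum, Fintype.card_fin, ← two_mul] at a2
  rw [a1]
  exact_mod_cast a2.symm

theorem model_minus {E : Type*} [Group E] [Finite E] (hE : IsExtraspecial 2 E) {n : ℕ}
    (hcard : Nat.card E = 2 ^ (2 * (n + 1) + 1))
    (hA : ¬ ∃ A : Subgroup E, IsElementaryAbelian 2 A ∧ Nat.card A = 2 ^ (n + 1 + 1)) :
    Nonempty (E ≃* EB (Bm n)) := by
  obtain ⟨z, hz, -⟩ := H1B.xs_top hE
  have c1 : Nat.card (⊤ : Subgroup E) = 2 ^ (2 * (n + 1) + 1) := by rw [Subgroup.card_top, hcard]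
  have hι : Fintype.card ((Fin n ⊕ Fin n) ⊕ Fin 2) = 2 * (n + 1) := by simp; ring
  refine model hz hcard (nd_m n) hι ?_
  have a1 : H1B.nsq (⊤ : Subgroup E) + 2 ^ (n + 1) = 2 ^ (2 * (n + 1)) := by
    obtain ⟨A, -, h1, h2 | h2⟩ := hz.exists_ea c1
    · exact absurd ⟨A, h1, h2⟩ hA
    · exact ((hz.count c1).resolve_left h2.1).2
  have a2 := nsq_EB (B := Bm n)
  rw [sum_minus, hι] at a2
  have a3 : (H1B.nsq (⊤ : Subgroup E) : ℤ) + 2 ^ (n + 1) = 2 ^ (2 * (n + 1)) := by exact_mod_cast a1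
  have : (H1B.nsq (⊤ : Subgroup E) : ℤ) = H1B.nsq (⊤ : Subgroup (EB (Bm n))) := by linarith
  exact_mod_cast this

theorem out_extraspecial {E : Type*} [Group E] [Finite E] (hE : IsExtraspecial 2 E) (n : ℕ)
    (hn : 1 ≤ n) (hcard : Nat.card E = 2 ^ (2 * n + 1)) :
    ((∃ A : Subgroup E, IsElementaryAbelian 2 A ∧ Nat.card ↥A = 2 ^ (n + 1)) →
      Nonempty (Out E ≃* isometryGroup F (quadFormPlus n F))) ∧
    ((¬ ∃ A : Subgroup E, IsElementaryAbelian 2 A ∧ Nat.card ↥A = 2 ^ (n + 1)) →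
      Nonempty (Out E ≃* isometryGroup F (quadFormMinus (n - 1) F 1 1))) := by
  constructor
  · intro hA
    obtain ⟨e⟩ := model_plus hE hcard hA
    obtain ⟨e1⟩ := out_congr e
    obtain ⟨e2⟩ := out_EB (nd_p n)
    have : (fun v => Bp n v v) = quadFormPlus n F := funext fun v => Bp_apply n v v
    rw [this] at e2
    exact ⟨e1.trans e2⟩
  · intro hA
    obtain ⟨m, rfl⟩ : ∃ m, n = m + 1 := ⟨n - 1, by omega⟩
    obtain ⟨e⟩ := model_minus hE hcard hA
    obtain ⟨e1⟩ := out_congr e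
    obtain ⟨e2⟩ := out_EB (nd_m m)
    have : (fun v => Bm m v v) = quadFormMinus m F 1 1 := funext fun v => by
      rw [Bm_apply, quadFormMinus]; ring
    rw [this] at e2
    exact ⟨e1.trans e2⟩

end H2.XO
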